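import Mathlib
import Cfsg.Agent.Lib.CL.NormalMinimal2
import Cfsg.Agent.Lib.Push.Baumann
import Cfsg.Agent.Lib.Push.Orbit
import Cfsg.Agent.Lib.Core.Frattini

/-!
Centrally large subgroups of a subgroup of an ambient group.
-/

set_option autoImplicit false
set_option linter.unusedSectionVars false

namespace CfsgLib.GN

open Subgroup Cfsg CfsgLib.LAE CfsgLib.PLocal CfsgLib.Push
open scoped commutatorElement

variable {G : Type*} [Group G]

/-- `R` is a centrally large subgroup of `S`. -/
def CLIn (S R : Subgroup G) : Prop :=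
  R ≤ S ∧ Nat.card R * Nat.card (cen R R) = maxCentralProduct S

/-- `R` is a minimal centrally large subgroup of `S`. -/
def MCLIn (S R : Subgroup G) : Prop := CLIn S R ∧ ∀ R' ≤ R, CLIn S R' → R' = R

variable {S T R Q : Subgroup G}

theorem map_subgroupOf_of_le (h : R ≤ S) : (R.subgroupOf S).map S.subtype = R := by
  rw [subgroupOf_map_subtype, inf_eq_left.2 h]

theorem subgroupOf_map (K : Subgroup S) : (K.map S.subtype).subgroupOf S = K :=
  comap_map_eq_self_of_injective S.subtype_injective K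

theorem card_center_map {G' : Type*} [Group G'] {f : G →* G'} (hf : Function.Injective f)
    (K : Subgroup G) : Nat.card (cen (K.map f) (K.map f)) = Nat.card (center K) := by
  rw [← map_cen hf, card_map_of_injective hf, CL.card_center_eq]

theorem clIn_map_iff {K : Subgroup S} : CLIn S (K.map S.subtype) ↔ IsCentrallyLarge K := by
  rw [CLIn, card_center_map S.subtype_injective, card_map_subtype, IsCentrallyLarge]
  exact and_iff_right (map_subtype_le K)

theorem CLIn.sub (h : CLIn S R) : IsCentrallyLarge (R.subgroupOf S) :=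
  clIn_map_iff.1 (by rwa [map_subgroupOf_of_le h.1])

theorem mclIn_map_iff {K : Subgroup S} : MCLIn S (K.map S.subtype) ↔ IsMinimalCentrallyLarge K := by
  refine and_congr clIn_map_iff ⟨fun h K' h1 h2 => ?_, fun h R' h1 h2 => ?_⟩
  · exact map_injective S.subtype_injective (h _ (map_mono h1) (clIn_map_iff.2 h2))
  · rw [← map_subgroupOf_of_le h2.1, h (R'.subgroupOf S)
      ((subgroupOf_mono S h1).trans (subgroupOf_map K).le) h2.sub]

theorem MCLIn.sub (h : MCLIn S R) : IsMinimalCentrallyLarge (R.subgroupOf S) :=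
  mclIn_map_iff.1 (by rwa [map_subgroupOf_of_le h.1.1])

theorem measure_map {A B : Type*} [Group A] [Group B] {f : A →* B} (hf : Function.Injective f)
    (R : Subgroup A) : Nat.card (R.map f) * Nat.card (center (R.map f)) =
      Nat.card R * Nat.card (center R) := by
  rw [CL.card_center_eq, card_map_of_injective hf, ← card_center_map hf]

theorem maxCentralProduct_equiv {A B : Type*} [Group A] [Group B] (e : A ≃* B) :
    maxCentralProduct A = maxCentralProduct B := by
  unfold maxCentralProduct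
  congr 1
  ext k
  exact ⟨fun ⟨R, h⟩ => ⟨_, (measure_map (f := e.toMonoidHom) e.injective R).trans h⟩,
    fun ⟨R, h⟩ => ⟨_, (measure_map (f := e.symm.toMonoidHom) e.symm.injective R).trans h⟩⟩

theorem fm_map {G' : Type*} [Group G'] {f : G →* G'} (hf : Function.Injective f) (S : Subgroup G) :
    maxCentralProduct (S.map f) = maxCentralProduct S :=
  (maxCentralProduct_equiv (S.equivMapOfInjective f hf)).symm

theorem CLIn.map {G' : Type*} [Group G'] {f : G →* G'} (hf : Function.Injective f) (h : CLIn S R) :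
    CLIn (S.map f) (R.map f) :=
  ⟨map_mono h.1, by
    rw [fm_map hf, ← map_cen hf, card_map_of_injective hf, card_map_of_injective hf, h.2]⟩

theorem CLIn.conj (h : CLIn S R) (g : G) : CLIn (conjS g S) (conjS g R) :=
  h.map (MulAut.conj g).injective

theorem MCLIn.conj (h : MCLIn S R) (g : G) : MCLIn (conjS g S) (conjS g R) :=
  ⟨h.1.conj g, fun R' h1 h2 => by
    have h3 := h2.conj g⁻¹
    rw [conjS_inv_conjS] at h3
    rw [← h.2 _ (le_conjS_iff.1 h1) h3, conjS_conjS_inv]⟩

variable [Finite G]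

theorem le_fm (h : R ≤ S) : Nat.card R * Nat.card (cen R R) ≤ maxCentralProduct S := by
  have := CL.cl_le_max (R.subgroupOf S)
  rwa [← card_center_map S.subtype_injective, map_subgroupOf_of_le h, card_subgroupOf h] at this

theorem clIn_of_le (h : R ≤ S) (h2 : maxCentralProduct S ≤ Nat.card R * Nat.card (cen R R)) :
    CLIn S R := ⟨h, le_antisymm (le_fm h) h2⟩

theorem card_cen_subgroupOf (h : R ≤ S) :
    Nat.card (centralizer ((R.subgroupOf S : Subgroup S) : Set S)) = Nat.card (cen S R) := by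
  rw [← card_map_subtype, map_subtype_centralizer, map_subgroupOf_of_le h]

theorem cd_le_fm (h : R ≤ S) : Nat.card R * Nat.card (cen S R) ≤ maxCentralProduct S := by
  have := CL.cd_le_max (R.subgroupOf S)
  rwa [← CL.maxCentralProduct_eq, card_cen_subgroupOf h, card_subgroupOf h] at this

theorem exists_mclIn_le (h : CLIn S R) : ∃ Q, MCLIn S Q ∧ Q ≤ R := by
  obtain ⟨Q, h1, h2⟩ := CL.exists_minimal_le h.sub
  exact ⟨_, mclIn_map_iff.2 h1, (map_mono h2).trans (map_subgroupOf_of_le h.1).le⟩

theorem exists_mclIn (S : Subgroup G) : ∃ Q, MCLIn S Q := by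
  obtain ⟨R, h⟩ := CL.exists_isCentrallyLarge S
  exact (exists_mclIn_le (clIn_map_iff.2 h)).imp fun _ h => h.1

theorem fm_mono (h : T ≤ S) : maxCentralProduct T ≤ maxCentralProduct S := by
  obtain ⟨Q, hQ⟩ := exists_mclIn T
  exact hQ.1.2.ge.trans (le_fm (hQ.1.1.trans h))

namespace CLIn

theorem cen_eq (h : CLIn S R) : cen S R = cen R R := by
  refine (Core.eq_of_le_of_card_le (inf_le_inf_right _ h.1) ?_).symm
  exact Nat.le_of_mul_le_mul_left ((cd_le_fm h.1).trans h.2.ge) Nat.card_pos

theorem cen_cen (h : CLIn S R) : cen S (cen R R) = R := by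
  refine (Core.eq_of_le_of_card_le (le_inf h.1 (le_centralizer_iff.1 inf_le_right)) ?_).symm
  have := (cd_le_fm ((inf_le_left : cen R R ≤ R).trans h.1)).trans h.2.ge
  rw [mul_comm] at this
  exact Nat.le_of_mul_le_mul_right this Nat.card_pos

theorem fm_eq (h : CLIn S R) (h1 : R ≤ T) (h2 : T ≤ S) :
    maxCentralProduct T = maxCentralProduct S :=
  le_antisymm (fm_mono h2) (h.2.ge.trans (le_fm h1))

theorem of_le (h : CLIn S R) (h1 : R ≤ T) (h2 : T ≤ S) : CLIn T R :=
  ⟨h1, h.2.trans (h.fm_eq h1 h2).symm⟩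

theorem up (h : CLIn T Q) (h2 : T ≤ S) (e : maxCentralProduct T = maxCentralProduct S) : CLIn S Q :=
  ⟨h.1.trans h2, h.2.trans e⟩

theorem cen_top_le (h : CLIn S R) : cen S S ≤ cen R R :=
  h.cen_eq ▸ inf_le_inf_left _ (centralizer_anti h.1)

end CLIn

namespace MCLIn

theorem of_le (h : MCLIn S R) (h1 : R ≤ T) (h2 : T ≤ S) : MCLIn T R :=
  ⟨h.1.of_le h1 h2, fun R' a b => h.2 R' a (b.up h2 (h.1.fm_eq h1 h2))⟩

theorem up (h : MCLIn T Q) (h2 : T ≤ S) (e : maxCentralProduct T = maxCentralProduct S) :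
    MCLIn S Q :=
  ⟨h.1.up h2 e, fun R' a b => h.2 R' a (b.of_le (a.trans h.1.1) h2)⟩

theorem card_eq (h : MCLIn S R) (h' : MCLIn S Q) : Nat.card R = Nat.card Q := by
  have := (CL.mcl_card_eq h.sub h'.sub).1
  rwa [card_subgroupOf h.1.1, card_subgroupOf h'.1.1] at this

theorem commutator_eq (h : MCLIn S R) (h' : MCLIn S Q) : ⁅R, R⁆ = ⁅Q, Q⁆ := by
  have := congrArg (map S.subtype) (CL.mcl_commutator_eq h.sub h'.sub)
  rwa [map_commutator, map_commutator, map_subgroupOf_of_le h.1.1, map_subgroupOf_of_le h'.1.1] at this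

theorem of_card_le (h : MCLIn S R) (h' : CLIn S Q) (hc : Nat.card Q ≤ Nat.card R) : MCLIn S Q := by
  obtain ⟨Q', h1, h2⟩ := exists_mclIn_le h'
  rwa [← Core.eq_of_le_of_card_le h2 (hc.trans (h.card_eq h1).le)]

/-- Conjugating a minimal centrally large subgroup inside a subgroup `T`. -/
theorem conj_of_le (h : MCLIn S R) (h1 : R ≤ T) (h2 : T ≤ S) {g : G}
    (hg : g ∈ normalizer (T : Set G)) : MCLIn S (conjS g R) := by
  have := (h.of_le h1 h2).conj g
  rw [mem_normalizer_iff_conjS.1 hg] at this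
  exact this.up h2 (h.1.fm_eq h1 h2)

end MCLIn

/-- A `p'`-element centralizing `Ω₁ (V)` centralizes the abelian `p`-group `V`. -/
theorem pResOf_le_centralizer_of_omegaOne {p : ℕ} {V R : Subgroup G} (hV : IsMulCommutative V)
    (hp : IsPGroup p V) (hR : R ≤ normalizer (V : Set G))
    (h : pResOf p R ≤ centralizer (omegaOne p V : Set G)) : pResOf p R ≤ centralizer (V : Set G) := by
  refine pResOf_le_iff.2 fun x hx hx' => ?_
  have hx1 := h (mem_pResOf hx hx')
  have key : ∀ k, ∀ v ∈ V, v ^ p ^ k = 1 → ⁅x, v⁆ = 1 := fun k => by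
    induction k with
    | zero => intro v _ e; rw [pow_zero, pow_one] at e; simp [e]
    | succ k ih =>
      intro v hv e
      have h1 := ih (v ^ p) (V.pow_mem hv p) (by rw [← pow_mul, ← pow_succ', e])
      have h2 : ⁅x, v⁆ ∈ V := by
        rw [commutatorElement_def]
        exact V.mul_mem (conj_mem_of_mem_normalizer (hR hx) hv) (V.inv_mem hv)
      rw [commutatorElement_pow_right_of_commute (Core.isMulCommutative_iff_forall.1 hV _ h2 _ hv)] at h1
      refine (mem_bot).1 (commutatorElement_mem_of_coprime (U := omegaOne p V) (W := ⊥) (m := p)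
        (by rw [normalizer_eq_top]; trivial) (mem_omegaOne h2 h1) (fun u hu => ?_) (mem_bot.2 h1) hx')
      exact mem_bot.2 (commutatorElement_eq_one_iff_mul_comm.2 (hx1 u hu).symm)
  intro v hv
  obtain ⟨k, hk⟩ := isPGroup_iff_forall_mem.1 hp v hv
  exact (commutatorElement_eq_one_iff_mul_comm.1 (key k v hv hk)).symm

end CfsgLib.GN
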