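import Mathlib
import Cfsg.Agent.Lib.GN.CLIn
import Cfsg.Agent.Lib.Push.PUComm

/-!
Minimal centrally large subgroups in the pushing up situation.
-/

set_option autoImplicit false
set_option linter.unusedSectionVars false

namespace CfsgLib.GN

open Subgroup Cfsg CfsgLib.LAE CfsgLib.PLocal CfsgLib.Push
open scoped commutatorElement

variable {G : Type*} [Group G] [Finite G] {p : ℕ} [Fact p.Prime] {S P M V X Q : Subgroup G}

/-- `V` is a noncentral normal subgroup of `P` inside `Z(O_p(P))`. -/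
structure NC (p : ℕ) (P V : Subgroup G) : Prop where
  le : V ≤ pCoreOf p P
  norm : P ≤ normalizer (V : Set G)
  cen : pCoreOf p P ≤ centralizer (V : Set G)
  nc : ¬ pResOf p P ≤ centralizer (V : Set G)

theorem nc_omegaZ (h : PU p S P M) (hz : ¬ P ≤ normalizer (cen S S : Set G)) :
    NC p P (omegaZ p (pCoreOf p P)) := by
  refine ⟨omegaZ_le _, le_normalizer_omegaZ_of_le (le_normalizer_pCoreOf P), le_centralizer_omegaZ _,
    fun hc => h.not_pResOf_le hz ?_⟩
  refine (pResOf_le_centralizer_of_omegaOne (isMulCommutative_inf_centralizer _)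
    ((isPGroup_pCoreOf P).to_le inf_le_left) (le_normalizer_inf (le_normalizer_pCoreOf P)
    (le_normalizer_centralizer (le_normalizer_pCoreOf P))) hc).trans (centralizer_anti ?_)
  exact le_inf h.VQ (le_centralizer_iff.1 Q_le_centralizer_VV)

theorem relIndex_ne_zero_of_finite {T S : Subgroup G} : T.relIndex S ≠ 0 := index_ne_zero_of_finite

theorem relIndex_le_of_le {T X S : Subgroup G} (h : X ≤ S) : T.relIndex X ≤ T.relIndex S :=
  relIndex_le_of_le_right h (relIndex_ne_zero_of_finite)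

/-- Once there is an offender, every subgroup of `S` outside `O_p(P)` has fixed points of index `q`. -/
theorem relIndex_cen_of_offender (h : PU p S P M) (hV : NC p P V) {A : Subgroup G} (hA : A ≤ S)
    (hAQ : ¬ A ≤ pCoreOf p P) (hoff : (cen V A).relIndex V ≤ (pCoreOf p P).relIndex A)
    (hX : X ≤ S) (hXQ : ¬ X ≤ pCoreOf p P) : (cen V X).relIndex V = (pCoreOf p P).relIndex S := by
  obtain ⟨F, _, _, D, -, h2, h3, h4, -, h6⟩ := h.exists_natData_cen hV.le hV.norm hV.cen hV.nc hA hAQ hoff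
  have e : cen V X = D.fix := by
    refine le_antisymm (fun x hx => ?_) (h4.le.trans (cen_anti hX))
    obtain ⟨t, ht, ht'⟩ := SetLike.not_le_iff_exists.1 hXQ
    have htP := h.SP (hX ht)
    refine (D.commutator_mem_iff htP (D.φ_mem_of_img_le h.SP h2.le (hX ht)) (fun e => ht' ?_) hx.1).1 ?_
    · rw [← (h.cen_cases hV.norm hV.cen hV.nc).2]
      exact ⟨hX ht, (h3.le (D.mem_ker.2 ⟨htP, e⟩)).2⟩
    · rw [(mem_cen.1 hx).2 t ht]; exact one_mem _
  rw [e, D.fix_relIndex, h6, Nat.card_eq_fintype_card]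

theorem sup_eq_of_relIndex {T : Subgroup G} (hT : T ≤ S) (hn : S ≤ normalizer (T : Set G)) (hX : X ≤ S)
    (h : T.relIndex S ≤ T.relIndex X) : X ⊔ T = S := by
  refine Core.eq_of_le_of_card_le (sup_le hX hT) ?_
  rw [← Core.card_mul_relIndex_of_le hT, ← Core.card_mul_relIndex_of_le (le_sup_right : T ≤ X ⊔ T),
    relIndex_sup_of_le_normalizer (hX.trans hn)]
  exact Nat.mul_le_mul_left _ h

/-- The main property of a minimal centrally large subgroup outside `O_p(P)`. -/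
theorem mcl_star (h : PU p S P M) (hV : NC p P V) (hQ : MCLIn S Q) (hQT : ¬ Q ≤ pCoreOf p P) :
    ¬ cen Q Q ≤ pCoreOf p P ∧ MCLIn S ((Q ⊓ pCoreOf p P) ⊔ V) ∧
      cen ((Q ⊓ pCoreOf p P) ⊔ V) ((Q ⊓ pCoreOf p P) ⊔ V) = (cen Q Q ⊓ pCoreOf p P) ⊔ V ∧
      cen Q Q ⊔ pCoreOf p P = S ∧
      ∀ X ≤ S, ¬ X ≤ pCoreOf p P → (cen V X).relIndex V = (pCoreOf p P).relIndex S := by
  have hVS : V ≤ S := hV.le.trans h.QS
  have hAS : cen Q Q ≤ S := inf_le_left.trans hQ.1.1
  have e1 : Q ⊓ V = cen V (cen Q Q) := by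
    conv_lhs => rw [← hQ.1.cen_cen]
    rw [inf_comm, ← inf_assoc, inf_eq_left.2 hVS]
  have e2 : cen Q Q ⊓ V = cen V Q := by
    rw [← hQ.1.cen_eq, inf_comm, ← inf_assoc, inf_eq_left.2 hVS]
  have c1 := card_inf_sup_mul (A := Q) hV.le hV.cen
  have c2 := card_inf_sup_mul (A := cen Q Q) hV.le hV.cen
  rw [e1] at c1
  rw [e2] at c2
  have hVV : V ≤ centralizer (V : Set G) := hV.le.trans hV.cen
  have hle : (cen Q Q ⊓ pCoreOf p P) ⊔ V ≤
      cen ((Q ⊓ pCoreOf p P) ⊔ V) ((Q ⊓ pCoreOf p P) ⊔ V) := by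
    refine le_inf (sup_le_sup_right (inf_le_inf_right _ inf_le_left) V) ?_
    rw [LAE.centralizer_sup]
    exact le_inf (sup_le ((inf_le_left.trans inf_le_right).trans (centralizer_anti inf_le_left))
      (le_centralizer_iff.1 (inf_le_right.trans hV.cen))) (sup_le (inf_le_right.trans hV.cen) hVV)
  have hQ1 : (Q ⊓ pCoreOf p P) ⊔ V ≤ S := sup_le (inf_le_left.trans hQ.1.1) hVS
  have c3 := le_fm hQ1
  have c4 := card_le_card_of_le hle
  have c5 := hQ.1.2
  have a1 := relIndex_le_of_le (T := pCoreOf p P) hQ.1.1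
  have b1 := relIndex_le_of_le (T := pCoreOf p P) hAS
  have p1 : 0 < Nat.card Q := Nat.card_pos
  have p2 : 0 < Nat.card (cen Q Q) := Nat.card_pos
  have p3 : 0 < Nat.card ↥((Q ⊓ pCoreOf p P) ⊔ V) := Nat.card_pos
  have p4 : 0 < (pCoreOf p P).relIndex S := Nat.pos_of_ne_zero relIndex_ne_zero_of_finite
  have hb : cen Q Q ≤ pCoreOf p P → (cen V (cen Q Q)).relIndex V = 1 := fun hc =>
    relIndex_eq_one.2 (le_inf le_rfl (le_centralizer_iff.1 (hc.trans hV.cen)))
  set a := (pCoreOf p P).relIndex Q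
  set b := (pCoreOf p P).relIndex (cen Q Q) with hb'
  set x := (cen V (cen Q Q)).relIndex V with hx'
  set y := (cen V Q).relIndex V with hy'
  have key : x * y ≤ a * b := by
    have : Nat.card Q * Nat.card (cen Q Q) * (x * y) ≤ Nat.card Q * Nat.card (cen Q Q) * (a * b) := by
      calc _ = (Nat.card Q * x) * (Nat.card (cen Q Q) * y) := by ring
        _ = Nat.card ↥((Q ⊓ pCoreOf p P) ⊔ V) * Nat.card ↥((cen Q Q ⊓ pCoreOf p P) ⊔ V) * (a * b) := by
          rw [← c1, ← c2]; ring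
        _ ≤ _ := Nat.mul_le_mul_right _ ((Nat.mul_le_mul_left _ c4).trans (c3.trans c5.ge))
    exact Nat.le_of_mul_le_mul_left this (Nat.mul_pos p1 p2)
  have hall : ∀ X ≤ S, ¬ X ≤ pCoreOf p P → (cen V X).relIndex V = (pCoreOf p P).relIndex S := by
    by_cases hy : y ≤ a
    · exact fun X => relIndex_cen_of_offender h hV hQ.1.1 hQT hy
    by_cases hA : cen Q Q ≤ pCoreOf p P
    · rw [hb hA, hb', relIndex_eq_one.2 hA] at key
      exact absurd (by simpa using key) hy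
    · refine fun X => relIndex_cen_of_offender h hV hAS hA ?_
      by_contra hx
      exact absurd key (not_le.2 (by
        rw [mul_comm a b]; exact Nat.mul_lt_mul'' (not_le.1 hx) (not_le.1 hy)))
  have ey : y = (pCoreOf p P).relIndex S := hall Q hQ.1.1 hQT
  have hxb : x = b ∧ y = a := by
    by_cases hA : cen Q Q ≤ pCoreOf p P
    · have e : b = 1 := relIndex_eq_one.2 hA
      rw [hb hA, e] at key
      exact ⟨(hb hA).trans e.symm, by omega⟩
    · have ex : x = (pCoreOf p P).relIndex S := hall _ hAS hA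
      rw [ex, ey] at key ⊢
      constructor <;> nlinarith
  have pa : 0 < a := hxb.2 ▸ ey ▸ p4
  have pb : 0 < b := Nat.pos_of_ne_zero relIndex_ne_zero_of_finite
  have c6 : Nat.card ↥((Q ⊓ pCoreOf p P) ⊔ V) * Nat.card ↥((cen Q Q ⊓ pCoreOf p P) ⊔ V) =
      Nat.card Q * Nat.card (cen Q Q) := by
    refine Nat.eq_of_mul_eq_mul_right (Nat.mul_pos pa pb) ?_
    calc _ = (Nat.card ↥((Q ⊓ pCoreOf p P) ⊔ V) * a) * (Nat.card ↥((cen Q Q ⊓ pCoreOf p P) ⊔ V) * b) := by
          ring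
      _ = _ := by rw [c1, c2, hxb.1, hxb.2]; ring
  have hCL : CLIn S ((Q ⊓ pCoreOf p P) ⊔ V) :=
    clIn_of_le hQ1 ((c5.ge.trans c6.ge).trans (Nat.mul_le_mul_left _ c4))
  have hA : ¬ cen Q Q ≤ pCoreOf p P := fun hA => by
    have hVQ : V ≤ Q := by
      rw [← hQ.1.cen_cen]; exact le_inf hVS (le_centralizer_iff.1 (hA.trans hV.cen))
    exact hQT ((hQ.2 _ (sup_le inf_le_left hVQ) hCL).ge.trans (sup_le inf_le_right hV.le))
  have ex : x = (pCoreOf p P).relIndex S := hall _ hAS hA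
  refine ⟨hA, hQ.of_card_le hCL ?_, (Core.eq_of_le_of_card_le hle ?_).symm,
    sup_eq_of_relIndex h.QS (h.SP.trans (le_normalizer_pCoreOf P)) hAS (ex.ge.trans hxb.1.le), hall⟩
  · rw [ex, ← ey, hxb.2] at c1
    exact (Nat.eq_of_mul_eq_mul_right pa c1).le
  · exact Nat.le_of_mul_le_mul_left ((c3.trans c5.ge).trans c6.ge) p3

/-- If `Z(S)` is not normal, `O_p(P)` contains a minimal centrally large subgroup of `S`. -/
theorem exists_mcl_le (h : PU p S P M) (hz : ¬ P ≤ normalizer (cen S S : Set G)) :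
    ∃ R, MCLIn S R ∧ R ≤ pCoreOf p P := by
  obtain ⟨Q, hQ⟩ := exists_mclIn S
  by_cases hQT : Q ≤ pCoreOf p P
  · exact ⟨Q, hQ, hQT⟩
  · exact ⟨_, (mcl_star h (nc_omegaZ h hz) hQ hQT).2.1, sup_le inf_le_right (omegaZ_le _)⟩

theorem norm_commutator (h : PU p S P M) (hz : ¬ P ≤ normalizer (cen S S : Set G)) (hQ : MCLIn S Q) :
    P ≤ normalizer ((⁅Q, Q⁆ : Subgroup G) : Set G) := fun g hg => by
  obtain ⟨R, hR, hRT⟩ := exists_mcl_le h hz
  rw [mem_normalizer_iff_conjS, hQ.commutator_eq hR, conjS_commutator]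
  exact (hR.conj_of_le hRT h.QS (le_normalizer_pCoreOf P hg)).commutator_eq hR

theorem res_le_cen_commutator (h : PU p S P M) (hz : ¬ P ≤ normalizer (cen S S : Set G))
    (hQ : MCLIn S Q) (hQT : ¬ Q ≤ pCoreOf p P) :
    pResOf p P ≤ centralizer ((⁅Q, Q⁆ : Subgroup G) : Set G) :=
  (h.pResOf_le_nclIn (inf_le_left.trans hQ.1.1) (mcl_star h (nc_omegaZ h hz) hQ hQT).1).trans
    (nclIn_le_centralizer (inf_le_right.trans (centralizer_anti
      (commutator_le_left_of_le_normalizer le_normalizer))) (norm_commutator h hz hQ))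

theorem le_centralizer_of_norm_cen (h : PU p S P M) (hz : P ≤ normalizer (cen S S : Set G)) :
    P ≤ centralizer (cen S S : Set G) :=
  h.nclIn_eq.ge.trans (nclIn_le_centralizer (le_centralizer_iff.1 inf_le_right) hz)

/-- The subgroup `S_MCL`. -/
def mclJ (S : Subgroup G) : Subgroup G := ⨆ (Q : Subgroup G) (_ : MCLIn S Q), Q

theorem mclJ_eq (S : Subgroup G) : (minimalCentrallyLargeJoin S).map S.subtype = mclJ S := by
  refine le_antisymm (map_le_iff_le_comap.2 (sSup_le fun K hK => map_le_iff_le_comap.1 ?_))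
    (iSup₂_le fun Q hQ => (map_subgroupOf_of_le hQ.1.1).ge.trans (map_mono (le_sSup hQ.sub)))
  exact le_iSup₂_of_le (f := fun (Q : Subgroup G) (_ : MCLIn S Q) => Q) _ (mclIn_map_iff.2 hK) le_rfl

theorem norm_mclJ (h : PU p S P M) (hQ : ∀ Q, MCLIn S Q → Q ≤ pCoreOf p P) :
    P ≤ normalizer (mclJ S : Set G) := fun g hg => by
  refine mem_normalizer_of_conjS_le ?_
  simp only [mclJ, conjS_iSup]
  exact iSup₂_le fun Q hQ' => le_iSup₂_of_le (f := fun (Q : Subgroup G) (_ : MCLIn S Q) => Q) _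
    (hQ'.conj_of_le (hQ Q hQ') h.QS (le_normalizer_pCoreOf P hg)) le_rfl

theorem mcl_cases (h : PU p S P M) (hQ : MCLIn S Q) :
    P ≤ normalizer ((cen S S ⊓ ⁅Q, Q⁆ : Subgroup G) : Set G) ∨ P ≤ normalizer (mclJ S : Set G) := by
  by_cases hz : P ≤ normalizer (cen S S : Set G)
  · exact .inl (le_normalizer_of_le_centralizer
      ((le_centralizer_of_norm_cen h hz).trans (centralizer_anti inf_le_left)))
  by_cases ha : ∀ Q, MCLIn S Q → Q ≤ pCoreOf p P
  · exact .inr (norm_mclJ h ha)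
  push Not at ha
  obtain ⟨R, hR, hRT⟩ := ha
  refine .inl (h.le_normalizer_of_centralizer ?_ (le_normalizer_of_le_centralizer
    (le_centralizer_iff.1 (inf_le_left.trans inf_le_right))))
  rw [hQ.commutator_eq hR]
  exact (res_le_cen_commutator h hz hR hRT).trans (centralizer_anti inf_le_right)

/-- Minimal centrally large subgroups with largest `Ω₁ Z`. -/
def MZIn (p : ℕ) (S Q : Subgroup G) : Prop :=
  MCLIn S Q ∧ ∀ R, MCLIn S R → Nat.card (omegaZ p R) ≤ Nat.card (omegaZ p Q)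

/-- The Frattini subgroup inside the ambient group. -/
abbrev phi (Q : Subgroup G) : Subgroup G := (frattini Q).map Q.subtype

/-- The subgroup `S_Φ`. -/
def phiJ (p : ℕ) (S : Subgroup G) : Subgroup G := ⨆ (Q : Subgroup G) (_ : MZIn p S Q), phi Q

theorem exists_mzIn (p : ℕ) (S : Subgroup G) : ∃ Q, MZIn p S Q := by
  obtain ⟨Q, hQ, h⟩ := Set.exists_max_image {Q | MCLIn S Q} (fun Q => Nat.card (omegaZ p Q))
    (Set.toFinite _) (exists_mclIn S)
  exact ⟨Q, hQ, h⟩

theorem card_omegaZ_map (K : Subgroup S) :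
    Nat.card (omegaZ p (K.map S.subtype)) = Nat.card (omegaOneCenter p K) := by
  rw [← map_omegaZ S.subtype_injective, card_map_subtype]; rfl

theorem MZIn.card_eq (h : MZIn p S Q) : Nat.card (omegaZ p Q) = maxOmegaCenterOfMinimalCL p S := by
  symm
  refine IsGreatest.csSup_eq ⟨⟨_, h.1.sub, ?_⟩, ?_⟩
  · rw [← card_omegaZ_map, map_subgroupOf_of_le h.1.1.1]
  · rintro _ ⟨K, hK, rfl⟩
    rw [← card_omegaZ_map]
    exact h.2 _ (mclIn_map_iff.2 hK)

theorem mzIn_map_iff {K : Subgroup S} : MZIn p S (K.map S.subtype) ↔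
    IsMinimalCentrallyLarge K ∧ Nat.card (omegaOneCenter p K) = maxOmegaCenterOfMinimalCL p S := by
  refine ⟨fun h => ⟨mclIn_map_iff.1 h.1, by rw [← h.card_eq, card_omegaZ_map]⟩,
    fun h => ⟨mclIn_map_iff.2 h.1, fun R hR => ?_⟩⟩
  obtain ⟨Q, hQ⟩ := exists_mzIn p S
  rw [card_omegaZ_map, h.2, ← hQ.card_eq]
  exact hQ.2 R hR

theorem phiJ_eq (S : Subgroup G) : (frattiniOfMinimalCLJoin p S).map S.subtype = phiJ p S := by
  rw [frattiniOfMinimalCLJoin, Subgroup.map_iSup]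
  refine le_antisymm (iSup_le fun K => ?_) (iSup₂_le fun Q hQ => ?_)
  · rw [Core.map_map_frattini_of_injective _ S.subtype_injective]
    exact le_iSup₂_of_le (f := fun (Q : Subgroup G) (_ : MZIn p S Q) => phi Q) _
      (mzIn_map_iff.2 K.2) le_rfl
  · refine le_iSup_of_le ⟨Q.subgroupOf S, mzIn_map_iff.1 (by rwa [map_subgroupOf_of_le hQ.1.1.1])⟩ ?_
    exact (Core.map_map_frattini_subgroupOf hQ.1.1.1).ge

theorem phi_sup_le {A R : Subgroup G} (hR : IsPGroup p R) (hA : IsElementaryAbelian p A)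
    (hc : A ≤ centralizer (R : Set G)) : phi (A ⊔ R) ≤ phi R := by
  have hn := le_normalizer_of_le_centralizer hc
  refine (Core.map_frattini_le_iff_of_isPGroup (isPGroup_sup (elemAb_isPGroup hA) hR hn)).2 ⟨?_, ?_⟩
  · rw [sup_comm, CL.commutator_sup_centralizer (by
      rw [LAE.centralizer_sup]; exact le_inf hc (elemAb_le_centralizer hA))]
    exact Core.commutator_le_map_frattini hR
  · intro x hx
    obtain ⟨a, ha, r, hr, rfl⟩ := (mem_sup_iff_of_left_le_normalizer hn).1 hx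
    rw [Commute.mul_pow (hc ha r hr).symm, (elemAb_iff.1 hA).2 a ha, one_mul]
    exact Core.pow_mem_map_frattini hR hr

theorem mz_star (h : PU p S P M) (hz : ¬ P ≤ normalizer (cen S S : Set G)) (hQ : MZIn p S Q)
    (hQT : ¬ Q ≤ pCoreOf p P) : MZIn p S ((Q ⊓ pCoreOf p P) ⊔ omegaZ p (pCoreOf p P)) ∧
      omegaZ p Q ⊔ pCoreOf p P = S := by
  have hV := nc_omegaZ h hz
  obtain ⟨-, h2, h3, -, h5⟩ := mcl_star h hV hQ.1 hQT
  have hΩ : omegaZ p Q ≤ cen Q Q := le_inf (omegaZ_le Q) (omegaZ_le_centralizer Q)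
  have c1 := card_inf_sup_mul (A := omegaZ p Q) hV.le hV.cen
  have e1 : omegaZ p Q ⊓ omegaZ p (pCoreOf p P) = cen (omegaZ p (pCoreOf p P)) Q := by
    refine le_antisymm (le_inf inf_le_right (inf_le_left.trans (omegaZ_le_centralizer Q)))
      (le_inf ?_ inf_le_left)
    have : cen (omegaZ p (pCoreOf p P)) Q ≤ cen Q Q :=
      hQ.1.1.cen_eq ▸ inf_le_inf_right _ (hV.le.trans h.QS)
    exact le_omegaZ (elemAb_mono (elemAb_omegaZ _) inf_le_left) (this.trans inf_le_left) inf_le_right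
  rw [e1, h5 Q hQ.1.1.1 hQT] at c1
  have hle : (omegaZ p Q ⊓ pCoreOf p P) ⊔ omegaZ p (pCoreOf p P) ≤
      omegaZ p ((Q ⊓ pCoreOf p P) ⊔ omegaZ p (pCoreOf p P)) := by
    have := (sup_le_sup_right (inf_le_inf_right (pCoreOf p P) hΩ) (omegaZ p (pCoreOf p P))).trans h3.ge
    exact le_omegaZ (elemAb_inf_sup (elemAb_omegaZ _) (elemAb_omegaZ _) hV.cen)
      (this.trans inf_le_left) (this.trans inf_le_right)
  have c2 := card_le_card_of_le hle
  have c3 := hQ.2 _ h2
  have hΩS : omegaZ p Q ≤ S := (omegaZ_le Q).trans hQ.1.1.1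
  have c4 := relIndex_le_of_le (T := pCoreOf p P) hΩS
  have p1 : 0 < Nat.card (omegaZ p Q) := Nat.card_pos
  have p2 : 0 < (pCoreOf p P).relIndex S := Nat.pos_of_ne_zero relIndex_ne_zero_of_finite
  refine ⟨⟨h2, fun R hR => (hQ.2 R hR).trans (le_trans ?_ c2)⟩,
    sup_eq_of_relIndex h.QS (h.SP.trans (le_normalizer_pCoreOf P)) hΩS ?_⟩
  · exact Nat.le_of_mul_le_mul_right (c1.ge.trans (Nat.mul_le_mul_left _ c4)) p2
  · exact Nat.le_of_mul_le_mul_left (c1.ge.trans (Nat.mul_le_mul_right _ (c2.trans c3))) p1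

theorem exists_mz_le (h : PU p S P M) (hz : ¬ P ≤ normalizer (cen S S : Set G)) (hQ : MZIn p S Q) :
    ∃ R, MZIn p S R ∧ R ≤ pCoreOf p P ∧ phi Q ≤ phi R := by
  by_cases hQT : Q ≤ pCoreOf p P
  · exact ⟨Q, hQ, hQT, le_rfl⟩
  obtain ⟨h1, h2⟩ := mz_star h hz hQ hQT
  refine ⟨_, h1, sup_le inf_le_right (omegaZ_le _), ?_⟩
  have e := sup_inf_eq_of_sup_eq h2 (((omegaZ_le Q).trans hQ.1.1.1).trans
    (h.SP.trans (le_normalizer_pCoreOf P))) (omegaZ_le Q) hQ.1.1.1
  conv_lhs => rw [← e]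
  exact (phi_sup_le (h.pS.to_le (inf_le_left.trans hQ.1.1.1)) (elemAb_omegaZ Q)
    ((omegaZ_le_centralizer Q).trans (centralizer_anti inf_le_left))).trans
    (Core.map_frattini_mono_of_isPGroup (h.pS.to_le h1.1.1.1) le_sup_left)

theorem MZIn.conj_of_le {T : Subgroup G} (h : MZIn p S Q) (h1 : Q ≤ T) (h2 : T ≤ S) {g : G}
    (hg : g ∈ normalizer (T : Set G)) : MZIn p S (conjS g Q) :=
  ⟨h.1.conj_of_le h1 h2 hg, fun R hR => by
    rw [← conjS_omegaZ, card_conjS]; exact h.2 R hR⟩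

theorem conjS_phi (g : G) (Q : Subgroup G) : conjS g (phi Q) = phi (conjS g Q) :=
  Core.map_map_frattini_of_injective Q (MulAut.conj g).injective

theorem norm_phiJ (h : PU p S P M) (hz : ¬ P ≤ normalizer (cen S S : Set G)) :
    P ≤ normalizer (phiJ p S : Set G) := fun g hg => by
  refine mem_normalizer_of_conjS_le ?_
  simp only [phiJ, conjS_iSup]
  refine iSup₂_le fun Q hQ => ?_
  obtain ⟨R, h1, h2, h3⟩ := exists_mz_le h hz hQ
  refine (conjS_mono h3).trans ?_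
  rw [conjS_phi]
  exact le_iSup₂_of_le (f := fun (Q : Subgroup G) (_ : MZIn p S Q) => phi Q) _
    (h1.conj_of_le h2 h.QS (le_normalizer_pCoreOf P hg)) le_rfl

theorem exists_PU {S : Subgroup G} (h : IsPushingUpSituation p S) : ∃ M, PU p S ⊤ M := by
  obtain ⟨-, ⟨T, rfl⟩, h1, h2, K, _, F, _, _, n, hF, h3⟩ := h
  exact (exists_PU_of_psl (isSylowIn_top T) h1 h2 K hF h3).imp fun _ h => h.1

end CfsgLib.GN
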