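import Mathlib
import Cfsg.Agent.Lib.GN.Star

/-!
Definitions for the Glauberman-Niles pair in the case where the minimal centrally large subgroups are abelian.
-/

set_option autoImplicit false

namespace CfsgLib.GN

open Subgroup Cfsg CfsgLib.LAE CfsgLib.PLocal CfsgLib.Push
open scoped commutatorElement

variable {G : Type*} [Group G]

/-- The remaining case: minimal centrally large subgroups are abelian, `S` is centrally large in itself and
`Z(S)` is elementary abelian. -/
structure Base (p : ℕ) (S : Subgroup G) : Prop where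
  ab : ∀ Q, MCLIn S Q → Q ≤ centralizer (Q : Set G)
  cl : CLIn S S
  el : IsElementaryAbelian p (cen S S)

/-- The join of the minimal centrally large subgroups with largest `Ω₁ Z`. -/
def mzJ (p : ℕ) (S : Subgroup G) : Subgroup G := ⨆ (Q : Subgroup G) (_ : MZIn p S Q), Q

/-- The subgroup `S₀`. -/
def sZero (p : ℕ) (S : Subgroup G) : Subgroup G :=
  if p = 2 then ⁅phi S, S⁆ ⊔ phi (phi S)
  else if p = 3 then ⁅⁅phi S, S⁆, S⁆ ⊔ phi (phi S) else ⁅phi S, S⁆ ⊔ powerClosure p 1 S

end CfsgLib.GN
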