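import Mathlib
import Cfsg.Agent.Lib.GN.Defs
import Cfsg.Agent.Lib.Core.Commutator

/-!
The subgroup generated by two opposite large abelian subgroups in the pushing up situation, I.
-/

set_option autoImplicit false
set_option linter.unusedSectionVars false

namespace CfsgLib.GN

open Subgroup Matrix MatrixGroups Cfsg CfsgLib.LAE CfsgLib.PLocal CfsgLib.Push
open scoped commutatorElement

variable {G : Type*} [Group G]

/-- The elements normalizing `N` and centralizing `x` modulo `N`. -/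
def stb (N : Subgroup G) (x : G) : Subgroup G where
  carrier := {g | g ∈ normalizer (N : Set G) ∧ ⁅g, x⁆ ∈ N}
  one_mem' := ⟨one_mem _, by simp⟩
  mul_mem' := by
    rintro a b ⟨ha, ha'⟩ ⟨hb, hb'⟩
    refine ⟨mul_mem ha hb, ?_⟩
    have : ⁅a * b, x⁆ = a * ⁅b, x⁆ * a⁻¹ * ⁅a, x⁆ := by simp only [commutatorElement_def]; group
    rw [this]
    exact mul_mem (conj_mem_of_mem_normalizer ha hb') ha'
  inv_mem' := by
    rintro a ⟨ha, ha'⟩
    refine ⟨inv_mem ha, ?_⟩
    have : ⁅a⁻¹, x⁆ = a⁻¹ * ⁅a, x⁆⁻¹ * a := by simp only [commutatorElement_def]; group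
    rw [this]
    exact conj_inv_mem_of_mem_normalizer ha (inv_mem ha')

theorem mem_stb {N : Subgroup G} {x g : G} : g ∈ stb N x ↔ g ∈ normalizer (N : Set G) ∧ ⁅g, x⁆ ∈ N :=
  Iff.rfl

theorem le_stb {N K : Subgroup G} {x : G} (h : K ≤ normalizer (N : Set G)) (h' : ∀ g ∈ K, ⁅g, x⁆ ∈ N) :
    K ≤ stb N x := fun g hg => ⟨h hg, h' g hg⟩

theorem comm_eq_one {X : Subgroup G} {g x : G} (h : x ∈ centralizer (X : Set G)) (hg : g ∈ X) :
    ⁅g, x⁆ = 1 := commutatorElement_eq_one_iff_mul_comm.2 (h g hg)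

theorem comm_eq_one' {X : Subgroup G} {g x : G} (h : x ∈ centralizer (X : Set G)) (hg : g ∈ X) :
    ⁅x, g⁆ = 1 := commutatorElement_eq_one_iff_mul_comm.2 (h g hg).symm

theorem mem_cent {X : Subgroup G} {x : G} (h : ∀ g ∈ X, ⁅g, x⁆ = 1) : x ∈ centralizer (X : Set G) :=
  fun g hg => commutatorElement_eq_one_iff_mul_comm.1 (h g hg)

theorem comm_swap {N : Subgroup G} {g x : G} (h : ⁅g, x⁆ ∈ N) : ⁅x, g⁆ ∈ N := by
  rw [← commutatorElement_inv]; exact inv_mem h

theorem comm_mul_right (a x y : G) : ⁅a, x * y⁆ = ⁅a, x⁆ * (x * ⁅a, y⁆ * x⁻¹) := by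
  simp only [commutatorElement_def]; group

theorem comm_mul_left (x y a : G) : ⁅x * y, a⁆ = x * ⁅y, a⁆ * x⁻¹ * ⁅x, a⁆ := by
  simp only [commutatorElement_def]; group

theorem conj_eq_self {X : Subgroup G} {g x : G} (h : x ∈ centralizer (X : Set G)) (hg : g ∈ X) :
    g * x * g⁻¹ = x := by rw [h g hg, mul_inv_cancel_right]

variable [Finite G] {p : ℕ} [Fact p.Prime] {S P M R Q A : Subgroup G}

namespace CLIn

theorem sup (hR : CLIn S R) (hQ : CLIn S Q) : CLIn S (R ⊔ Q) := by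
  have := clIn_map_iff.2 (CL.IsCL.sup hR.sub hQ.sub)
  rwa [Subgroup.map_sup, map_subgroupOf_of_le hR.1, map_subgroupOf_of_le hQ.1] at this

theorem exists_mul (hR : CLIn S R) (hQ : CLIn S Q) {x : G} (hx : x ∈ R ⊔ Q) :
    ∃ a ∈ R, ∃ b ∈ Q, x = a * b := by
  have h1 : (⟨x, sup_le hR.1 hQ.1 hx⟩ : S) ∈ R.subgroupOf S ⊔ Q.subgroupOf S := by
    rw [← subgroupOf_sup hR.1 hQ.1]; exact hx
  rw [← SetLike.mem_coe, CL.cd_coe_sup (CL.IsCL.cd hR.sub) (CL.IsCL.cd hQ.sub)] at h1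
  obtain ⟨a, ha, b, hb, e⟩ := h1
  exact ⟨a, ha, b, hb, (congrArg Subtype.val e).symm⟩

theorem cen_inf (hR : CLIn S R) (hQ : CLIn S Q) : cen S (R ⊓ Q) = cen R R ⊔ cen Q Q := by
  have := congrArg (Subgroup.map S.subtype)
    (CL.cd_centralizer_inf (CL.IsCL.cd hR.sub) (CL.IsCL.cd hQ.sub))
  rw [Subgroup.map_sup, map_subtype_centralizer, map_subtype_centralizer, map_subtype_centralizer,
    map_subgroupOf_of_le hR.1, map_subgroupOf_of_le hQ.1, show R.subgroupOf S ⊓ Q.subgroupOf S = (R ⊓ Q).subgroupOf S from rfl,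
    map_subgroupOf_of_le (inf_le_left.trans hR.1)] at this
  rw [← hR.cen_eq, ← hQ.cen_eq]
  exact this

end CLIn

theorem Base.conj (h : Base p S) (g : G) : Base p (conjS g S) := by
  refine ⟨fun Q hQ => ?_, h.cl.conj g, ?_⟩
  · have := h.ab _ (by simpa only [conjS_inv_conjS] using hQ.conj g⁻¹)
    rwa [← conjS_centralizer, conjS_le_conjS_iff] at this
  · rw [← conjS_cen']
    exact elemAb_map h.el _

theorem Base.cen_eq (h : Base p S) (hA : MCLIn S A) : cen S A = A :=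
  hA.1.cen_eq.trans (inf_eq_left.2 (h.ab A hA))

/-- The centre of `O_p(P)`. -/
abbrev zt (p : ℕ) (P : Subgroup G) : Subgroup G := cen (pCoreOf p P) (pCoreOf p P)

/-- The centralizer of `O^p(P)` in `O_p(P)`. -/
abbrev ct (p : ℕ) (P : Subgroup G) : Subgroup G := cen (pCoreOf p P) (pResOf p P)

/-- The commutator `[O_p(P), O^p(P)]`. -/
abbrev ht (p : ℕ) (P : Subgroup G) : Subgroup G := ⁅pCoreOf p P, pResOf p P⁆

/-- The replacement `A* = (A ∩ T) Z(T)`. -/
abbrev st (p : ℕ) (P A : Subgroup G) : Subgroup G := (A ⊓ pCoreOf p P) ⊔ zt p P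

theorem norm_zt : P ≤ normalizer (zt p P : Set G) :=
  le_normalizer_cen (le_normalizer_pCoreOf P) (le_normalizer_pCoreOf P)

theorem norm_ct : P ≤ normalizer (ct p P : Set G) :=
  le_normalizer_cen (le_normalizer_pCoreOf P) (le_normalizer_pResOf P)

theorem norm_ht : P ≤ normalizer (ht p P : Set G) :=
  le_normalizer_commutator (le_normalizer_pCoreOf P) (le_normalizer_pResOf P)

theorem ht_le_T : ht p P ≤ pCoreOf p P :=
  commutator_le_left_of_le_normalizer ((pResOf_le P).trans (le_normalizer_pCoreOf P))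

theorem ht_le_L : ht p P ≤ pResOf p P :=
  commutator_le_right_of_le_normalizer ((pCoreOf_le P).trans (le_normalizer_pResOf P))

theorem T_le_cen_zt : pCoreOf p P ≤ centralizer (zt p P : Set G) := le_centralizer_iff.1 inf_le_right

theorem st_le_T : st p P A ≤ pCoreOf p P := sup_le inf_le_right inf_le_left

theorem mem_st {x : G} (hx : x ∈ st p P A) : ∃ a ∈ A ⊓ pCoreOf p P, ∃ z ∈ zt p P, x = a * z :=
  (mem_sup_iff_of_left_le_normalizer (inf_le_right.trans ((pCoreOf_le P).trans norm_zt))).1 hx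

theorem conjS_st {g : G} (hg : g ∈ P) : conjS g (st p P A) = st p P (conjS g A) := by
  rw [conjS_sup, conjS_inf, mem_normalizer_iff_conjS.1 (norm_zt hg),
    mem_normalizer_iff_conjS.1 (le_normalizer_pCoreOf P hg)]

/-- An element of `O_p(P)` centralized by `O^p(P)` modulo `C` lies in `C`. -/
theorem mem_ct {t : G} (ht' : t ∈ pCoreOf p P) (h : ∀ l ∈ pResOf p P, ⁅l, t⁆ ∈ ct p P) : t ∈ ct p P := by
  have hn : pCoreOf p P ≤ normalizer (ct p P : Set G) := (pCoreOf_le P).trans norm_ct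
  have h1 : pResOf p P ≤ centralizer (cmod (pCoreOf p P) (ct p P) (pResOf p P) : Set G) :=
    pResOf_le_centralizer_of_le ((isPGroup_pCoreOf P).to_le cmod_le)
      (le_normalizer_cmod (le_normalizer_pCoreOf P) norm_ct (le_normalizer_pResOf P))
      commutator_cmod_le (le_centralizer_iff.1 inf_le_right)
  exact ⟨ht', le_centralizer_iff.1 h1 ((mem_cmod hn).2 ⟨ht', h⟩)⟩

/-- The pushing up situation in the remaining case. -/
structure Nz (p : ℕ) (S P M : Subgroup G) : Prop extends PU p S P M where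
  base : Base p S
  nz : ¬ P ≤ normalizer (cen S S : Set G)
  ex : ∃ A, MCLIn S A ∧ ¬ A ≤ pCoreOf p P

namespace Nz

variable (h : Nz p S P M)
include h

theorem zs_le : cen S S ≤ zt p P :=
  le_inf ((cen_le_VV h.syl).trans h.VQ) (inf_le_right.trans (centralizer_anti h.QS))

theorem nc : NC p P (zt p P) :=
  ⟨inf_le_left, norm_zt, T_le_cen_zt, fun hc => h.not_pResOf_le h.nz (hc.trans (centralizer_anti
    (le_inf h.VQ (le_centralizer_iff.1 Q_le_centralizer_VV))))⟩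

theorem cen_zt : cen (zt p P) S = cen S S :=
  le_antisymm (inf_le_inf_right _ (inf_le_left.trans h.QS)) (le_inf h.zs_le inf_le_right)

theorem cen_S_zt : cen S (zt p P) = pCoreOf p P := (h.cen_cases h.nc.norm h.nc.cen h.nc.nc).2

theorem idx : (cen S S).relIndex (zt p P) = (pCoreOf p P).relIndex S := by
  obtain ⟨A, hA, hAT⟩ := h.ex
  rw [← h.cen_zt]
  exact (mcl_star h.toPU h.nc hA hAT).2.2.2.2 S le_rfl h.nn

theorem exists_nat : ∃ (F : Type) (_ : Field F) (_ : Fintype F)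
    (D : NatData F ⊤ P (zt p P) (cen (zt p P) P)), D.img S = upU F ∧ D.ker = cen P (zt p P) ∧
      D.fix = cen S S ∧ (pCoreOf p P).relIndex S = Fintype.card F := by
  obtain ⟨F, _, _, D, -, h2, h3, h4, -, h6⟩ := h.exists_natData_cen h.nc.le h.nc.norm h.nc.cen h.nc.nc
    le_rfl h.nn (by rw [h.cen_zt, h.idx])
  exact ⟨F, _, _, D, h2, h3, h4.trans h.cen_zt, h6⟩

theorem clT : CLIn S (pCoreOf p P) := by
  refine ⟨h.QS, Eq.trans ?_ h.base.cl.2⟩
  rw [← Core.card_mul_relIndex_of_le h.QS, ← Core.card_mul_relIndex_of_le h.zs_le, h.idx]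
  ring

theorem mem_zs {s z : G} (hs : s ∈ S) (hsT : s ∉ pCoreOf p P) (hz : z ∈ zt p P)
    (hc : ⁅s, z⁆ ∈ centralizer (P : Set G)) : z ∈ cen S S := by
  obtain ⟨F, _, _, D, h2, h3, h4, -⟩ := h.exists_nat
  rw [← h4]
  refine (D.commutator_mem_iff (h.SP hs) (D.φ_mem_of_img_le h.SP h2.le hs) (fun e => hsT ?_) hz).1
    ⟨D.commutator_mem_U (h.SP hs) hz, hc⟩
  rw [← h.cen_S_zt]
  exact ⟨hs, (h3.le (D.mem_ker.2 ⟨h.SP hs, e⟩)).2⟩

theorem comm_mem {s z : G} (hs : s ∈ S) (hz : z ∈ zt p P) : ⁅s, z⁆ ∈ cen S S := by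
  obtain ⟨F, _, _, D, h2, -, h4, -⟩ := h.exists_nat
  exact h4 ▸ D.commutator_mem_fix (h.SP hs) (D.φ_mem_of_img_le h.SP h2.le hs) hz

theorem comm_eq_one_of {s z : G} (hs : s ∈ S) (hz : z ∈ zt p P)
    (hc : ⁅s, z⁆ ∈ centralizer (P : Set G)) : ⁅s, z⁆ = 1 := by
  by_cases hsT : s ∈ pCoreOf p P
  · exact comm_eq_one hz.2 hsT
  · exact comm_eq_one (h.mem_zs hs hsT hz hc).2 hs

theorem irr {X : Subgroup G} (h1 : cen (zt p P) P ≤ X) (h2 : X ≤ zt p P)
    (hn : P ≤ normalizer (X : Set G)) : X = cen (zt p P) P ∨ X = zt p P := by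
  obtain ⟨F, _, _, D, -⟩ := h.exists_nat
  exact D.irreducible D.img_self h1 h2 hn

theorem idx_sq : (cen (zt p P) P).relIndex (zt p P) = (pCoreOf p P).relIndex S ^ 2 := by
  obtain ⟨F, _, _, D, -, -, -, h6⟩ := h.exists_nat
  rw [D.relIndex_eq, h6]

theorem one_lt_idx : 1 < (pCoreOf p P).relIndex S := by
  obtain ⟨F, _, _, D, -, -, -, h6⟩ := h.exists_nat
  rw [h6]; exact Fintype.one_lt_card

theorem zs_sup {g : G} (hg : g ∈ P) (hM : g ∉ M) : cen S S ⊔ cen (conjS g S) (conjS g S) = zt p P := by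
  obtain ⟨F, _, _, D, h2, -, h4, -⟩ := h.exists_nat
  rw [← conjS_cen', ← h4]
  exact D.fix_sup_conjS hg (D.not_mem_borel h.uniq h2 hg hM)

theorem conj {g : G} (hg : g ∈ P) : Nz p (conjS g S) P (conjS g M) := by
  have e := conjS_eq_of_mem hg
  refine ⟨h.conj_of_mem hg, h.base.conj g, fun hc => h.nz ?_, ?_⟩
  · rwa [← conjS_cen', ← conjS_normalizer, ← e, conjS_le_conjS_iff] at hc
  · obtain ⟨A, hA, hAT⟩ := h.ex
    refine ⟨_, hA.conj g, fun hc => hAT ?_⟩
    rwa [← mem_normalizer_iff_conjS.1 (le_normalizer_pCoreOf P hg), conjS_le_conjS_iff] at hc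

theorem exists_opp : ∃ g ∈ pResOf p P, g ∉ M := by
  by_contra hc
  push Not at hc
  exact h.not_le (h.le_of_pResOf_le hc h.SM)

theorem zt_comm : IsMulCommutative (zt p P) := isMulCommutative_inf_centralizer _

theorem pow_zt {z : G} (hz : z ∈ zt p P) : z ^ p = 1 := by
  obtain ⟨g, hg, hM⟩ := h.exists_opp
  have hg' := pResOf_le P hg
  obtain ⟨a, ha, b, hb, rfl⟩ := exists_mul_of_sup_eq h.zt_comm (h.zs_sup hg' hM) hz
  rw [Commute.mul_pow (((h.conj hg').zs_le hb).2 a (h.zs_le ha).1),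
    (elemAb_iff.1 h.base.el).2 a ha, (elemAb_iff.1 (h.conj hg').base.el).2 b hb, one_mul]

theorem omegaZ_eq : omegaZ p (pCoreOf p P) = zt p P :=
  le_antisymm (le_inf (omegaZ_le _) (omegaZ_le_centralizer _))
    fun _ hz => mem_omegaZ.2 ⟨hz.1, hz.2, h.pow_zt hz⟩

theorem zs_inf_ct : cen S S ⊓ ct p P ≤ centralizer (P : Set G) :=
  le_centralizer_iff.1 (h.le_of_pResOf_le (le_centralizer_iff.1 (inf_le_right.trans inf_le_right))
    (le_centralizer_iff.1 (inf_le_left.trans inf_le_right)))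

theorem cen_P_le_ct : cen (pCoreOf p P) P ≤ ct p P := cen_anti (pResOf_le P)

theorem zt_inf_ct {z : G} (hz : z ∈ zt p P) (hc : z ∈ ct p P) : z ∈ centralizer (P : Set G) := by
  rcases h.irr (X := zt p P ⊓ ct p P) (le_inf inf_le_left ((inf_le_inf_right _ inf_le_left).trans
    h.cen_P_le_ct)) inf_le_left (le_normalizer_inf norm_zt norm_ct) with e | e
  · exact (e.le ⟨hz, hc⟩).2
  · exact absurd (le_centralizer_iff.1 (e.ge.trans (inf_le_right.trans inf_le_right))) h.nc.nc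

theorem zt_le_ht : zt p P ≤ ht p P ⊔ cen (zt p P) P := by
  have hn : P ≤ normalizer (cen (zt p P) P : Set G) := le_normalizer_cen norm_zt le_normalizer
  rcases h.irr (X := ⁅zt p P, pResOf p P⁆ ⊔ cen (zt p P) P) le_sup_right (sup_le
    (commutator_le_left_of_le_normalizer ((pResOf_le P).trans norm_zt)) inf_le_left)
    (le_normalizer_sup (le_normalizer_commutator norm_zt (le_normalizer_pResOf P)) hn) with e | e
  · exact absurd (pResOf_le_centralizer_of_le ((isPGroup_pCoreOf P).to_le inf_le_left) norm_zt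
      (le_sup_left.trans e.le) ((pResOf_le P).trans (le_centralizer_iff.1 inf_le_right))) h.nc.nc
  · exact e.ge.trans (sup_le_sup_right (commutator_mono inf_le_left le_rfl) _)

theorem sup_T (hA : MCLIn S A) (hAT : ¬ A ≤ pCoreOf p P) : A ⊔ pCoreOf p P = S := by
  have := (mcl_star h.toPU h.nc hA hAT).2.2.2.1
  rwa [show cen A A = A from inf_eq_left.2 (h.base.ab A hA)] at this

theorem exists_mul (hA : MCLIn S A) (hAT : ¬ A ≤ pCoreOf p P) {s : G} (hs : s ∈ S) :
    ∃ a ∈ A, ∃ t ∈ pCoreOf p P, s = a * t :=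
  (mem_sup_iff_of_left_le_normalizer (hA.1.1.trans (h.SP.trans (le_normalizer_pCoreOf P)))).1
    ((h.sup_T hA hAT).ge hs)

theorem mcl_st (hA : MCLIn S A) (hAT : ¬ A ≤ pCoreOf p P) : MCLIn S (st p P A) :=
  (mcl_star h.toPU h.nc hA hAT).2.1

theorem zs_le_mcl (hA : MCLIn S A) : cen S S ≤ A :=
  (cen_anti hA.1.1).trans (h.base.cen_eq hA).le

/-- A centrally large subgroup between `A ∩ T` and `T` is normalized by `A`. -/
theorem norm_of_cl (hA : MCLIn S A) (hR : CLIn S R) (h1 : A ⊓ pCoreOf p P ≤ R)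
    (h2 : R ≤ pCoreOf p P) : A ≤ normalizer (R : Set G) := by
  have e : (A ⊔ R) ⊓ pCoreOf p P = R := by
    refine le_antisymm (fun x hx => ?_) (le_inf le_sup_right h2)
    obtain ⟨a, ha, b, hb, rfl⟩ := hA.1.exists_mul hR hx.1
    exact mul_mem (h1 ⟨ha, (mul_mem_cancel_right (h2 hb)).1 hx.2⟩) hb
  rw [← e]
  exact le_normalizer_inf (le_sup_left.trans le_normalizer)
    (hA.1.1.trans (h.SP.trans (le_normalizer_pCoreOf P)))

end Nz

end CfsgLib.GN
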