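import Mathlib
import Cfsg.Agent.Lib.GN.Pair

/-!
The subgroup generated by two opposite large abelian subgroups in the pushing up situation, II.
-/

set_option autoImplicit false
set_option linter.unusedSectionVars false

namespace CfsgLib.GN

open Subgroup Cfsg CfsgLib.LAE CfsgLib.PLocal CfsgLib.Push
open scoped commutatorElement

variable {G : Type*} [Group G]

/-- The homomorphism `x ↦ ⁅u, x⁆`. -/
def cHom (X : Subgroup G) (u : G) (h : ∀ x ∈ X, ⁅u, x⁆ ∈ centralizer (X : Set G)) : X →* G :=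
  MonoidHom.mk' (fun x => ⁅u, (x : G)⁆) fun x y => by
    rw [coe_mul, comm_mul_right, conj_eq_self (h y y.2) x.2]

theorem comm_comm_of {u g x : G} (hg : ⁅g, u⁆ = 1) (h : ⁅u, x⁆ * ⁅g, x⁆ = ⁅g, x⁆ * ⁅u, x⁆) :
    ⁅u, ⁅g, x⁆⁆ = ⁅g, ⁅u, x⁆⁆ := by
  have e : g * u = u * g := commutatorElement_eq_one_iff_mul_comm.1 hg
  have h1 : ⁅u, ⁅g, x⁆⁆ = u * g * x * (u * g)⁻¹ * x⁻¹ * ⁅u, x⁆⁻¹ * ⁅g, x⁆⁻¹ := by
    simp only [commutatorElement_def]; group
  have h2 : ⁅g, ⁅u, x⁆⁆ = g * u * x * (g * u)⁻¹ * x⁻¹ * ⁅g, x⁆⁻¹ * ⁅u, x⁆⁻¹ := by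
    simp only [commutatorElement_def]; group
  rw [h1, h2, e, mul_assoc _ ⁅u, x⁆⁻¹, mul_assoc _ ⁅g, x⁆⁻¹, ← _root_.mul_inv_rev, ← _root_.mul_inv_rev, h]

theorem conj_comm_of {u g x : G} (hg : ⁅g, u⁆ = 1) : g * ⁅u, x⁆ * g⁻¹ = ⁅u, g * x * g⁻¹⁆ := by
  rw [conj_commutatorElement, commutatorElement_eq_one_iff_mul_comm.1 hg, mul_inv_cancel_right]

theorem le_norm_bot {K : Subgroup G} : K ≤ normalizer ((⊥ : Subgroup G) : Set G) :=
  le_top.trans (normalizer_eq_top _).ge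

variable [Finite G] {p : ℕ} [Fact p.Prime]

/-- Two opposite large abelian subgroups. -/
structure Pr (p : ℕ) (P S M A S' M' B Y U H : Subgroup G) (h : G) : Prop where
  n : Nz p S P M
  a : MCLIn S A
  aT : ¬ A ≤ pCoreOf p P
  hL : h ∈ pResOf p P
  hM : h ∉ M
  eS : S' = conjS h S
  eM : M' = conjS h M
  eB : B = conjS h A
  eY : Y = st p P A ⊔ st p P B
  eU : U = A ⊓ B
  eH : H = A ⊔ B

variable {P S M A S' M' B Y U H R R₁ : Subgroup G} {h : G}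

theorem Nz.exists_pr (n : Nz p S P M) (a : MCLIn S A) (aT : ¬ A ≤ pCoreOf p P) (hL : h ∈ pResOf p P)
    (hM : h ∉ M) : ∃ S' M' B Y U H, Pr p P S M A S' M' B Y U H h :=
  ⟨_, _, _, _, _, _, n, a, aT, hL, hM, rfl, rfl, rfl, rfl, rfl, rfl⟩

namespace Pr

variable (r : Pr p P S M A S' M' B Y U H h)
include r

theorem hP : h ∈ P := pResOf_le P r.hL

theorem symm : Pr p P S' M' B S M A Y U H h⁻¹ where
  n := r.eS ▸ r.eM ▸ r.n.conj r.hP
  a := r.eS ▸ r.eB ▸ r.a.conj h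
  aT hc := r.aT (by
    rwa [r.eB, ← mem_normalizer_iff_conjS.1 (le_normalizer_pCoreOf P r.hP), conjS_le_conjS_iff] at hc)
  hL := inv_mem r.hL
  hM hc := r.hM (by
    rw [r.eM, mem_conjS, mul_assoc, inv_mul_cancel, mul_one] at hc
    exact inv_mem_iff.1 hc)
  eS := by rw [r.eS, conjS_inv_conjS]
  eM := by rw [r.eM, conjS_inv_conjS]
  eB := by rw [r.eB, conjS_inv_conjS]
  eY := r.eY.trans (sup_comm _ _)
  eU := r.eU.trans (inf_comm _ _)
  eH := r.eH.trans (sup_comm _ _)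

theorem AS : A ≤ S := r.a.1.1
theorem AP : A ≤ P := r.AS.trans r.n.SP
theorem AH : A ≤ H := r.eH ▸ le_sup_left
theorem HP : H ≤ P := r.eH ▸ sup_le r.AP r.symm.AP
theorem UA : U ≤ A := r.eU ▸ inf_le_left
theorem ab : A ≤ centralizer (A : Set G) := r.n.base.ab A r.a
theorem cenA : cen S A = A := r.n.base.cen_eq r.a
theorem stA : MCLIn S (st p P A) := r.n.mcl_st r.a r.aT
theorem stB_eq : st p P B = conjS h (st p P A) := by rw [conjS_st r.hP, r.eB]
theorem stB : MCLIn S (st p P B) :=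
  r.stB_eq ▸ r.stA.conj_of_le st_le_T r.n.QS (le_normalizer_pCoreOf P r.hP)
theorem st_le : st p P A ≤ Y := r.eY ▸ le_sup_left
theorem clY : CLIn S Y := r.eY ▸ r.stA.1.sup r.stB.1
theorem YT : Y ≤ pCoreOf p P := r.eY ▸ sup_le st_le_T st_le_T
theorem ZY : zt p P ≤ Y := le_sup_right.trans r.st_le
theorem H_cen_U : H ≤ centralizer (U : Set G) :=
  r.eH ▸ sup_le (r.ab.trans (centralizer_anti r.UA)) (r.symm.ab.trans (centralizer_anti r.symm.UA))
theorem zs_sup : cen S S ⊔ cen S' S' = zt p P := r.eS ▸ r.n.zs_sup r.hP r.hM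

theorem inf_le_T : S ⊓ S' ≤ pCoreOf p P := fun t ht' => by
  by_contra hc
  exact r.hM (r.n.se h r.hP t ht'.1 hc (r.n.SM (mem_conjS.1 (r.eS ▸ ht'.2))))

theorem UT : U ≤ pCoreOf p P := (le_inf (r.UA.trans r.AS) (r.symm.UA.trans r.symm.AS)).trans r.inf_le_T
theorem U_le_st : U ≤ st p P A := (le_inf r.UA r.UT).trans le_sup_left
theorem UY : U ≤ Y := r.U_le_st.trans r.st_le

/-- Generation by `S` and an element of `S'`. -/
theorem le_of {X K : Subgroup G} (hX : X ≤ S') (hXT : ¬ X ≤ pCoreOf p P) (hA : A ≤ K)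
    (hT : pCoreOf p P ≤ K) (hXK : X ≤ K) : P ≤ K :=
  r.n.le_of_opp r.hP r.hM (r.eS ▸ hX) hXT ((r.n.sup_T r.a r.aT).ge.trans (sup_le hA hT)) hXK

theorem le_of_H {K : Subgroup G} (hH : H ≤ K) (hT : pCoreOf p P ≤ K) : P ≤ K :=
  r.le_of r.symm.AS r.symm.aT (r.AH.trans hH) hT (r.symm.AH.trans hH)

theorem zs_inf {z : G} (h1 : z ∈ cen S S) (h2 : z ∈ cen S' S') : z ∈ centralizer (P : Set G) :=
  mem_cent fun _ hg => mem_bot.1 (r.n.le_of_opp (K := stb ⊥ z) r.hP r.hM (r.eS ▸ le_rfl) r.symm.n.nn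
    (le_stb le_norm_bot fun _ hs => comm_eq_one h1.2 hs) (le_stb le_norm_bot fun _ hs => comm_eq_one h2.2 hs)
    hg).2

theorem cl' (hR : CLIn S R) (h2 : R ≤ pCoreOf p P) : CLIn S' R :=
  (hR.of_le h2 r.n.QS).up r.symm.n.QS (r.symm.n.clT.fm_eq le_rfl r.symm.n.QS)

theorem norm_H (hR : CLIn S R) (h1 : Y ≤ R) (h2 : R ≤ pCoreOf p P) : H ≤ normalizer (R : Set G) :=
  r.eH ▸ sup_le (r.n.norm_of_cl r.a hR ((le_sup_left.trans r.st_le).trans h1) h2)
    (r.symm.n.norm_of_cl r.symm.a (r.cl' hR h2) ((le_sup_left.trans r.symm.st_le).trans h1) h2)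

theorem HY : H ≤ normalizer (Y : Set G) := r.norm_H r.clY le_rfl r.YT

theorem exists_zs {z : G} (hz : z ∈ zt p P) : ∃ a ∈ cen S S, ∃ b ∈ cen S' S', a * b = z :=
  exists_mul_of_sup_eq r.n.zt_comm r.zs_sup hz

theorem mem_inf_st {x : G} (h1 : x ∈ st p P A) (h2 : x ∈ st p P B) :
    ∃ u ∈ U, ∃ z ∈ zt p P, x = u * z := by
  obtain ⟨a, ha, z, hz, rfl⟩ := mem_st h1
  obtain ⟨b, hb, z', hz', e⟩ := mem_st h2
  obtain ⟨c, hc, d, hd, e'⟩ := r.exists_zs (mul_mem hz' (inv_mem hz))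
  have e1 : a * c⁻¹ = b * d := by
    rw [mul_inv_eq_iff_eq_mul, mul_assoc, ← (r.symm.n.zs_le hd).2 c (r.n.zs_le hc).1, e', ← mul_assoc,
      ← e, mul_inv_cancel_right]
  refine ⟨a * c⁻¹, ?_, c * z, mul_mem (r.n.zs_le hc) hz, by group⟩
  rw [r.eU]
  exact ⟨A.mul_mem ha.1 (A.inv_mem (r.n.zs_le_mcl r.a hc)),
    e1 ▸ B.mul_mem hb.1 (r.symm.n.zs_le_mcl r.symm.a hd)⟩

theorem cen_Y : cen Y Y = st p P A ⊓ st p P B := by
  rw [← r.clY.cen_eq, r.eY, cen_sup, r.n.base.cen_eq r.stA, r.n.base.cen_eq r.stB]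

theorem mem_zY {x : G} (hx : x ∈ cen Y Y) : ∃ u ∈ U, ∃ z ∈ zt p P, x = u * z :=
  r.mem_inf_st (r.cen_Y.le hx).1 (r.cen_Y.le hx).2

theorem U_le_zY : U ≤ cen Y Y := r.cen_Y ▸ le_inf r.U_le_st r.symm.U_le_st
theorem Z_le_zY : zt p P ≤ cen Y Y := r.cen_Y ▸ le_inf le_sup_right le_sup_right
theorem zY_le : cen Y Y ≤ st p P A := r.cen_Y ▸ inf_le_left
theorem H_zY : H ≤ normalizer (cen Y Y : Set G) := le_normalizer_cen r.HY r.HY

theorem cen_U_le : cen (pCoreOf p P) U ≤ Y := fun t ht' => by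
  rw [← r.clY.cen_cen]
  refine ⟨r.n.QS ht'.1, fun x hx => ?_⟩
  obtain ⟨u, hu, z, hz, rfl⟩ := r.mem_zY hx
  rw [mul_assoc, ← hz.2 t ht'.1, ← mul_assoc, ht'.2 u hu, mul_assoc]

theorem H_inf_T {x : G} (h1 : x ∈ H) (h2 : x ∈ pCoreOf p P) : x ∈ Y := r.cen_U_le ⟨h2, r.H_cen_U h1⟩

theorem mem_Y {y : G} (hy : y ∈ Y) :
    ∃ a ∈ A ⊓ pCoreOf p P, ∃ b ∈ B ⊓ pCoreOf p P, y = a * b := by
  obtain ⟨x, hx, x', hx', rfl⟩ := r.stA.1.exists_mul r.stB.1 (r.eY ▸ hy)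
  obtain ⟨a, ha, z, hz, rfl⟩ := mem_st hx
  obtain ⟨b, hb, z', hz', rfl⟩ := mem_st hx'
  obtain ⟨c, hc, d, hd, e'⟩ := r.exists_zs (mul_mem hz hz')
  refine ⟨a * c, mul_mem ha ⟨r.n.zs_le_mcl r.a hc, (r.n.zs_le hc).1⟩, d * b,
    mul_mem ⟨r.symm.n.zs_le_mcl r.symm.a hd, (r.symm.n.zs_le hd).1⟩ hb, ?_⟩
  rw [hz'.2 b hb.2, mul_assoc a c, ← mul_assoc c, e']
  simp only [mul_assoc]

theorem YH : Y ≤ H := fun y hy => by
  obtain ⟨a, ha, b, hb, rfl⟩ := r.mem_Y hy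
  exact mul_mem (r.AH ha.1) (r.symm.AH hb.1)

theorem comm_zY {g x : G} (hg : g ∈ H) (hx : x ∈ cen Y Y) : ∃ z ∈ zt p P, ⁅g, x⁆ = ⁅g, z⁆ := by
  obtain ⟨u, hu, z, hz, rfl⟩ := r.mem_zY hx
  refine ⟨z, hz, ?_⟩
  rw [comm_mul_right, comm_eq_one' (r.H_cen_U hg) hu, one_mul,
    conj_eq_self (commutator_mem_of_normalizer (norm_zt (r.HP hg)) hz).2 (r.UT hu)]

theorem range_sup {X : Subgroup G} (hH : H ≤ normalizer (X : Set G)) {u : G} (hu : u ∈ U)
    (hc : ∀ x ∈ X, ⁅u, x⁆ ∈ centralizer (X : Set G)) (hz : ∀ x ∈ X, ⁅u, x⁆ ∈ zt p P) {x : G} (hx : x ∈ X)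
    (hx' : ⁅u, x⁆ ∉ centralizer (P : Set G)) : (cHom X u hc).range ⊔ cen (zt p P) P = zt p P := by
  have h1 : (cHom X u hc).range ≤ zt p P := by
    rintro _ ⟨x, rfl⟩; exact hz x x.2
  refine (r.n.irr le_sup_right (sup_le h1 inf_le_left) (le_normalizer_sup (r.le_of_H ?_ ?_)
    (le_normalizer_cen norm_zt le_normalizer))).resolve_left fun e => hx' ?_
  · refine fun g hg => Core.mem_normalizer_of_forall_conj_mem ?_
    rintro _ ⟨x, rfl⟩
    exact ⟨⟨_, conj_mem_of_mem_normalizer (hH hg) x.2⟩,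
      (conj_comm_of (comm_eq_one' (r.H_cen_U hg) hu)).symm⟩
  · exact le_normalizer_of_le_centralizer (T_le_cen_zt.trans (centralizer_anti h1))
  · exact (e.le (mem_sup_left ⟨⟨x, hx⟩, rfl⟩)).2

/-- The measure argument. -/
theorem step (c₁ : CLIn S R₁) (h1 : Y ≤ R₁) (h2 : R₁ ≤ R) (h3 : R ≤ pCoreOf p P)
    (hn : R ≤ normalizer (R₁ : Set G)) (hH : H ≤ normalizer (R : Set G)) : ⁅⁅R, H⁆, H⁆ ≤ R₁ := by
  have hH₁ := r.norm_H c₁ h1 (h2.trans h3)
  set W := cen R₁ R₁ with hW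
  have hWY : W ≤ cen Y Y := by rw [hW, ← c₁.cen_eq, ← r.clY.cen_eq]; exact cen_anti h1
  have hZW : zt p P ≤ W := le_inf (r.ZY.trans h1) (inf_le_right.trans (centralizer_anti (h2.trans h3)))
  have hWT : W ≤ pCoreOf p P := inf_le_left.trans (h2.trans h3)
  have mW : ∀ w ∈ W, ∃ u ∈ U, u ∈ W ∧ ∃ z ∈ zt p P, w = u * z := fun w hw => by
    obtain ⟨u, hu, z, hz, rfl⟩ := r.mem_zY (hWY hw)
    exact ⟨u, hu, (mul_mem_cancel_right (hZW hz)).1 hw, z, hz, rfl⟩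
  have hHW : H ≤ normalizer (W : Set G) := le_normalizer_cen hH₁ hH₁
  have hRW : R ≤ normalizer (W : Set G) := le_normalizer_cen hn hn
  have nZ : ∀ {K : Subgroup G}, K ≤ pCoreOf p P → K ≤ normalizer (zt p P : Set G) := fun hK =>
    hK.trans ((pCoreOf_le P).trans norm_zt)
  have c1 : ⁅H, W⁆ ≤ zt p P := commutator_le.2 fun g hg w hw => by
    obtain ⟨z, hz, e⟩ := r.comm_zY hg (hWY hw)
    exact e ▸ commutator_mem_of_normalizer (norm_zt (r.HP hg)) hz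
  set X := cmod R (zt p P) W with hX
  have hHX : H ≤ normalizer (X : Set G) := le_normalizer_cmod hH (r.HP.trans norm_zt) hHW
  have hXT : X ≤ pCoreOf p P := cmod_le.trans h3
  have mX : ∀ x ∈ X, ∀ w ∈ W, ⁅w, x⁆ ∈ zt p P := fun x hx => (mem_cmod'.1 hx).2.2
  have c2 : ⁅R, H⁆ ≤ X := (le_cmod_iff (nZ h3)).2 ⟨commutator_le_left_of_le_normalizer hH,
    Core.three_subgroups_of_le_normalizer (nZ h3) (r.HP.trans norm_zt) (nZ hWT)
      ((commutator_mono c1 le_rfl).trans (commutator_le_left_of_le_normalizer (nZ h3)))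
      ((commutator_mono (commutator_le_left_of_le_normalizer hRW) le_rfl).trans
        (by rwa [commutator_comm]))⟩
  have cc : ∀ u ∈ U, u ∈ W → ∀ g ∈ H, ∀ x ∈ X, ⁅u, ⁅g, x⁆⁆ = ⁅g, ⁅u, x⁆⁆ := fun u hu hw g hg x hx =>
    comm_comm_of (comm_eq_one' (r.H_cen_U hg) hu)
      ((mX x hx u hw).2 _ (hXT (commutator_mem_of_normalizer (hHX hg) hx))).symm
  have key : ∀ u ∈ U, u ∈ W → ∀ x ∈ X, ⁅u, x⁆ ∈ centralizer (P : Set G) := by
    intro u hu hw x₁ hx₁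
    by_contra hc
    have hz : ∀ {X' : Subgroup G}, X' ≤ X → ∀ x ∈ X', ⁅u, x⁆ ∈ centralizer (X' : Set G) :=
      fun hX' x hx => centralizer_anti (hX'.trans hXT) (mX x (hX' hx) u hw).2
    obtain ⟨x₀, hx₀, hx₀'⟩ : ∃ x₀ ∈ X, ⁅u, x₀⁆ ∉ cen S S := by
      by_contra hc'
      push Not at hc'
      have := r.range_sup hHX hu (hz le_rfl) (fun x hx => mX x hx u hw) hx₁ hc
      have h4 : zt p P ≤ cen S S := this.ge.trans (sup_le (by rintro _ ⟨x, rfl⟩; exact hc' x x.2)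
        ((cen_anti r.n.SP).trans r.n.cen_zt.le))
      exact r.n.one_lt_idx.ne' (r.n.idx ▸ relIndex_eq_one.2 h4)
    obtain ⟨a, ha, haT⟩ := SetLike.not_le_iff_exists.1 r.aT
    have hx : ⁅a, x₀⁆ ∈ X := commutator_mem_of_normalizer (hHX (r.AH ha)) hx₀
    set X' := nclIn (zpowers ⁅a, x₀⁆) H ⊔ R₁ with hX'
    have hX'X : X' ≤ X := sup_le (nclIn_le (zpowers_le.2 hx) hHX) fun t ht' =>
      (mem_cmod (nZ h3)).2 ⟨h2 ht', fun w hw' => by rw [comm_eq_one' hw'.2 ht']; exact one_mem _⟩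
    have e1 := r.range_sup (le_normalizer_sup (le_normalizer_nclIn _ H) hH₁) hu (hz hX'X)
      (fun x hx => mX x (hX'X hx) u hw) (mem_sup_left (le_nclIn _ H (mem_zpowers _))) (by
        rw [cc u hu hw a (r.AH ha) x₀ hx₀]
        exact fun hc' => hx₀' (r.n.mem_zs (r.AS ha) haT (mX x₀ hx₀ u hw) hc'))
    have i1 : (pCoreOf p P).relIndex S ^ 2 ≤ R₁.relIndex X' := by
      have := relIndex_sup_of_le_normalizer ((le_sup_left.trans e1.le).trans (inf_le_left.trans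
        ((pCoreOf_le P).trans (le_normalizer_cen (V := zt p P) norm_zt le_normalizer))))
      rw [e1, r.n.idx_sq, ← index_comap] at this
      rw [this]
      refine index_antitone fun t ht' => ?_
      rw [mem_comap, show cHom X' u (hz hX'X) t = 1 from comm_eq_one' hw.2 ht']
      exact one_mem _
    have hψ : ∀ w ∈ W, ⁅x₀, w⁆ ∈ zt p P := fun w hw' => comm_swap (mX x₀ hx₀ w hw')
    set ψ := cHom W x₀ fun w hw' => centralizer_anti hWT (hψ w hw').2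
    have i2 : (cen S X').relIndex W ≤ (pCoreOf p P).relIndex S := by
      rw [← r.n.idx]
      refine le_trans (index_antitone (H := (cen S S).comap ψ) fun w hw' => ?_) ?_
      · obtain ⟨u', hu', hw'', z, hz', e⟩ := mW w w.2
        have h5 : ⁅u', x₀⁆ ∈ cen S S := by
          refine comm_swap ?_
          have : ψ w = ⁅x₀, u'⁆ := by
            change ⁅x₀, (w : G)⁆ = _
            rw [e, comm_mul_right, comm_eq_one hz'.2 (hXT hx₀), mul_one, mul_inv_cancel, mul_one]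
          exact this ▸ hw'
        refine ⟨r.n.QS (hWT w.2), ?_⟩
        change (w : G) ∈ centralizer (X' : Set G)
        rw [e]
        refine mul_mem ?_ (centralizer_anti (hX'X.trans hXT) hz'.2)
        rw [hX', LAE.centralizer_sup]
        refine ⟨mem_cent fun g hg => mem_bot.1 (nclIn_le (N := stb ⊥ u') (zpowers_le.2 ⟨le_norm_bot (mem_top _), ?_⟩)
          ((le_stb le_norm_bot fun g hg => comm_eq_one' (r.H_cen_U hg) hu').trans le_normalizer) hg).2, hw''.2⟩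
        refine comm_swap ?_
        rw [cc u' hu' hw'' a (r.AH ha) x₀ hx₀]
        exact comm_eq_one h5.2 (r.AS ha)
      · rw [index_comap]
        exact relIndex_le_of_le (by rintro _ ⟨w, rfl⟩; exact hψ w w.2)
    have m1 := (cd_le_fm (hX'X.trans (hXT.trans r.n.QS))).trans c₁.2.ge
    have hle : cen S X' ≤ W := by rw [hW, ← c₁.cen_eq]; exact cen_anti le_sup_right
    rw [← Core.card_mul_relIndex_of_le (le_sup_right : R₁ ≤ X'), ← hW,
      ← Core.card_mul_relIndex_of_le hle, mul_assoc, mul_comm (R₁.relIndex X')] at m1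
    have m2 := Nat.le_of_mul_le_mul_left (Nat.le_of_mul_le_mul_left m1 Nat.card_pos) Nat.card_pos
    have := r.n.one_lt_idx
    nlinarith
  refine (commutator_mono c2 le_rfl).trans (commutator_le.2 fun x hx g hg => comm_swap ?_)
  rw [← c₁.cen_cen]
  have hgx := commutator_mem_of_normalizer (hHX hg) hx
  refine ⟨r.n.QS (hXT hgx), mem_cent fun w hw => ?_⟩
  obtain ⟨u, hu, hw', z, hz, rfl⟩ := mW w hw
  rw [comm_mul_left, comm_eq_one' hz.2 (hXT hgx), cc u hu hw' g hg x hx,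
    comm_eq_one (key u hu hw' x hx) (r.HP hg)]
  simp

theorem comm_res_le : ⁅pCoreOf p P, pResOf p H⁆ ≤ Y := by
  have hn : H ≤ normalizer (pCoreOf p P : Set G) := r.HP.trans (le_normalizer_pCoreOf P)
  obtain ⟨R, -, -, h3, -, h5⟩ := (subnormalIn_of_isPGroup (isPGroup_pCoreOf P) r.YT).induction_down
    (P := fun X => Y ≤ X → ∃ R, CLIn S R ∧ Y ≤ R ∧ R ≤ X ∧ R ≤ pCoreOf p P ∧
      ⁅pCoreOf p P, pResOf p H⁆ ≤ R)
    (fun _ => ⟨_, r.n.clT, r.YT, le_rfl, le_rfl,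
      commutator_le_left_of_le_normalizer ((pResOf_le H).trans hn)⟩)
    (fun X X' h1 h2 _ ih hY => by
      obtain ⟨R, c, h3, h4, h5, h6⟩ := ih (hY.trans h1)
      have c₁ : CLIn S (nclIn Y R) := by
        rw [← sup_eq_right.2 (le_nclIn Y R)]
        refine Core.iSup_induction_finite (P := fun X => CLIn S (Y ⊔ X)) (by simpa using r.clY)
          (fun _ _ a b => by rw [sup_sup_distrib_left]; exact a.sup b) fun g => r.clY.sup ?_
        simpa only [conjS_eq_of_mem (c.1 g.2)] using r.clY.conj g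
      refine ⟨_, c₁, le_nclIn Y R, nclIn_le hY (h4.trans h2), (nclIn_le_of_le h3).trans h5, ?_⟩
      rw [← commutator_pResOf_commutator' (isPGroup_pCoreOf P) hn,
        ← commutator_pResOf_commutator' (isPGroup_pCoreOf P) hn]
      exact (commutator_mono (commutator_mono h6 (pResOf_le H)) (pResOf_le H)).trans
        (r.step c₁ (le_nclIn Y R) (nclIn_le_of_le h3) h5 (le_normalizer_nclIn Y R) (r.norm_H c h3 h5)))
    le_rfl
  exact h5.trans h3

theorem LH : pResOf p P ≤ H := by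
  have hn : H ≤ normalizer (pCoreOf p P : Set G) := r.HP.trans (le_normalizer_pCoreOf P)
  set N := pResOf p H ⊔ ⁅pCoreOf p P, pResOf p H⁆
  have h1 : N ≤ H := sup_le (pResOf_le H) (r.comm_res_le.trans r.YH)
  have h2 : pCoreOf p P ≤ normalizer (N : Set G) := by
    have := Core.le_normalizer_sup_commutator (pResOf p H) (pCoreOf p P)
    rwa [commutator_comm] at this
  have h3 : pResOf p (H ⊔ pCoreOf p P) ≤ N := pResOf_sup_le hn (le_normalizer_sup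
    (le_normalizer_pResOf H) (le_normalizer_commutator hn (le_normalizer_pResOf H))) h2 le_sup_left
    ((pResOf_eq_bot_of_isPGroup (isPGroup_pCoreOf P)).le.trans bot_le)
  exact (pResOf_mono (r.le_of_H le_sup_left le_sup_right)).trans (h3.trans h1)

theorem hH : h ∈ H := r.LH r.hL

theorem ht_le : ht p P ≤ Y := fun _ hx => r.H_inf_T (r.LH (ht_le_L hx)) (ht_le_T hx)

theorem eq_LA : H = pResOf p P ⊔ A := by
  refine le_antisymm (r.eH.le.trans (sup_le le_sup_right ?_)) (sup_le r.LH r.AH)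
  rw [r.eB]
  exact conjS_le_of_le_of_mem le_sup_right (mem_sup_left r.hL)

end Pr

end CfsgLib.GN
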