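import Mathlib
import Cfsg.Agent.Lib.GN.Pair2
import Cfsg.Agent.Lib.SolvStruct.Factor

/-!
The subgroup generated by two opposite large abelian subgroups in the pushing up situation, III.
-/

set_option autoImplicit false
set_option linter.unusedSectionVars false

namespace CfsgLib.GN

open Subgroup Cfsg CfsgLib.LAE CfsgLib.PLocal CfsgLib.Push
open scoped commutatorElement

variable {G : Type*} [Group G]

theorem conj_eq_comm_mul (g x : G) : g * x * g⁻¹ = ⁅g, x⁆ * x := by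
  simp only [commutatorElement_def]; group

theorem comm_of_eq_mul {a x y k : G} (h : x = y * k) : ⁅a, k⁆ = y⁻¹ * (⁅a, y⁆⁻¹ * ⁅a, x⁆) * y := by
  rw [h]; simp only [commutatorElement_def]; group

variable [Finite G] {p : ℕ} [Fact p.Prime] {P S M A S' M' B Y U H E : Subgroup G} {h : G}

theorem comm_ct {g c : G} (hg : g ∈ P) (hc : c ∈ ct p P) : ⁅g, c⁆ ∈ ct p P :=
  commutator_mem_of_normalizer (norm_ct hg) hc

theorem conj_ct {g c : G} (hg : g ∈ P) (hc : c ∈ ct p P) : g * c * g⁻¹ ∈ ct p P :=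
  conj_mem_of_mem_normalizer (norm_ct hg) hc

theorem comm_ht_ct {t c : G} (ht' : t ∈ ht p P) (hc : c ∈ ct p P) : ⁅t, c⁆ = 1 :=
  comm_eq_one hc.2 (ht_le_L ht')

namespace Pr

variable (r : Pr p P S M A S' M' B Y U H h)
include r

theorem YP : Y ≤ P := r.YH.trans r.HP

theorem U_le_ct : U ≤ ct p P := le_inf r.UT (le_centralizer_iff.1 (r.LH.trans r.H_cen_U))

theorem ct_inf_A {x : G} (hx : x ∈ A) (hc : x ∈ ct p P) : x ∈ U := by
  have : x ∈ centralizer (H : Set G) := by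
    rw [r.eq_LA, LAE.centralizer_sup]; exact ⟨hc.2, r.ab hx⟩
  rw [r.eU]
  exact ⟨hx, r.symm.cenA.le ⟨r.symm.n.QS hc.1, centralizer_anti r.symm.AH this⟩⟩

theorem le_stb_H {N : Subgroup G} {x : G} (hn : H ≤ normalizer (N : Set G)) (hA : ∀ a ∈ A, ⁅a, x⁆ ∈ N)
    (hB : ∀ b ∈ B, ⁅b, x⁆ ∈ N) {g : G} (hg : g ∈ H) : ⁅g, x⁆ ∈ N :=
  ((r.eH.le.trans (sup_le (le_stb (r.AH.trans hn) hA) (le_stb (r.symm.AH.trans hn) hB))) hg).2

theorem mem_ct_of {t : G} (ht' : t ∈ pCoreOf p P) (hA : ∀ a ∈ A, ⁅a, t⁆ ∈ ct p P)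
    (hB : ∀ b ∈ B, ⁅b, t⁆ ∈ ct p P) : t ∈ ct p P :=
  mem_ct ht' fun _ hl => r.le_stb_H (r.HP.trans norm_ct) hA hB (r.LH hl)

theorem comm_h {t : G} (ht' : t ∈ pCoreOf p P) : ⁅h, t⁆ ∈ ht p P :=
  comm_swap (commutator_mem_commutator ht' r.hL)

theorem fix {t : G} (ht' : t ∈ pCoreOf p P) (hA : ∀ a ∈ A, ⁅a, t⁆ ∈ ct p P) :
    ∃ a ∈ A ⊓ pCoreOf p P, ∃ c ∈ ct p P, t = a * c := by
  obtain ⟨b, hb, a, ha, e⟩ := r.symm.mem_Y (r.ht_le (r.comm_h ht'))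
  refine ⟨a⁻¹, inv_mem ha, a * t, r.mem_ct_of (mul_mem ha.2 ht') (fun a' ha' => ?_) fun b' hb' => ?_,
    by group⟩
  · rw [comm_mul_right, comm_eq_one (r.ab ha.1) ha', one_mul]
    exact conj_ct (r.AP ha.1) (hA a' ha')
  · have e1 : a * t = b⁻¹ * (h * t * h⁻¹) := by rw [conj_eq_comm_mul h, e]; group
    rw [e1, comm_mul_right, comm_eq_one (r.symm.ab (B.inv_mem hb.1)) hb', one_mul]
    refine conj_ct (inv_mem (r.symm.AP hb.1)) ?_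
    obtain ⟨a', ha', rfl⟩ := exists_of_mem_conjS (r.eB ▸ hb')
    rw [← conj_commutatorElement]
    exact conj_ct r.hP (hA a' ha')

theorem ct_inf_Y {x : G} (hx : x ∈ Y) (hc : x ∈ ct p P) : x ∈ U := by
  obtain ⟨a, ha, b, hb, rfl⟩ := r.mem_Y hx
  have h1 : b ∈ ct p P := r.mem_ct_of hb.2 (fun a' ha' => by
    rw [comm_of_eq_mul (a := a') (rfl : a * b = a * b), comm_eq_one (r.ab ha.1) ha', inv_one, one_mul]
    exact conj_inv_mem_of_mem_normalizer (norm_ct (r.AP ha.1)) (comm_ct (r.AP ha') hc))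
    fun b' hb' => by rw [comm_eq_one (r.symm.ab hb.1) hb']; exact one_mem _
  exact mul_mem (r.ct_inf_A ha.1 ((mul_mem_cancel_right h1).1 hc)) (r.symm.ct_inf_A hb.1 h1)

theorem mem_Y' {y : G} (hy : y ∈ Y) : ∃ a ∈ A ⊓ pCoreOf p P, ∃ t ∈ ht p P, y = a * t := by
  obtain ⟨a, ha, b, hb, rfl⟩ := r.mem_Y hy
  obtain ⟨a', ha', rfl⟩ := exists_of_mem_conjS (r.eB ▸ hb.1)
  have h1 : a' ∈ pCoreOf p P := by
    simpa [mul_assoc] using conj_inv_mem_of_mem_normalizer (le_normalizer_pCoreOf P r.hP) hb.2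
  exact ⟨a * a', mul_mem ha ⟨ha', h1⟩, a'⁻¹ * ⁅h, a'⁆ * a',
    conj_inv_mem_of_mem_normalizer (norm_ht (r.AP ha')) (r.comm_h h1), by rw [conj_eq_comm_mul h]; group⟩

theorem comm_Y {g y : G} (hg : g ∈ H) (hy : y ∈ Y) : ⁅g, y⁆ ∈ ht p P := by
  refine ((r.eq_LA.le.trans (sup_le (le_stb ((pResOf_le P).trans norm_ht) fun l hl =>
    comm_swap (commutator_mem_commutator (r.YT hy) hl)) (le_stb (r.AP.trans norm_ht) fun a ha => ?_))) hg).2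
  obtain ⟨a', ha', t, ht', rfl⟩ := r.mem_Y' hy
  rw [comm_mul_right, comm_eq_one (r.ab ha'.1) ha, one_mul]
  exact conj_mem_of_mem_normalizer (norm_ht (r.AP ha'.1))
    (commutator_mem_of_normalizer (norm_ht (r.AP ha)) ht')

theorem ito {x y : G} (hx : x ∈ ⁅A ⊔ Y, A ⊔ Y⁆) (hy : y ∈ ⁅A ⊔ Y, A ⊔ Y⁆) : ⁅x, y⁆ = 1 := by
  have e : A ⊔ Y = A ⊔ st p P B := le_antisymm (sup_le le_sup_left (r.eY.le.trans (sup_le (sup_le
    (inf_le_left.trans le_sup_left) (le_sup_right.trans le_sup_right)) le_sup_right)))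
    (sup_le_sup_left r.symm.st_le A)
  have f : SolvStruct.IsFactor (A.subgroupOf (A ⊔ Y)) ((st p P B).subgroupOf (A ⊔ Y)) :=
    SolvStruct.isFactor_subgroupOf fun g hg => by
      obtain ⟨a, ha, b, hb, rfl⟩ := r.a.1.exists_mul r.stB.1 (e ▸ hg)
      exact ⟨a, ⟨mem_sup_left ha, ha⟩, b, ⟨mem_sup_right (r.symm.st_le hb), hb⟩, rfl⟩
  have : IsMulCommutative (A.subgroupOf (A ⊔ Y)) :=
    Core.isMulCommutative_iff_forall.2 fun a ha b hb => Subtype.ext (r.ab hb a ha)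
  have : IsMulCommutative ((st p P B).subgroupOf (A ⊔ Y)) :=
    Core.isMulCommutative_iff_forall.2 fun a ha b hb => Subtype.ext (r.n.base.ab _ r.stB hb a ha)
  rw [← map_subtype_commutator] at hx hy
  obtain ⟨x, hx, rfl⟩ := hx
  obtain ⟨y, hy, rfl⟩ := hy
  exact commutatorElement_eq_one_iff_mul_comm.2
    (congrArg Subtype.val (Core.isMulCommutative_iff_forall.1 f.commutator_isMulCommutative x hx y hy))

theorem der_A {a y : G} (ha : a ∈ A) (hy : y ∈ Y) : ⁅a, y⁆ ∈ ⁅A ⊔ Y, A ⊔ Y⁆ :=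
  commutator_mem_commutator (mem_sup_left ha) (mem_sup_right hy)

theorem comm_mem_Y {g y : G} (hg : g ∈ H) (hy : y ∈ Y) : ⁅g, y⁆ ∈ Y := r.ht_le (r.comm_Y hg hy)

theorem ht_le_of {K : Subgroup G} (hn : H ≤ normalizer (K : Set G))
    (hA : ∀ a ∈ A, ∀ y ∈ Y, ⁅a, y⁆ ∈ K) (hB : ∀ b ∈ B, ∀ y ∈ Y, ⁅b, y⁆ ∈ K) : ht p P ≤ K := by
  rw [ht, ← commutator_pResOf_commutator' (isPGroup_pCoreOf P) (le_normalizer_pCoreOf P)]
  exact commutator_le.2 fun y hy l hl => comm_swap (r.le_stb_H hn (fun a ha => hA a ha y (r.ht_le hy))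
    (fun b hb => hB b hb y (r.ht_le hy)) (r.LH hl))

theorem ht_cen : ht p P ≤ centralizer ((⁅Y, Y⁆ : Subgroup G) : Set G) :=
  r.ht_le_of (le_normalizer_centralizer (le_normalizer_commutator r.HY r.HY))
    (fun _ ha _ hy => mem_cent fun _ hx =>
      r.ito (commutator_mono le_sup_right le_sup_right hx) (r.der_A ha hy))
    (fun _ ha _ hy => mem_cent fun _ hx =>
      r.symm.ito (commutator_mono le_sup_right le_sup_right hx) (r.symm.der_A ha hy))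

theorem cen0 {b : G} (hb : b ∈ B ⊓ pCoreOf p P) (hc : ⁅h⁻¹, b⁆ ∈ cen Y Y) : b ∈ st p P A := by
  have h1 : h⁻¹ * b * h⁻¹⁻¹ ∈ st p P A := by
    rw [inv_inv]
    exact mem_sup_left ⟨mem_conjS.1 (r.eB ▸ hb.1),
      conj_inv_mem_of_mem_normalizer (le_normalizer_pCoreOf P r.hP) hb.2⟩
  rw [conj_eq_comm_mul] at h1
  exact (mul_mem_cancel_left (r.zY_le hc)).1 h1

theorem comm_right {a a₁ b₁ : G} {N : Subgroup G} (hn : H ≤ normalizer (N : Set G)) (ha : a ∈ A)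
    (h₁ : a₁ ∈ A) (hc : ⁅a, a₁ * b₁⁆ ∈ N) : ⁅a, b₁⁆ ∈ N := by
  rw [comm_of_eq_mul (a := a) (rfl : a₁ * b₁ = a₁ * b₁), comm_eq_one (r.ab h₁) ha, inv_one, one_mul]
  exact conj_inv_mem_of_mem_normalizer (hn (r.AH h₁)) hc

theorem cenA' {y : G} (hy : y ∈ Y) (hc : ∀ a ∈ A, ⁅a, y⁆ ∈ cen Y Y) : y ∈ st p P A := by
  obtain ⟨a, ha, b, hb, rfl⟩ := r.mem_Y hy
  refine mul_mem (mem_sup_left ha) (r.cen0 hb (r.le_stb_H r.H_zY
    (fun a' ha' => r.comm_right r.H_zY ha' ha.1 (hc a' ha')) (fun b' hb' => ?_) (inv_mem r.hH)))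
  rw [comm_eq_one (r.symm.ab hb.1) hb']; exact one_mem _

theorem cen_ht : cen Y (ht p P) ≤ cen Y Y := by
  by_contra hc
  have hn : A ≤ normalizer (cen Y (ht p P) : Set G) :=
    le_normalizer_cen (r.AH.trans r.HY) (r.AP.trans norm_ht)
  obtain ⟨n, hn'⟩ := exists_iterCommutator_eq_bot_of_isPGroup
    ((isPGroup_pCoreOf P).to_le (inf_le_left.trans r.YT)) (r.n.pS.to_le r.AS) hn
  obtain ⟨v, hv, hv', hv''⟩ := exists_mem_not_mem_commutator_mem hn hn' hc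
  obtain ⟨a, ha, z, hz, rfl⟩ := mem_st (r.cenA' hv.1 fun a ha => comm_swap (hv'' a ha))
  have h1 : a ∈ centralizer (ht p P : Set G) :=
    (mul_mem_cancel_right (centralizer_anti ht_le_T hz.2)).1 hv.2
  refine hv' (mul_mem ⟨r.st_le (mem_sup_left ha), mem_cent fun y hy => ?_⟩ (r.Z_le_zY hz))
  obtain ⟨a', ha', t, ht', rfl⟩ := r.mem_Y' hy
  rw [comm_mul_left, comm_eq_one h1 ht', comm_eq_one (r.ab ha.1) ha'.1]
  simp

theorem class2 {x y : G} (hx : x ∈ Y) (hy : y ∈ Y) : ⁅x, y⁆ ∈ cen Y Y :=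
  r.cen_ht ⟨r.comm_mem_Y (r.YH hx) hy, le_centralizer_iff.1 r.ht_cen (commutator_mem_commutator hx hy)⟩

theorem bil_right {x y y' : G} (hx : x ∈ Y) (hy : y ∈ Y) (hy' : y' ∈ Y) :
    ⁅x, y * y'⁆ = ⁅x, y⁆ * ⁅x, y'⁆ := by
  rw [comm_mul_right, conj_eq_self (r.class2 hx hy').2 hy]

theorem bil_left {x y y' : G} (hx : x ∈ Y) (hy : y ∈ Y) (hy' : y' ∈ Y) :
    ⁅y * y', x⁆ = ⁅y', x⁆ * ⁅y, x⁆ := by
  rw [comm_mul_left, conj_eq_self (r.class2 hy' hx).2 hy]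

theorem Y_norm (h1 : cen Y Y ≤ E) (h2 : E ≤ Y) : Y ≤ normalizer (E : Set G) := fun y hy =>
  Core.mem_normalizer_of_forall_conj_mem fun x hx => by
    rw [conj_eq_comm_mul]; exact mul_mem (h1 (r.class2 hy (h2 hx))) hx

theorem ht_le_sup : ht p P ≤ ⁅A, Y⁆ ⊔ ⁅B, Y⁆ := by
  have h1 : ⁅A, Y⁆ ⊔ ⁅B, Y⁆ ≤ Y := sup_le (commutator_le_right_of_le_normalizer (r.AH.trans r.HY))
    (commutator_le_right_of_le_normalizer (r.symm.AH.trans r.HY))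
  refine r.ht_le_of (r.eH.le.trans (sup_le ?_ ?_))
    (fun _ ha _ hy => mem_sup_left (commutator_mem_commutator ha hy))
    (fun _ ha _ hy => mem_sup_right (commutator_mem_commutator ha hy))
  · exact Core.le_normalizer_of_commutator_le_of_le (by rw [commutator_comm]; exact le_sup_left) h1
  · exact Core.le_normalizer_of_commutator_le_of_le (by rw [commutator_comm]; exact le_sup_right) h1

theorem comm_cubic {a v x : G} (ha : a ∈ A) (hv : v ∈ Y) (hv' : v ∈ ⁅A ⊔ Y, A ⊔ Y⁆) (hx : x ∈ Y) :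
    ∃ z ∈ zt p P, ⁅x, ⁅a, v⁆⁆ = ⁅a, z⁆ := by
  obtain ⟨z, hz, e⟩ := r.comm_zY (r.AH ha) (r.class2 hx hv)
  refine ⟨z, hz, ?_⟩
  have h1 := r.comm_mem_Y (r.AH ha) hv
  have h2 := conj_commutatorElement a x v
  rw [conj_eq_comm_mul a, conj_eq_comm_mul a, conj_eq_comm_mul a,
    r.bil_left (mul_mem h1 hv) (r.comm_mem_Y (r.AH ha) hx) hx,
    r.ito (r.der_A ha hx) (mul_mem (r.der_A ha hv) hv'), mul_one, r.bil_right hx h1 hv] at h2
  rw [← e, mul_right_cancel h2]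

theorem cubic0 {a a' y : G} (ha : a ∈ A) (ha' : a' ∈ A) (hy : y ∈ Y) : ⁅a, ⁅a', y⁆⁆ ∈ cen Y Y := by
  have hv := r.comm_mem_Y (r.AH ha') hy
  have hw := r.comm_mem_Y (r.AH ha) hv
  refine r.cen_ht ⟨hw, centralizer_anti r.ht_le_sup ?_⟩
  rw [LAE.centralizer_sup]
  refine ⟨mem_cent fun x hx => r.ito (commutator_mono le_sup_left le_sup_right hx) (r.der_A ha hv),
    mem_cent fun x hx => ?_⟩
  have hB : ⁅B, Y⁆ ≤ Y := commutator_le_right_of_le_normalizer (r.symm.AH.trans r.HY)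
  have key : ∀ x ∈ Y, ⁅x, ⁅a, ⁅a', y⁆⁆⁆ ∈ cen S S := fun x hx => by
    obtain ⟨z, hz, e⟩ := r.comm_cubic ha hv (r.der_A ha' hy) hx
    exact e ▸ r.n.comm_mem (r.AS ha) hz
  obtain ⟨b, hb, hbT⟩ := SetLike.not_le_iff_exists.1 r.symm.aT
  have hx' : b * x * b⁻¹ ∈ ⁅B, Y⁆ := conj_mem_of_mem_normalizer (le_normalizer_commutator le_normalizer
    (r.symm.AH.trans r.HY) hb) hx
  have h2 := conj_commutatorElement b x ⁅a, ⁅a', y⁆⁆
  rw [conj_eq_comm_mul b ⁅a, _⁆, r.bil_right (hB hx') (r.comm_mem_Y (r.symm.AH hb) hw) hw,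
    r.symm.ito (commutator_mono le_sup_left le_sup_right hx') (r.symm.der_A hb hw), one_mul,
    conj_eq_comm_mul b] at h2
  have h3 := key x (hB hx)
  have h4 : ⁅b, ⁅x, ⁅a, ⁅a', y⁆⁆⁆⁆ ∈ cen S S :=
    (mul_mem_cancel_right h3).1 (h2 ▸ key _ (hB hx'))
  have h5 := r.zs_inf h3 (r.symm.n.mem_zs (r.symm.AS hb) hbT (r.n.zs_le h3)
    (r.zs_inf h4 (r.symm.n.comm_mem (r.symm.AS hb) (r.n.zs_le h3))))
  obtain ⟨z, hz, e⟩ := r.comm_cubic ha hv (r.der_A ha' hy) (hB hx)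
  rw [e] at h5 ⊢
  exact r.n.comm_eq_one_of (r.AS ha) hz h5

theorem comm_A {a y : G} (ha : a ∈ A) (hy : y ∈ Y) : ⁅a, y⁆ ∈ st p P A :=
  r.cenA' (r.comm_mem_Y (r.AH ha) hy) fun _ ha' => r.cubic0 ha' ha hy

theorem A1Y {a : G} (ha : a ∈ A ⊓ pCoreOf p P) : a ∈ Y := r.st_le (mem_sup_left ha)

theorem comm_A1 {a y : G} (ha : a ∈ A ⊓ pCoreOf p P) (hy : y ∈ Y) : ⁅a, y⁆ ∈ A := by
  refine r.cenA.le ⟨r.n.QS (r.YT (r.class2 (r.A1Y ha) hy).1), mem_cent fun a' ha' => ?_⟩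
  have h2 := conj_commutatorElement a' a y
  rw [conj_eq_self (r.ab ha.1) ha', conj_eq_comm_mul a' y,
    r.bil_right (r.A1Y ha) (r.comm_mem_Y (r.AH ha') hy) hy,
    comm_eq_one (r.n.base.ab _ r.stA (r.comm_A ha' hy)) (mem_sup_left ha), one_mul,
    conj_eq_comm_mul a'] at h2
  exact mul_eq_right.1 h2

theorem comm_U1 {a y : G} (ha : a ∈ A ⊓ pCoreOf p P) (hy : y ∈ Y) : ⁅a, y⁆ ∈ U := by
  obtain ⟨a', ha', b, hb, rfl⟩ := r.mem_Y hy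
  rw [r.bil_right (r.A1Y ha) (r.A1Y ha') (r.symm.A1Y hb), comm_eq_one (r.ab ha'.1) ha.1, one_mul, r.eU]
  exact ⟨r.comm_A1 ha (r.symm.A1Y hb), comm_swap (r.symm.comm_A1 hb (r.A1Y ha))⟩

theorem comm_U {x y : G} (hx : x ∈ Y) (hy : y ∈ Y) : ⁅x, y⁆ ∈ U := by
  obtain ⟨a, ha, b, hb, rfl⟩ := r.mem_Y hx
  rw [r.bil_left hy (r.A1Y ha) (r.symm.A1Y hb)]
  exact mul_mem (r.symm.comm_U1 hb hy) (r.comm_U1 ha hy)

theorem H_U : H ≤ normalizer (U : Set G) := le_normalizer_of_le_centralizer r.H_cen_U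

theorem z0_le : cen (zt p P) P ≤ U := fun _ hz =>
  r.ct_inf_Y (r.ZY hz.1) (r.n.cen_P_le_ct ⟨hz.1.1, hz.2⟩)

theorem stB_le : st p P B ≤ ht p P ⊔ U := by
  have hz : cen Y Y ≤ ht p P ⊔ U := fun x hx => by
    obtain ⟨u, hu, z, hz, rfl⟩ := r.mem_zY hx
    exact mul_mem (mem_sup_right hu) (sup_le_sup_left r.z0_le _ (r.n.zt_le_ht hz))
  have hB : ⁅B, Y⁆ ≤ st p P B ⊓ ht p P := commutator_le.2 fun b hb y hy =>
    ⟨r.symm.comm_A hb hy, r.comm_Y (r.symm.AH hb) hy⟩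
  refine sup_le (fun b hb => ?_) (r.Z_le_zY.trans hz)
  obtain ⟨a, ha, t, ht', e⟩ := r.mem_Y' (r.symm.A1Y hb)
  have h1 : b ∈ st p P A ⊔ ⁅B, Y⁆ := e ▸ mul_mem (mem_sup_left (mem_sup_left ha))
    (sup_le_sup_right (commutator_le.2 fun _ ha _ hy => r.comm_A ha hy) _ (r.ht_le_sup ht'))
  obtain ⟨x, hx, v, hv, e'⟩ := (mem_sup_iff_of_right_le_normalizer ((hB.trans (inf_le_left.trans
    r.symm.st_le)).trans (r.Y_norm r.zY_le r.st_le))).1 h1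
  have h2 : x ∈ st p P B := (mul_mem_cancel_right (mem_inf.1 (hB hv)).1).1 (e' ▸ mem_sup_left hb)
  exact e' ▸ mul_mem (hz (r.cen_Y.ge ⟨hx, h2⟩)) (mem_sup_left (hB hv).2)

theorem mem_Y'' {y : G} (hy : y ∈ Y) : ∃ t ∈ ht p P, ∃ u ∈ U, y = t * u :=
  (mem_sup_iff_of_right_le_normalizer (r.UT.trans ((pCoreOf_le P).trans norm_ht))).1
    ((r.eY.le.trans (sup_le r.symm.stB_le r.stB_le)) hy)

theorem le_of_single {K : Subgroup G} {a : G} (ha : a ∈ A) (haT : a ∉ pCoreOf p P) (h1 : a ∈ K)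
    (h2 : B ≤ K) (h3 : Y ≤ K) : H ≤ K := fun g hg => by
  have h4 : zpowers a ⊔ B ≤ H := sup_le (zpowers_le.2 (r.AH ha)) r.symm.AH
  obtain ⟨k, hk, t, ht', rfl⟩ := (mem_sup_iff_of_left_le_normalizer (h4.trans (r.HP.trans
    (le_normalizer_pCoreOf P)))).1 (r.symm.le_of (zpowers_le.2 (r.AS ha)) (fun hc => haT (zpowers_le.1 hc))
    (le_sup_right.trans le_sup_left) le_sup_right (le_sup_left.trans le_sup_left) (r.HP hg))
  exact mul_mem (sup_le (zpowers_le.2 h1) h2 hk) (h3 (r.H_inf_T ((mul_mem_cancel_left (h4 hk)).1 hg) ht'))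

theorem stb_single {N : Subgroup G} {a b : G} (hn : H ≤ normalizer (N : Set G)) (hU : U ≤ N) (ha : a ∈ A)
    (haT : a ∉ pCoreOf p P) (hb : b ∈ B ⊓ pCoreOf p P) (hc : ⁅a, b⁆ ∈ N) {g : G} (hg : g ∈ H) :
    ⁅g, b⁆ ∈ N :=
  (r.le_of_single (K := stb N b) ha haT ⟨hn (r.AH ha), hc⟩ (le_stb (r.symm.AH.trans hn) fun b' hb' => by
    rw [comm_eq_one (r.symm.ab hb.1) hb']; exact one_mem _)
    (le_stb (r.YH.trans hn) fun _ hy => hU (r.comm_U hy (r.symm.A1Y hb))) hg).2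

theorem cen1 {a y : G} (ha : a ∈ A) (haT : a ∉ pCoreOf p P) (hy : y ∈ Y) (hc : ⁅a, y⁆ ∈ cen Y Y) :
    y ∈ st p P A := by
  obtain ⟨a', ha', b, hb, rfl⟩ := r.mem_Y hy
  exact mul_mem (mem_sup_left ha') (r.cen0 hb (r.stb_single r.H_zY r.U_le_zY ha haT hb
    (r.comm_right r.H_zY ha ha'.1 hc) (inv_mem r.hH)))

theorem fix1 {a y : G} (ha : a ∈ A) (haT : a ∉ pCoreOf p P) (hy : y ∈ Y) (hc : ⁅a, y⁆ ∈ ct p P) :
    y ∈ A := by
  obtain ⟨a', ha', b, hb, rfl⟩ := r.mem_Y hy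
  refine mul_mem ha'.1 (r.UA (r.symm.ct_inf_A hb.1 (mem_ct hb.2 fun l hl => ?_)))
  exact r.stb_single (r.HP.trans norm_ct) r.U_le_ct ha haT hb
    (r.comm_right (r.HP.trans norm_ct) ha ha'.1 hc) (r.LH hl)

theorem surj {a x : G} (ha : a ∈ A) (haT : a ∉ pCoreOf p P) (hn : H ≤ normalizer (E : Set G))
    (h1 : cen Y Y ≤ E) (h2 : E ≤ Y) (hx : x ∈ E) (hx' : x ∈ st p P A) :
    ∃ y ∈ E, y ∈ st p P B ∧ ⁅a, y⁆⁻¹ * x ∈ cen Y Y := by
  obtain ⟨V, _, ⟨D⟩⟩ := exists_secRep (E := H) (U := Y) (U₀ := cen Y Y) inf_le_left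
    (commutator_le.2 fun _ hx _ hy => r.class2 hx hy) r.HY r.H_zY
  have := D.finite
  have hB : cen Y Y ≤ E ⊓ st p P B := le_inf h1 r.symm.zY_le
  have cj : ∀ x ∈ E, x ∈ st p P A → D.ρ h (D.π x) ∈ D.im (E ⊓ st p P B) := fun x hx hx' => by
    rw [D.ρ_π h r.hH x (h2 hx)]
    exact D.π_mem_im (conj_mem_of_mem_normalizer (r.HY r.hH) (h2 hx))
      ⟨conj_mem_of_mem_normalizer (hn r.hH) hx, r.stB_eq ▸ conj_mem_conjS.2 hx'⟩
  have inj : ∀ m m', D.ρ h m = D.ρ h m' → m = m' := fun m m' e => by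
    have := congrArg (D.ρ h⁻¹) e
    rwa [← Module.End.mul_apply, ← Module.End.mul_apply, ← D.ρ_mul (inv_mem r.hH) r.hH, inv_mul_cancel,
      D.ρ_one] at this
  let f : D.im (E ⊓ st p P B) → D.im (E ⊓ st p P B) := fun m => ⟨D.ρ h (D.N a m), by
    obtain ⟨_, y, hy, hy', rfl⟩ := m
    rw [D.N_π (r.AH ha) hy]
    exact cj _ (commutator_mem_of_normalizer (hn (r.AH ha)) hy'.1) (r.comm_A ha hy)⟩
  have hf : Function.Injective f := by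
    rintro ⟨_, y, hy, hy', rfl⟩ ⟨_, y', hz, hz', rfl⟩ e
    have e1 := inj _ _ (congrArg Subtype.val e)
    have hw := Y.mul_mem hy (Y.inv_mem hz)
    rw [← sub_eq_zero, ← map_sub, sub_eq_add_neg, ← D.π_inv hz, ← D.π_mul _ hy _ (Y.inv_mem hz),
      D.N_π (r.AH ha) hw, D.π_eq_zero _ (r.comm_mem_Y (r.AH ha) hw)] at e1
    exact Subtype.ext ((D.π_eq_iff' hy hz).2 (r.cen_Y.ge ⟨r.cen1 ha haT hw e1,
      (st p P B).mul_mem hy'.2 ((st p P B).inv_mem hz'.2)⟩))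
  obtain ⟨⟨_, y, hy, hy', rfl⟩, e⟩ := Finite.surjective_of_injective hf ⟨_, cj x hx hx'⟩
  have e1 := inj _ _ (congrArg Subtype.val e)
  rw [D.N_π (r.AH ha) hy] at e1
  exact ⟨y, hy'.1, hy'.2, (D.π_eq_iff (r.comm_mem_Y (r.AH ha) hy) (h2 hx)).1 e1⟩

end Pr

end CfsgLib.GN
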