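import Mathlib
import Cfsg.Agent.Lib.GN.Pair3

/-!
Averaging over a normal subgroup; a large abelian subgroup acts quadratically if `p ≥ 5`.
-/

set_option autoImplicit false
set_option linter.unusedSectionVars false

namespace CfsgLib.GN

open Subgroup Matrix MatrixGroups Cfsg CfsgLib.SL2 CfsgLib.LAE CfsgLib.PLocal CfsgLib.Push
open scoped commutatorElement

theorem exists_avg {V H : Type*} [AddCommGroup V] [Group H] [Finite H] (ρ : H →* Module.End ℤ V)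
    (K : Subgroup H) [hK : K.Normal] : ∃ (e : Module.End ℤ V) (n : ℕ), (∀ g, ρ g * e = e * ρ g) ∧
      (∀ k ∈ K, ρ k * e = e) ∧ (∀ v, (∀ k ∈ K, ρ k v = v) → e v = n • v) ∧
      ∀ Y : Subgroup H, (∀ y ∈ Y, ρ y = 1) → n ∣ Y.relIndex K := by
  classical
  set Γ := K.map ρ.toHomUnits
  have : Finite Γ := Finite.of_surjective _ (ρ.toHomUnits.subgroupMap_surjective K)
  have := Fintype.ofFinite Γ
  have hn : ∀ g, ∀ γ ∈ Γ, ρ.toHomUnits g * γ * (ρ.toHomUnits g)⁻¹ ∈ Γ := by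
    rintro g _ ⟨k, hk, rfl⟩
    exact ⟨_, hK.conj_mem k hk g, by simp⟩
  refine ⟨∑ γ : Γ, ((γ : (Module.End ℤ V)ˣ) : Module.End ℤ V), Nat.card Γ, fun g => ?_,
    fun k hk => ?_, fun v hv => ?_, fun Y hY => ?_⟩
  · rw [Finset.mul_sum, Finset.sum_mul]
    let c : Γ ≃ Γ :=
      { toFun := fun γ => ⟨_, hn g γ γ.2⟩
        invFun := fun γ => ⟨_, hn g⁻¹ γ γ.2⟩
        left_inv := fun γ => Subtype.ext (by simp [mul_assoc])
        right_inv := fun γ => Subtype.ext (by simp [mul_assoc]) }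
    refine Fintype.sum_equiv c _ _ fun γ => ?_
    change _ = ((ρ.toHomUnits g * γ * (ρ.toHomUnits g)⁻¹ : (Module.End ℤ V)ˣ) : Module.End ℤ V) *
      (ρ.toHomUnits g : (Module.End ℤ V)ˣ)
    rw [← Units.val_mul, inv_mul_cancel_right]; rfl
  · rw [Finset.mul_sum]
    exact Fintype.sum_equiv (Equiv.mulLeft (⟨_, mem_map_of_mem ρ.toHomUnits hk⟩ : Γ)) _ _ fun γ => rfl
  · rw [LinearMap.sum_apply, Finset.sum_congr rfl (g := fun _ => v), Finset.sum_const, Finset.card_univ,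
      Nat.card_eq_fintype_card]
    rintro ⟨_, k, hk, rfl⟩ -
    exact hv k hk
  · rw [← relIndex_ker]
    exact relIndex_dvd_of_le_left K fun y hy => Units.ext (hY y hy)

theorem cubic_alg {V : Type*} [AddCommGroup V] (d f : Module.End ℤ V) (VA VB : AddSubgroup V)
    (disj : ∀ x ∈ VA, x ∈ VB → x = 0) (hd : ∀ x ∈ VA, d x = 0) (hf : ∀ x ∈ VB, f x = 0)
    {v u n u' m : V} (hv : v ∈ VB) (hu : u ∈ VA) (hn : n ∈ VB) (hu' : u' ∈ VB) (hm : m ∈ VA)
    (e1 : d v = u + n) (e2 : f u = u' + m) (hn' : d n ∈ VA) (hm' : f m ∈ VB) (hn'' : f (d n) ∈ VB)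
    (e3 : 2 • f (d n) = -n) (r1 : ((1 + f) * ((1 + d) * (1 + d))) v ∈ VA)
    (r2 : ((1 + d) * (1 + d) * (1 + f)) u ∈ VB) (r3 : ((1 + f) * (1 + f) * (1 + d)) v ∈ VA) :
    6 • n = 0 := by
  simp only [Module.End.mul_apply, LinearMap.add_apply, Module.End.one_apply, map_add, e1, e2,
    hd u hu, hd m hm, hf v hv, hf n hn, hf u' hu', add_zero] at r1 r2 r3
  have E1 : v + 2 • n + 2 • u' + f (d n) = 0 := disj _
    (by convert VA.sub_mem r1 (VA.add_mem (VA.add_mem (VA.nsmul_mem hu 2) hn') (VA.nsmul_mem hm 2)) using 1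
        abel)
    (VB.add_mem (VB.add_mem (VB.add_mem hv (VB.nsmul_mem hn 2)) (VB.nsmul_mem hu' 2)) hn'')
  have E3 : v + n + 2 • u' + f m = 0 := disj _
    (by convert VA.sub_mem r3 (VA.add_mem hu (VA.nsmul_mem hm 2)) using 1
        abel)
    (VB.add_mem (VB.add_mem (VB.add_mem hv hn) (VB.nsmul_mem hu' 2)) hm')
  have d1 := congrArg d E1
  have d3 := congrArg d e3
  simp only [map_add, map_nsmul, map_zero, map_neg, e1] at d1 d3
  have d2 := congrArg d d1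
  have d4 := congrArg d d3
  simp only [map_add, map_nsmul, map_zero, map_neg, hd u hu, hd _ hn', neg_zero, smul_zero] at d2 d4
  have E2 : 4 • m - 8 • d n = 0 := disj _ (VA.sub_mem (VA.nsmul_mem hm 4) (VA.nsmul_mem hn' 8)) (by
    have : 4 • m - 8 • d n =
        4 • (u + (u' + d u' + (d u' + d (d u')) + m)) - 4 • u' + 4 • n := by
      linear_combination (norm := module) (-4 : ℤ) • d1 + (2 : ℤ) • d3 - (2 : ℤ) • d2 + d4
    rw [this]
    exact VB.add_mem (VB.sub_mem (VB.nsmul_mem r2 4) (VB.nsmul_mem hu' 4)) (VB.nsmul_mem hn 4))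
  have f2 := congrArg f E2
  simp only [map_sub, map_nsmul, map_zero] at f2
  linear_combination (norm := module) (4 : ℤ) • E1 - (4 : ℤ) • E3 + f2 + (2 : ℤ) • e3

variable {G : Type*} [Group G] [Finite G] {p : ℕ} [Fact p.Prime] {P S M A S' M' B Y U H E : Subgroup G}
  {h : G}

/-- The action on a section as a homomorphism. -/
def secHom {U U₀ : Subgroup G} {V : Type*} [AddCommGroup V] (D : SecRep E U U₀ V) :
    E →* Module.End ℤ V where
  toFun g := D.ρ g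
  map_one' := D.ρ_one
  map_mul' a b := D.ρ_mul a.2 b.2

theorem eq_zero_of_nsmul {V : Type*} [AddCommGroup V] {v : V} {n : ℕ} (hn : ¬ p ∣ n) (h1 : p • v = 0)
    (h2 : n • v = 0) : v = 0 := by
  have := (Nat.Prime.coprime_iff_not_dvd Fact.out).2 hn
  rw [← addOrderOf_dvd_iff_nsmul_eq_zero] at h1 h2
  exact AddMonoid.addOrderOf_eq_one_iff.1 (Nat.eq_one_of_dvd_coprimes this h1 h2)

theorem Nz.not_dvd_ker (n : Nz p S P M) : ¬ p ∣ (pCoreOf p P).relIndex (cen P (zt p P)) := by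
  have := n.syl.inf_of_normal (N := cen P (zt p P)) inf_le_left (le_normalizer_cen le_normalizer norm_zt)
  rw [← inf_assoc, inf_eq_left.2 n.SP] at this
  exact (n.cen_S_zt ▸ this : IsSylowIn p (pCoreOf p P) _).not_dvd_relIndex

theorem ww_pow_odd {F : Type*} [Field F] {k : ℕ} (hk : Odd k) : (ww ^ k : SL(2, F)) 0 0 = 0 := by
  obtain ⟨j, rfl⟩ := hk
  have h1 : (ww ^ 2 : SL(2, F)) = -1 := by
    rw [pow_two]; refine ext2 ?_ ?_ ?_ ?_ <;> simp [mul_ap, neg_ap]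
  rw [pow_succ, pow_mul, h1]
  rcases neg_one_pow_eq_or SL(2, F) j with e | e <;> simp [e, neg_ap]

theorem Pr.exists_decomp (r : Pr p P S M A S' M' B Y U H h) {V : Type*} [AddCommGroup V]
    (D : SecRep H Y U V) {a b : G} (ha : a ∈ A) (hb : b ∈ B ⊓ pCoreOf p P) :
    ∃ a' ∈ A ⊓ pCoreOf p P, ∃ z ∈ cen S' S', D.N a (D.π b) = D.π a' + D.π z := by
  obtain ⟨a', ha', z, hz, e⟩ := mem_st (r.comm_A ha (r.symm.A1Y hb))
  obtain ⟨c, hc, d, hd, rfl⟩ := r.exists_zs hz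
  have h1 : a' * c ∈ A ⊓ pCoreOf p P := mul_mem ha' ⟨r.n.zs_le_mcl r.a hc, (r.n.zs_le hc).1⟩
  exact ⟨_, h1, d, hd, by rw [D.N_π (r.AH ha) (r.symm.A1Y hb), e, ← mul_assoc,
    D.π_mul _ (r.A1Y h1) _ (r.ZY (r.symm.n.zs_le hd))]⟩

theorem Pr.π_fixed (r : Pr p P S M A S' M' B Y U H h) {V : Type*} [AddCommGroup V]
    (D : SecRep H Y U V) {a : G} (ha : a ∈ A ⊓ pCoreOf p P) : D.π a ∈ D.fixed A :=
  (D.π_mem_fixed r.AH (r.A1Y ha)).2 fun a' ha' => by
    rw [comm_eq_one (r.ab ha.1) ha']; exact one_mem _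

theorem Pr.π_fixed' (r : Pr p P S M A S' M' B Y U H h) {V : Type*} [AddCommGroup V]
    (D : SecRep H Y U V) {z : G} (hz : z ∈ cen S S) : D.π z ∈ D.fixed A :=
  r.π_fixed D ⟨r.n.zs_le_mcl r.a hz, (r.n.zs_le hz).1⟩

theorem Nz.cubic (n : Nz p S P M) (hA : MCLIn S A) (hAT : ¬ A ≤ pCoreOf p P) (hp : 5 ≤ p) {a y : G}
    (ha : a ∈ A) (hy : y ∈ ht p P) : ⁅a, ⁅a, y⁆⁆ ∈ ct p P := by
  obtain ⟨F, _, _, N, h2, h3, -, h6⟩ := n.exists_nat
  have := charP_of_relIndex n.pS h6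
  have hTk : pCoreOf p P ≤ N.ker := h3 ▸ le_inf (pCoreOf_le P) T_le_cen_zt
  have iA : N.img A = upU F := by
    rw [← h2, ← n.sup_T hA hAT, N.img_sup (hA.1.1.trans n.SP) (pCoreOf_le P),
      (N.img_eq_bot_iff (pCoreOf_le P)).2 hTk, sup_bot_eq]
  obtain ⟨h, hL, h0⟩ : ∃ h ∈ pResOf p P, N.φ h 0 0 = 0 := by
    obtain ⟨g, hg, -, e⟩ := N.mem_img.1 (N.img_self.ge (mem_top ww))
    obtain ⟨k, hk⟩ := exists_pow_mem_pResOf (p := p) hg
    exact ⟨_, hk, by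
      rw [N.φ_pow hg, e]; exact ww_pow_odd (((Fact.out : p.Prime).odd_of_ne_two (by omega)).pow)⟩
  have hP := pResOf_le P hL
  have iB : N.img (conjS h A) = loU F := by rw [N.img_conjS hP, iA, conjS_upU_of_antidiag h0]
  have hM : h ∉ M := fun hc => n.not_le (N.le_of_img_le le_rfl
    (h3 ▸ (n.cen_cases n.nc.norm n.nc.cen n.nc.nc).1) 
      (N.img_self.le.trans (upU_sup_loU.ge.trans (sup_le (iA.ge.trans (N.img_mono (hA.1.1.trans n.SM)))
        (iB.ge.trans (N.img_mono (conjS_le_of_le_of_mem (hA.1.1.trans n.SM) hc)))))))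
  obtain ⟨S', M', B, Y, U, H, r⟩ := n.exists_pr hA hAT hL hM
  rw [← r.eB] at iB
  have hyY := r.ht_le hy
  by_cases haT : a ∈ pCoreOf p P
  · exact comm_ct (r.AP ha) (r.U_le_ct (r.comm_U (r.A1Y ⟨ha, haT⟩) hyY))
  obtain ⟨s, hs⟩ := mem_upU.1 (N.φ_mem_of_img_le r.AP iA.le ha)
  have hs0 : s ≠ 0 := fun e => haT (n.cen_S_zt.le ⟨r.AS ha,
    (h3.le (N.mem_ker.2 ⟨r.AP ha, by rw [hs, e, uu_zero]⟩)).2⟩)
  have h20 : (2 : F) ≠ 0 := fun e => by
    have := (CharP.cast_eq_zero_iff F p 2).1 (by exact_mod_cast e)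
    have := Nat.le_of_dvd two_pos this
    omega
  obtain ⟨b, hbP, hb, ht'⟩ := N.mem_img.1 (iB.ge (ll_mem (-(2 * s)⁻¹)))
  set t := -(2 * s)⁻¹ with hts
  have st1 : (s + s) * t = -1 := by rw [hts]; field_simp; ring
  have st2 : s * (t + t) = -1 := by rw [← st1]; ring
  obtain ⟨V, _, ⟨D⟩⟩ := exists_secRep (E := H) (U := Y) (U₀ := U) r.UY
    (commutator_le.2 fun _ hx _ hy => r.comm_U hx hy) r.HY r.H_U
  have : (N.ker.subgroupOf H).Normal := normal_subgroupOf_of_le (r.HP.trans N.le_normalizer_ker)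
  obtain ⟨e, k, c1, c2, c3, c4⟩ := exists_avg (secHom D) (N.ker.subgroupOf H)
  have hk : ¬ p ∣ k := fun hc => n.not_dvd_ker (by
    have h7 := c4 ((pCoreOf p P).subgroupOf H) fun x hx => LinearMap.ext fun m => by
      obtain ⟨w, hw, rfl⟩ := D.π_surj m
      exact (D.ρ_π_eq_iff x.2 hw).2 (r.comm_U (r.H_inf_T x.2 hx) hw)
    rw [← inf_subgroupOf_right N.ker, relIndex_subgroupOf inf_le_right] at h7
    have : ((pCoreOf p P).subgroupOf N.ker).Normal :=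
      normal_subgroupOf_of_le (N.ker_le.trans (le_normalizer_pCoreOf P))
    rw [← relIndex_subgroupOf (inf_le_left : N.ker ⊓ H ≤ N.ker)] at h7
    exact h3 ▸ hc.trans (h7.trans (relIndex_dvd_index_of_normal _ _)))
  have c1' : ∀ g ∈ H, ∀ m, D.ρ g (e m) = e (D.ρ g m) := fun g hg m =>
    congrArg (fun f : Module.End ℤ V => f m) (c1 ⟨g, hg⟩)
  have c1'' : ∀ g ∈ H, ∀ m, D.N g (e m) = e (D.N g m) := fun g hg m => by
    rw [D.N_apply, D.N_apply, c1' g hg, map_sub]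
  have efix : ∀ {X : Subgroup G}, X ≤ H → ∀ m ∈ D.fixed X, e m ∈ D.fixed X := fun hX m hm =>
    D.mem_fixed.2 fun g hg => by rw [c1'' g (hX hg), D.mem_fixed.1 hm g hg, map_zero]
  have ez : ∀ z ∈ zt p P, e (D.π z) = D.π (z ^ k) := fun z hz => by
    rw [D.π_pow (r.ZY hz)]
    refine c3 _ fun x hx => (D.ρ_π_eq_iff x.2 (r.ZY hz)).2 ?_
    rw [show ⁅(x : G), z⁆ = 1 from comm_eq_one' (h3.le hx).2 hz]; exact one_mem _
  have sw : ∀ {X X' : Subgroup G}, X ≤ H → X' ≤ H → ∀ g ∈ H, conjS (N.φ g) (N.img X) = N.img X' →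
      ∀ m, e m ∈ D.fixed X → D.ρ g (e m) ∈ D.fixed X' := fun {X X'} hX hX' g hg eq m hm =>
    D.mem_fixed'.2 fun x hx => by
      have hw : g⁻¹ * x * g ∈ H := mul_mem (mul_mem (inv_mem hg) (hX' hx)) hg
      obtain ⟨x', hx'P, hx', e'⟩ := N.mem_img.1 (mem_conjS.1 (eq.ge (N.φ_mem_img (r.HP (hX' hx)) hx)))
      have h7 : x'⁻¹ * (g⁻¹ * x * g) ∈ N.ker := N.mem_ker.2 ⟨mul_mem (inv_mem hx'P) (r.HP hw), by
        rw [N.φ_mul (inv_mem hx'P) (r.HP hw), N.φ_inv hx'P, e', N.φ_mul (mul_mem (inv_mem (r.HP hg))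
          (r.HP (hX' hx))) (r.HP hg), N.φ_mul (inv_mem (r.HP hg)) (r.HP (hX' hx)), N.φ_inv (r.HP hg),
          inv_mul_cancel]⟩
      have hw' := mul_mem (inv_mem (hX hx')) hw
      have h8 : D.ρ (x'⁻¹ * (g⁻¹ * x * g)) (e m) = e m :=
        congrArg (fun f : Module.End ℤ V => f m) (c2 ⟨_, hw'⟩ h7)
      rw [← Module.End.mul_apply, ← D.ρ_mul (hX' hx) hg,
        show x * g = g * (x' * (x'⁻¹ * (g⁻¹ * x * g))) by group, D.ρ_mul hg (mul_mem (hX hx') hw'),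
        D.ρ_mul (hX hx') hw', Module.End.mul_apply, Module.End.mul_apply, h8, D.mem_fixed'.1 hm x' hx']
  obtain ⟨a₁, ha₁, b₁, hb₁, rfl⟩ := r.mem_Y hyY
  obtain ⟨a₂, ha₂, z, hz, e1⟩ := r.exists_decomp D ha hb₁
  obtain ⟨b₂, hb₂, z', hz', e2⟩ := r.symm.exists_decomp D hb ha₂
  have hzZ := r.symm.n.zs_le hz
  have hz1 := pow_mem hz k
  have hz2 := n.comm_mem (r.AS ha) (r.symm.n.zs_le hz1)
  have hz3 := r.symm.n.comm_mem (r.symm.AS hb) (n.zs_le hz2)
  have haH := r.AH ha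
  have hbH := r.symm.AH hb
  have w1 : N.φ (a * a * b * (a * a)) = uu (s + s) * ll t * uu (s + s) := by
    have := r.AP (mul_mem ha ha)
    rw [N.φ_mul (mul_mem this hbP) this, N.φ_mul this hbP, N.φ_mul (r.AP ha) (r.AP ha), hs, ht', uu_add]
  have w2 : N.φ (a * (b * b) * a) = uu s * ll (t + t) * uu s := by
    rw [N.φ_mul (mul_mem (r.AP ha) (mul_mem hbP hbP)) (r.AP ha), N.φ_mul (r.AP ha) (mul_mem hbP hbP),
      N.φ_mul hbP hbP, hs, ht', ll_add]
  have hv := efix r.symm.AH _ (r.symm.π_fixed D hb₁)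
  have hu := efix r.AH _ (r.π_fixed D ha₂)
  have aa := mul_mem haH haH
  have un : ∀ g ∈ A, ∀ m, D.ρ g m ∈ D.fixed A → m ∈ D.fixed A := fun g hg m hm => by
    rwa [← conjS_eq_of_mem hg, D.ρ_mem_fixed_conjS r.AH (r.AH hg)] at hm
  have key := cubic_alg (D.N a) (D.N b) (D.fixed A) (D.fixed B) (fun m h1 h2 => by
      obtain ⟨w, hw, rfl⟩ := D.π_surj m
      exact D.π_of_mem (r.ct_inf_Y hw (r.mem_ct_of (r.YT hw)
        (fun g hg => r.U_le_ct ((D.π_mem_fixed r.AH hw).1 h1 g hg))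
        fun g hg => r.U_le_ct ((D.π_mem_fixed r.symm.AH hw).1 h2 g hg))))
    (fun m hm => D.mem_fixed.1 hm a ha) (fun m hm => D.mem_fixed.1 hm b hb) hv hu (r.symm.π_fixed' D hz1)
    (efix r.symm.AH _ (r.symm.π_fixed D hb₂)) (r.π_fixed' D (pow_mem hz' k))
    (by rw [c1'' a haH, e1, map_add, ez z hzZ]) (by rw [c1'' b hbH, e2, map_add, ez z' (n.zs_le hz')])
    (by rw [D.N_π haH (r.ZY (pow_mem hzZ k))]; exact r.π_fixed' D hz2)
    (by rw [D.N_π hbH (r.ZY (pow_mem (n.zs_le hz') k))]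
        exact r.symm.π_fixed' D (r.symm.n.comm_mem (r.symm.AS hb) (pow_mem (n.zs_le hz') k)))
    (by rw [D.N_π haH (r.ZY (pow_mem hzZ k)), D.N_π hbH (r.ZY (n.zs_le hz2))]
        exact r.symm.π_fixed' D hz3)
    (by
      have z3 := r.symm.n.zs_le hz3
      rw [D.N_π haH (r.ZY (pow_mem hzZ k)), D.N_π hbH (r.ZY (n.zs_le hz2)), ← D.π_pow (r.ZY z3),
        ← D.π_inv (r.ZY (pow_mem hzZ k)), D.π_eq_iff' (r.ZY (pow_mem z3 2)) (r.ZY (inv_mem (pow_mem hzZ k)))]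
      refine r.z0_le ((N.π_eq_iff' (pow_mem z3 2) (inv_mem (pow_mem hzZ k))).1 ?_)
      have h9 := (N.act_eq_iff hbP (pow_mem hzZ k)).2 (by
        rw [comm_eq_one hz1.2 (r.symm.AS hb)]; exact one_mem _)
      rw [ht', act_ll, add_eq_left] at h9
      have h10 : N.π (z ^ k) 0 = 0 := by
        have := congrFun h9 1
        simp only [Matrix.cons_val_one, Matrix.cons_val_zero, Pi.zero_apply, mul_eq_zero] at this
        exact this.resolve_left fun e => by simp [e] at st1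
      rw [N.π_pow z3, N.π_inv (pow_mem hzZ k), N.π_commutator hbP (n.zs_le hz2),
        N.π_commutator (r.AP ha) (pow_mem hzZ k), hs, ht', act_uu, act_ll]
      refine vec2_ext (by simp [h10, Matrix.vecHead]) ?_
      simp [h10, Matrix.vecHead, Matrix.vecTail]
      linear_combination N.π (z ^ k) 1 * st1)
    (by
      have := sw r.symm.AH r.AH _ (mul_mem (mul_mem aa hbH) aa)
        (by rw [w1, iA, iB]; exact conjS_loU_of_antidiag (braid_11 st1)) _ hv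
      rw [mul_assoc, D.ρ_mul aa (mul_mem hbH aa), Module.End.mul_apply] at this
      have := un _ (mul_mem ha ha) _ this
      rwa [D.ρ_mul hbH aa, D.ρ_mul haH haH, D.ρ_eq a, D.ρ_eq b] at this)
    (by
      have := sw r.AH r.symm.AH _ (mul_mem (mul_mem aa hbH) aa)
        (by rw [w1, iA, iB]; exact conjS_upU_of_antidiag (braid_00 st1)) _ hu
      rwa [D.ρ_mul (mul_mem aa hbH) aa, Module.End.mul_apply, D.mem_fixed'.1 hu _ (mul_mem ha ha),
        D.ρ_mul aa hbH, D.ρ_mul haH haH, D.ρ_eq a, D.ρ_eq b] at this)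
    (by
      have := sw r.symm.AH r.AH _ (mul_mem (mul_mem haH (mul_mem hbH hbH)) haH)
        (by rw [w2, iA, iB]; exact conjS_loU_of_antidiag (braid_11 st2)) _ hv
      rw [mul_assoc, D.ρ_mul haH (mul_mem (mul_mem hbH hbH) haH), Module.End.mul_apply] at this
      have := un _ ha _ this
      rwa [D.ρ_mul (mul_mem hbH hbH) haH, D.ρ_mul hbH hbH, D.ρ_eq a, D.ρ_eq b] at this)
  have pz : p • D.π z = 0 := by rw [← D.π_pow (r.ZY hzZ), n.pow_zt hzZ, D.π_one]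
  have h11 : D.π z = 0 := by
    rw [D.π_pow (r.ZY hzZ), smul_smul] at key
    refine eq_zero_of_nsmul (fun hc => ?_) pz key
    rcases (Nat.Prime.dvd_mul Fact.out).1 hc with hc | hc
    · have := Nat.le_of_dvd (by norm_num) hc
      have h5 : p.Prime := Fact.out
      interval_cases p <;> simp_all (config := { decide := true })
    · exact hk hc
  have hY2 := r.comm_mem_Y haH hyY
  refine r.U_le_ct ((D.π_eq_zero _ (r.comm_mem_Y haH hY2)).1 ?_)
  rw [← D.N_π haH hY2, ← D.N_π haH hyY, D.π_mul _ (r.A1Y ha₁) _ (r.symm.A1Y hb₁), map_add,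
    D.mem_fixed.1 (r.π_fixed D ha₁) a ha, zero_add, e1, h11, add_zero,
    D.mem_fixed.1 (r.π_fixed D ha₂) a ha]

end CfsgLib.GN
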