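import Mathlib

/-!
Two finite groups containing a common subgroup embed in a common finite group.
-/

set_option autoImplicit false

namespace CfsgLib.GN

universe u

theorem coset_bijective {S G : Type*} [Group S] [Group G] {τ : S →* G} (hτ : Function.Injective τ) :
    Function.Bijective fun x : S × (G ⧸ τ.range) => τ x.1 * x.2.out⁻¹ := by
  refine ⟨fun ⟨s, q⟩ ⟨s', q'⟩ h => ?_, fun g => ?_⟩
  · have h : τ s * q.out⁻¹ = τ s' * q'.out⁻¹ := h
    have hq : q = q' := by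
      rw [← q.out_eq', ← q'.out_eq']
      refine QuotientGroup.eq.2 ⟨s⁻¹ * s', ?_⟩
      rw [map_mul, map_inv, eq_mul_inv_iff_mul_eq.1 h |>.symm]
      group
    subst hq
    rw [hτ (mul_right_cancel h)]
  · obtain ⟨⟨_, s, rfl⟩, hs⟩ := QuotientGroup.mk_out_eq_mul τ.range g⁻¹
    refine ⟨(s, (g⁻¹ : G)), ?_⟩
    show τ s * _⁻¹ = g
    rw [hs]
    simp

theorem exists_perm_rep {S G Y Ω : Type*} [Group S] [Group G] [Nonempty Y] {τ : S →* G}
    (hτ : Function.Injective τ) (σ : Ω ≃ (S × (G ⧸ τ.range)) × Y) :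
    ∃ f : G →* Equiv.Perm Ω, Function.Injective f ∧
      ∀ t ω, σ (f (τ t) ω) = ((t * (σ ω).1.1, (σ ω).1.2), (σ ω).2) := by
  let e := Equiv.ofBijective _ (coset_bijective hτ)
  let E : Ω ≃ G × Y := σ.trans (e.prodCongr (Equiv.refl Y))
  refine ⟨MonoidHom.mk' (fun g => (E.trans ((Equiv.mulLeft g).prodCongr (Equiv.refl Y))).trans E.symm)
    fun a b => ?_, (injective_iff_map_eq_one _).2 fun g hg => ?_, fun t ω => ?_⟩
  · ext ω
    simp [Prod.map, mul_assoc]
  · have := congrArg (fun f : Equiv.Perm Ω => (E (f (E.symm (1, Classical.arbitrary Y)))).1) hg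
    simpa using this
  · apply (e.prodCongr (Equiv.refl Y)).injective
    show E (E.symm _) = _
    rw [Equiv.apply_symm_apply]
    simp [E, e, Prod.map, mul_assoc]

/-- Two finite overgroups of `S` embed compatibly in a finite group. -/
theorem exists_amalgam_embed {S G₁ G₂ : Type u} [Group S] [Group G₁] [Group G₂] [Finite G₁]
    [Finite G₂] {τ₁ : S →* G₁} {τ₂ : S →* G₂} (h₁ : Function.Injective τ₁)
    (h₂ : Function.Injective τ₂) :
    ∃ (X : Type u) (_ : Group X) (_ : Finite X) (f₁ : G₁ →* X) (f₂ : G₂ →* X),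
      Function.Injective f₁ ∧ Function.Injective f₂ ∧ f₁.comp τ₁ = f₂.comp τ₂ := by
  haveI : Finite S := Finite.of_injective _ h₁
  obtain ⟨f₁, i₁, e₁⟩ := exists_perm_rep h₁ (Equiv.refl ((S × (G₁ ⧸ τ₁.range)) × (G₂ ⧸ τ₂.range)))
  let σ : (S × (G₁ ⧸ τ₁.range)) × (G₂ ⧸ τ₂.range) ≃ (S × (G₂ ⧸ τ₂.range)) × (G₁ ⧸ τ₁.range) :=
    ⟨fun x => ((x.1.1, x.2), x.1.2), fun x => ((x.1.1, x.2), x.1.2), fun _ => rfl, fun _ => rfl⟩
  obtain ⟨f₂, i₂, e₂⟩ := exists_perm_rep h₂ σ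
  refine ⟨_, inferInstance, inferInstance, f₁, f₂, i₁, i₂, MonoidHom.ext fun t => Equiv.ext fun ω => ?_⟩
  apply σ.injective
  exact (congrArg σ (e₁ t ω)).trans (e₂ t ω).symm

end CfsgLib.GN
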