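import Mathlib
import Cfsg.Agent.Lib.GN.Defs
import Cfsg.Agent.Lib.RegP.Basic

/-!
Functoriality of the subgroups used in Glauberman-Niles pairs, and the easy cases.
-/

set_option autoImplicit false
set_option linter.unusedSectionVars false

namespace CfsgLib.GN

open Subgroup Cfsg CfsgLib.LAE CfsgLib.PLocal CfsgLib.Push CfsgLib.ZJ
open scoped commutatorElement Pointwise

universe u

section Map

variable {G G' : Type*} [Group G] [Group G'] {f : G →* G'} {S R : Subgroup G} {p : ℕ}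

theorem clIn_map_inj (hf : Function.Injective f) : CLIn (S.map f) (R.map f) ↔ CLIn S R := by
  rw [CLIn, CLIn, map_le_map_iff_of_injective hf, fm_map hf, ← map_cen hf,
    card_map_of_injective hf, card_map_of_injective hf]

theorem eq_map_of_le {Q : Subgroup G'} (h : Q ≤ S.map f) : ∃ R : Subgroup G, R.map f = Q :=
  ⟨_, map_comap_eq_self (h.trans (map_le_range f S))⟩

theorem mclIn_map_inj (hf : Function.Injective f) : MCLIn (S.map f) (R.map f) ↔ MCLIn S R := by
  refine and_congr (clIn_map_inj hf) ⟨fun h R' h1 h2 => ?_, fun h R' h1 h2 => ?_⟩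
  · exact map_injective hf (h _ (map_mono h1) (h2.map hf))
  · obtain ⟨R', rfl⟩ := eq_map_of_le h1
    rw [h _ ((map_le_map_iff_of_injective hf).1 h1) ((clIn_map_inj hf).1 h2)]

theorem mzIn_map_inj (hf : Function.Injective f) : MZIn p (S.map f) (R.map f) ↔ MZIn p S R := by
  refine and_congr (mclIn_map_inj hf) ⟨fun h R' h1 => ?_, fun h R' h1 => ?_⟩
  · have := h _ ((mclIn_map_inj hf).2 h1)
    rwa [← map_omegaZ hf, ← map_omegaZ hf, card_map_of_injective hf,
      card_map_of_injective hf] at this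
  · obtain ⟨R', rfl⟩ := eq_map_of_le h1.1.1
    rw [← map_omegaZ hf, ← map_omegaZ hf, card_map_of_injective hf, card_map_of_injective hf]
    exact h _ ((mclIn_map_inj hf).1 h1)

theorem map_biSup {P : Subgroup G → Prop} {P' : Subgroup G' → Prop} {F : Subgroup G → Subgroup G}
    {F' : Subgroup G' → Subgroup G'} (h1 : ∀ Q, P' (Q.map f) ↔ P Q)
    (h2 : ∀ Q, P' Q → Q ≤ S.map f) (h3 : ∀ Q, (F Q).map f = F' (Q.map f)) :
    (⨆ (Q : Subgroup G) (_ : P Q), F Q).map f = ⨆ (Q : Subgroup G') (_ : P' Q), F' Q := by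
  refine le_antisymm (map_le_iff_le_comap.2 (iSup₂_le fun Q hQ => map_le_iff_le_comap.1 ?_))
    (iSup₂_le fun Q hQ => ?_)
  · rw [h3]
    exact le_iSup₂_of_le (f := fun (Q : Subgroup G') (_ : P' Q) => F' Q) _ ((h1 Q).2 hQ) le_rfl
  · obtain ⟨Q, rfl⟩ := eq_map_of_le (h2 Q hQ)
    rw [← h3]
    exact map_mono (le_iSup₂_of_le (f := fun (Q : Subgroup G) (_ : P Q) => F Q) _ ((h1 _).1 hQ)
      le_rfl)

theorem map_phi (hf : Function.Injective f) (R : Subgroup G) : (phi R).map f = phi (R.map f) :=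
  Core.map_map_frattini_of_injective R hf

theorem map_mclJ (hf : Function.Injective f) (S : Subgroup G) : (mclJ S).map f = mclJ (S.map f) :=
  map_biSup (S := S) (F := fun Q => Q) (F' := fun Q => Q) (fun _ => mclIn_map_inj hf)
    (fun _ h => h.1.1) fun _ => rfl

theorem map_mzJ (hf : Function.Injective f) (S : Subgroup G) :
    (mzJ p S).map f = mzJ p (S.map f) :=
  map_biSup (S := S) (F := fun Q => Q) (F' := fun Q => Q) (fun _ => mzIn_map_inj hf)
    (fun _ h => h.1.1.1) fun _ => rfl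

theorem map_phiJ (hf : Function.Injective f) (S : Subgroup G) :
    (phiJ p S).map f = phiJ p (S.map f) :=
  map_biSup (S := S) (F := phi) (F' := phi) (fun _ => mzIn_map_inj hf)
    (fun _ h => h.1.1.1) (map_phi hf)

theorem map_sZero (hf : Function.Injective f) (S : Subgroup G) :
    (sZero p S).map f = sZero p (S.map f) := by
  unfold sZero
  split_ifs <;> simp only [Subgroup.map_sup, map_commutator, map_phi hf, RegP.map_powerClosure]

theorem Base.map (hf : Function.Injective f) (h : Base p S) : Base p (S.map f) := by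
  refine ⟨fun Q hQ => ?_, h.cl.map hf, ?_⟩
  · obtain ⟨Q, rfl⟩ := eq_map_of_le hQ.1.1
    have := h.ab _ ((mclIn_map_inj hf).1 hQ)
    rw [← commutator_eq_bot_iff_le_centralizer] at this ⊢
    rw [← map_commutator, this, Subgroup.map_bot]
  · rw [← map_cen hf]
    exact elemAb_map h.el f

theorem char_of_map {K : Subgroup G}
    (h : ∀ f : G →* G, Function.Injective f → (⊤ : Subgroup G).map f = ⊤ → K.map f = K) :
    K.Characteristic :=
  characteristic_iff_map_eq.2 fun φ => h _ φ.injective (map_top_of_surjective _ φ.surjective)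

theorem char_subgroupOf_top {K : Subgroup G} (h : K.Characteristic) :
    (K.subgroupOf ⊤).Characteristic :=
  characteristic_iff_le_comap.2 fun φ _ hx =>
    characteristic_iff_le_comap.1 h (topEquiv.symm.trans (φ.trans topEquiv)) hx

theorem cen_top_top : cen (⊤ : Subgroup G) ⊤ = center G := by
  rw [cen, top_inf_eq, coe_top, centralizer_univ]

theorem phi_top : phi (⊤ : Subgroup G) = frattini G := Core.map_equiv_frattini topEquiv

theorem zj_top : zj 0 (⊤ : Subgroup G) =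
    thompsonSubgroupA G ⊓ centralizer (thompsonSubgroupA G : Set G) := by
  rw [zj_zero, centerThompsonAOf, thompsonSubgroupAOf_eq, thompsonSubgroupOf_top,
    thompsonSubgroupA_eq]

theorem clIn_top_iff : CLIn ⊤ R ↔ IsCentrallyLarge R := by
  rw [CLIn, IsCentrallyLarge, maxCentralProduct_equiv (topEquiv (G := G)), CL.card_center_eq]
  exact and_iff_right le_top

theorem mclIn_top_iff : MCLIn ⊤ R ↔ IsMinimalCentrallyLarge R := by
  simp only [MCLIn, IsMinimalCentrallyLarge, clIn_top_iff]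

theorem clIn_biSup [Finite G] {P : Subgroup G → Prop} (h1 : ∃ Q, P Q) (h2 : ∀ Q, P Q → CLIn ⊤ Q) :
    CLIn ⊤ (⨆ (Q : Subgroup G) (_ : P Q), Q) := by
  have := CL.isCentrallyLarge_sSup (S := {Q | P Q}) h1 fun Q hQ => clIn_top_iff.1 (h2 Q hQ)
  rw [sSup_eq_iSup] at this
  exact clIn_top_iff.2 this

end Map

section PU

variable {G : Type*} [Group G] [Finite G] {p : ℕ} [Fact p.Prime] {S P M : Subgroup G}

theorem zj_cases (H : PU p S P M) :
    P ≤ normalizer ((⁅zj 0 S, S⁆ ⊓ cen S S : Subgroup G) : Set G) ∨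
      P ≤ normalizer (cen S (zj 0 S) : Set G) := by
  have hn : S ≤ normalizer ((⁅zj 0 S, S⁆ ⊓ cen S S : Subgroup G) : Set G) :=
    le_normalizer_of_le_centralizer (le_centralizer_iff.1 (inf_le_right.trans inf_le_right))
  by_cases hJ : thompsonSubgroupOf 0 S ≤ pCoreOf p P
  · by_cases hc : pResOf p P ≤ centralizer (zj 0 S : Set G)
    · exact .inl (H.le_normalizer_of_centralizer (hc.trans (centralizer_anti
        (inf_le_left.trans (commutator_le_left_of_le_normalizer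
          (le_normalizer.trans (normalizer_le_normalizer_zj _)))))) hn)
    · exact .inr (H.baumann_normal hJ hc)
  · left
    by_cases hc : pResOf p P ≤ centralizer (VV p P : Set G)
    · exact H.le_normalizer_of_centralizer (hc.trans (centralizer_anti
        (inf_le_right.trans (cen_le_VV H.syl)))) hn
    · exact H.le_normalizer_of_centralizer ((le_centralizer_iff.1
        (H.baumann_commutator H.VQ le_normalizer_VV Q_le_centralizer_VV hc
          (elemAb_zero_iff.2 (VV_comm H.charP)) hJ)).trans (centralizer_anti inf_le_left)) hn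

theorem powerClosure_le (p n : ℕ) (K : Subgroup G) : powerClosure p n K ≤ K :=
  (closure_le _).2 fun _ ⟨_, hx, e⟩ => e ▸ pow_mem hx _

theorem agemo_cases (H : PU p S P M) :
    P ≤ normalizer (powerClosure p 1 (cen S S) : Set G) ∨
      P ≤ normalizer (cen S (zj 0 S) : Set G) := by
  by_cases hz : P ≤ normalizer (cen S S : Set G)
  · exact .inl (le_normalizer_of_le_centralizer ((le_centralizer_of_norm_cen H hz).trans
      (centralizer_anti (powerClosure_le _ _ _))))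
  · by_cases hJ : thompsonSubgroupOf 0 S ≤ pCoreOf p P
    · exact .inr (H.baumann_normal hJ (H.not_pResOf_le_zj hz))
    · refine .inl (le_normalizer_of_le_centralizer (le_centralizer_iff.1 ?_))
      rw [powerClosure, closure_le]
      rintro _ ⟨y, hy, rfl⟩
      rw [pow_one]
      exact H.pow_mem_of_not_le hz hJ (cen_le_VV H.syl hy)

theorem not_comm (H : PU p S P M) : ¬ S ≤ centralizer (S : Set G) := fun h =>
  H.nn ((le_inf H.SP (h.trans (centralizer_anti H.QS))).trans H.charP)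

end PU

/-- One of `S₁`, `S₂` is normal in each pushing up group. -/
def Good (p : ℕ) {S : Type u} [Group S] (S₁ S₂ : Subgroup S) : Prop :=
  ∀ (G : Type u) [Group G] [Finite G] (τ : S →* G) (M : Subgroup G), Function.Injective τ →
    PU p ((⊤ : Subgroup S).map τ) ⊤ M →
      ⊤ ≤ normalizer ((S₁.map τ : Subgroup G) : Set G) ∨
        ⊤ ≤ normalizer ((S₂.map τ : Subgroup G) : Set G)

/-- `J~(S)`. -/
abbrev jt (S : Type*) [Group S] : Subgroup S :=
  centralizer ((thompsonSubgroupA S ⊓ centralizer (thompsonSubgroupA S : Set S) : Subgroup S) : Set S)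

/-- A Glauberman-Niles pair. -/
structure IsPair (p : ℕ) {S : Type u} [Group S] (S₁ S₂ : Subgroup S) : Prop where
  ne₁ : S₁ ≠ ⊥
  ne₂ : S₂ ≠ ⊥
  ch₁ : S₁.Characteristic
  ch₂ : S₂.Characteristic
  le₁ : S₁ ≤ center S
  le₂ : S₂ ≤ jt S
  ch₃ : (S₂.subgroupOf (jt S)).Characteristic
  good : Good p S₁ S₂

variable {p : ℕ} [Fact p.Prime] {S : Type u} [Group S] [Finite S] {S₁ S₂ : Subgroup S}

theorem jt_eq : jt S = cen ⊤ (zj 0 ⊤) := by rw [cen, top_inf_eq, zj_top]

theorem inf_center_ne_bot (hS : IsPGroup p S) {K : Subgroup S} (hK : K.Characteristic)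
    (h : K ≠ ⊥) : K ⊓ cen ⊤ ⊤ ≠ ⊥ := by
  haveI := hS.isNilpotent
  rw [cen_top_top]
  exact Core.inf_center_ne_bot_of_isNilpotent h

theorem cen_ne_bot [Nontrivial S] (hS : IsPGroup p S) : cen (⊤ : Subgroup S) ⊤ ≠ ⊥ := by
  have := inf_center_ne_bot hS (K := ⊤) inferInstance top_ne_bot
  rwa [top_inf_eq] at this

theorem char_cen : (cen (⊤ : Subgroup S) ⊤).Characteristic :=
  char_of_map fun f hf h => by rw [map_cen hf, h]

theorem pair_jt [Nontrivial S] (hS : IsPGroup p S) (ne : S₁ ≠ ⊥) (ch : S₁.Characteristic)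
    (le : S₁ ≤ cen ⊤ ⊤) (good : Good p S₁ (cen ⊤ (zj 0 ⊤))) : IsPair p S₁ (jt S) where
  ne₁ := ne
  ne₂ := fun h => cen_ne_bot hS (eq_bot_iff.2 (inf_le_right.trans
    ((centralizer_anti le_top).trans h.le)))
  ch₁ := ch
  ch₂ := jt_eq (S := S) ▸ char_of_map fun f hf h => by rw [map_cen hf, map_zj hf, h]
  le₁ := cen_top_top (G := S) ▸ le
  le₂ := le_rfl
  ch₃ := by rw [subgroupOf_self]; infer_instance
  good := jt_eq (S := S) ▸ good

theorem pair_top (hJ : jt S = ⊤) (ne₁ : S₁ ≠ ⊥) (ne₂ : S₂ ≠ ⊥) (ch₁ : S₁.Characteristic)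
    (ch₂ : S₂.Characteristic) (le : S₁ ≤ cen ⊤ ⊤) (good : Good p S₁ S₂) : IsPair p S₁ S₂ where
  ne₁ := ne₁
  ne₂ := ne₂
  ch₁ := ch₁
  ch₂ := ch₂
  le₁ := cen_top_top (G := S) ▸ le
  le₂ := hJ ▸ le_top
  ch₃ := by rw [hJ]; exact char_subgroupOf_top ch₂
  good := good

theorem pair_cl [Nontrivial S] (hS : IsPGroup p S) (hJ : jt S = ⊤) (ne₁ : S₁ ≠ ⊥)
    (ch₁ : S₁.Characteristic) (ch₂ : S₂.Characteristic) (le : S₁ ≤ cen ⊤ ⊤) (cl : CLIn ⊤ S₂)
    (good : Good p S₁ S₂) :
    ∃ S₁ S₂ : Subgroup S, IsPair p S₁ S₂ ∧ maxCentralProduct S₂ = maxCentralProduct (jt S) :=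
  ⟨S₁, S₂, pair_top hJ ne₁ (fun h => cen_ne_bot hS (eq_bot_iff.2 (cl.cen_top_le.trans
    (inf_le_left.trans h.le)))) ch₁ ch₂ le good, by rw [hJ]; exact cl.fm_eq le_rfl le_top⟩

theorem pair_A [Nontrivial S] (hS : IsPGroup p S) (h : jt S ≠ ⊤) : ∃ S₁, IsPair p S₁ (jt S) := by
  have ch : (⁅zj 0 (⊤ : Subgroup S), (⊤ : Subgroup S)⁆).Characteristic :=
    char_of_map fun f hf h => by rw [map_commutator, map_zj hf, h]
  refine ⟨_, pair_jt hS (inf_center_ne_bot hS ch fun h0 => h ?_)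
    (char_of_map fun f hf h => by rw [map_inf_eq _ _ _ hf, map_commutator, map_zj hf, map_cen hf, h])
    inf_le_right fun G _ _ τ M hτ H => ?_⟩
  · rw [jt_eq, eq_top_iff]
    exact le_inf le_rfl (le_centralizer_iff.1 (commutator_eq_bot_iff_le_centralizer.1 h0))
  · rw [map_inf_eq _ _ _ hτ, map_commutator, map_cen hτ, map_cen hτ, map_zj hτ]
    exact zj_cases H

theorem pair_B0 [Nontrivial S] (hS : IsPGroup p S) (h : IsMulCommutative S) :
    ∃ S₁, IsPair p S₁ (jt S) := by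
  refine ⟨_, pair_jt hS (cen_ne_bot hS) char_cen le_rfl fun G _ _ τ M hτ H => (not_comm H ?_).elim⟩
  rintro _ ⟨a, -, rfl⟩ _ ⟨b, -, rfl⟩
  rw [← map_mul, ← map_mul, h.is_comm.comm]

theorem pair_B1 [Nontrivial S] (hS : IsPGroup p S) (h : ¬ IsElementaryAbelian p (center S)) :
    ∃ S₁, IsPair p S₁ (jt S) := by
  refine ⟨powerClosure p 1 (cen ⊤ ⊤), pair_jt hS (fun h0 => h ?_)
    (char_of_map fun f hf h => by rw [RegP.map_powerClosure, map_cen hf, h])
    (powerClosure_le _ _ _) fun G _ _ τ M hτ H => ?_⟩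
  · refine elemAb_iff.2 ⟨fun a ha b _ => (mem_center_iff.1 ha b).symm, fun a ha => ?_⟩
    rw [← mem_bot, ← h0, cen_top_top]
    exact subset_closure ⟨a, ha, by rw [pow_one]⟩
  · rw [RegP.map_powerClosure, map_cen hτ, map_cen hτ, map_zj hτ]
    exact agemo_cases H

theorem pair_B2 [Nontrivial S] (hS : IsPGroup p S) (hJ : jt S = ⊤) {Q : Subgroup S}
    (hQ : MCLIn ⊤ Q) (h : ⁅Q, Q⁆ ≠ ⊥) :
    ∃ S₁ S₂ : Subgroup S, IsPair p S₁ S₂ ∧ maxCentralProduct S₂ = maxCentralProduct (jt S) := by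
  have ch : (⁅Q, Q⁆).Characteristic := char_of_map fun f hf h => by
    rw [map_commutator]
    exact (h ▸ (mclIn_map_inj hf).2 hQ : MCLIn ⊤ (Q.map f)).commutator_eq hQ
  haveI := char_cen (S := S)
  refine pair_cl (S₁ := cen ⊤ ⊤ ⊓ ⁅Q, Q⁆) (S₂ := mclJ ⊤) hS hJ
    (inf_comm ⁅Q, Q⁆ _ ▸ inf_center_ne_bot hS ch h) inferInstance
    (char_of_map fun f hf h => by rw [map_mclJ hf, h]) inf_le_left
    (clIn_biSup (exists_mclIn ⊤) fun _ h => h.1) fun G _ _ τ M hτ H => ?_
  rw [map_inf_eq _ _ _ hτ, map_commutator, map_cen hτ, map_mclJ hτ]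
  exact mcl_cases H ((mclIn_map_inj hτ).2 hQ)

/-- The structural clauses of the exception. -/
def ExcD (p : ℕ) (S : Type*) [Group S] : Prop :=
  IsElementaryAbelian p (frattini S) ∧ (p = 2 → frattini S ≤ center S) ∧
    (p = 3 → frattini S ≤ Subgroup.upperCentralSeries S 2) ∧
    (3 < p → frattini S ≤ center S ∧ Monoid.exponent S = p)

theorem comm_top_eq_bot {K : Subgroup S} : ⁅K, (⊤ : Subgroup S)⁆ = ⊥ ↔ K ≤ center S := by
  rw [commutator_eq_bot_iff_le_centralizer, coe_top, centralizer_univ]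

theorem sZero_eq_bot_iff [Nontrivial S] (hS : IsPGroup p S) :
    sZero p (⊤ : Subgroup S) = ⊥ ↔ ExcD p S := by
  have hp : p.Prime := Fact.out
  have e := Core.map_frattini_eq_bot_iff_of_isPGroup (hS.to_subgroup (frattini S))
  unfold sZero ExcD
  rw [phi_top]
  split_ifs with h2 h3
  · rw [sup_eq_bot_iff, comm_top_eq_bot, e]
    exact ⟨fun h => ⟨h.2, fun _ => h.1, by omega, by omega⟩, fun h => ⟨h.2.1 h2, h.1⟩⟩
  · have : ⁅frattini S, (⊤ : Subgroup S)⁆ ≤ center S ↔ frattini S ≤ Subgroup.upperCentralSeries S 2 := by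
      rw [commutator_le, ← Subgroup.upperCentralSeries_one]
      exact ⟨fun h x hx => Subgroup.mem_upperCentralSeries_succ_iff.2 fun y => h x hx y trivial,
        fun h x hx y _ => Subgroup.mem_upperCentralSeries_succ_iff.1 (h hx) y⟩
    rw [sup_eq_bot_iff, comm_top_eq_bot, e, this]
    exact ⟨fun h => ⟨h.2, by omega, fun _ => h.1, by omega⟩, fun h => ⟨h.2.2.1 h3, h.1⟩⟩
  · have h4 : 3 < p := by have := hp.two_le; omega
    have : powerClosure p 1 (⊤ : Subgroup S) = ⊥ ↔ ∀ x : S, x ^ p = 1 := by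
      rw [powerClosure, eq_bot_iff, closure_le]
      exact ⟨fun h x => h ⟨x, trivial, by rw [pow_one]⟩, fun h _ ⟨x, _, e⟩ => by
        rw [e, pow_one, h]; exact one_mem _⟩
    rw [sup_eq_bot_iff, comm_top_eq_bot, this]
    refine ⟨fun h => ⟨elemAb_iff.2 ⟨fun a ha b _ => (mem_center_iff.1 (h.1 ha) b).symm,
      fun a _ => h.2 a⟩, by omega, by omega, fun _ => ⟨h.1, (Monoid.exponent_eq_prime_iff hp).2
        fun g hg => orderOf_eq_prime (h.2 g) hg⟩⟩, fun h => ⟨(h.2.2.2 h4).1, fun x => ?_⟩⟩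
    rw [← (h.2.2.2 h4).2]
    exact Monoid.pow_exponent_eq_one x

/-- The clause on large abelian subgroups. -/
def ExcF (S : Type*) [Group S] : Prop :=
  ∀ A ∈ maxAbelianSubgroups S, ∀ B ∈ maxAbelianSubgroups S, ∀ Q : Subgroup S,
    Nat.card A ^ 2 = Nat.card S * Nat.card (center S) ∧
    Nat.card Q * Nat.card (center Q) ≤ Nat.card S * Nat.card (center S) ∧
    ((A ⊔ B : Subgroup S) : Set S) = (A : Set S) * (B : Set S) ∧
    A ⊔ B = centralizer ((A ⊓ B : Subgroup S) : Set S)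

theorem base_of_comm (hJ : jt S = ⊤) (h : ∀ Q : Subgroup S, MCLIn ⊤ Q → ⁅Q, Q⁆ = ⊥)
    (el : IsElementaryAbelian p (center S)) :
    thompsonSubgroupA S = ⊤ ∧ Base p (⊤ : Subgroup S) ∧ ExcF S := by
  have ab : ∀ Q : Subgroup S, IsMinimalCentrallyLarge Q → IsMulCommutative Q := fun Q hQ =>
    CL.isMulCommutative_iff_le.2 (commutator_eq_bot_iff_le_centralizer.1 (h Q (mclIn_top_iff.2 hQ)))
  have hT : thompsonSubgroupA S = ⊤ := (CL.centralizer_center_thompsonA_eq_of_comm ab).symm.trans hJ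
  obtain ⟨Q, hQ⟩ := exists_mclIn (⊤ : Subgroup S)
  have hQ' := mclIn_top_iff.1 hQ
  have cl : ∀ A ∈ maxAbelianSubgroups S, IsCentrallyLarge A := fun A hA =>
    ((CL.mcl_iff_maxAb_of_comm hQ'.1 (ab Q hQ') A).2 hA).1
  have top : IsCentrallyLarge (⊤ : Subgroup S) :=
    hT ▸ CL.isCentrallyLarge_sSup (CL.exists_maxAb S) cl
  have e : Nat.card S * Nat.card (center S) = maxCentralProduct S := by
    rw [← top, CL.card_center_eq, card_top, top_inf_eq, coe_top, centralizer_univ]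
  refine ⟨hT, ⟨fun Q hQ => commutator_eq_bot_iff_le_centralizer.1 (h Q hQ), clIn_top_iff.2 top,
    cen_top_top (G := S) ▸ el⟩, fun A hA B hB Q => ⟨?_, e ▸ CL.cl_le_max Q,
      CL.cd_coe_sup (CL.IsCL.cd (cl A hA)) (CL.IsCL.cd (cl B hB)), ?_⟩⟩
  · rw [e, ← cl A hA, CL.card_center_of_comm hA.1, sq]
  · rw [CL.cd_centralizer_inf (CL.IsCL.cd (cl A hA)) (CL.IsCL.cd (cl B hB)),
      CL.maxAb_centralizer hA, CL.maxAb_centralizer hB]

theorem jt_eq_top (h : thompsonSubgroupA S = ⊤) : jt S = ⊤ := by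
  rw [jt, h, eq_top_iff, ← le_centralizer_iff]
  exact inf_le_right

theorem pair_phi [Nontrivial S] (hS : IsPGroup p S) (hJ : thompsonSubgroupA S = ⊤)
    (h : ¬ ∃ A ∈ maxAbelianSubgroups S, IsElementaryAbelian p A) :
    ∃ S₁ S₂ : Subgroup S, IsPair p S₁ S₂ := by
  refine ⟨cen ⊤ ⊤, phiJ p ⊤, pair_top (jt_eq_top hJ) (cen_ne_bot hS) (fun h0 => h ?_) char_cen
    (char_of_map fun f hf h => by rw [map_phiJ hf, h]) le_rfl fun G _ _ τ M hτ H => ?_⟩
  · obtain ⟨Q, hQ⟩ := exists_mzIn p (⊤ : Subgroup S)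
    have h1 : phi Q = ⊥ := eq_bot_iff.2 ((le_iSup₂_of_le
      (f := fun (Q : Subgroup S) (_ : MZIn p ⊤ Q) => phi Q) _ hQ le_rfl).trans h0.le)
    have h2 := (Core.map_frattini_eq_bot_iff_of_isPGroup (hS.to_subgroup Q)).1 h1
    have h3 := mclIn_top_iff.1 hQ.1
    exact ⟨Q, (CL.mcl_iff_maxAb_of_comm h3.1 h2.1 Q).1 h3, h2⟩
  · rw [map_cen hτ, map_phiJ hτ]
    exact (em _).imp id (norm_phiJ H)

end CfsgLib.GN
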