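import Mathlib
import Cfsg.Agent.Lib.GN.Cubic

/-!
Lemmas on one pushing up group used in the comparison of two of them.
-/

set_option autoImplicit false
set_option linter.unusedSectionVars false

namespace CfsgLib.GN

open Subgroup Matrix MatrixGroups Cfsg CfsgLib.SL2 CfsgLib.LAE CfsgLib.PLocal CfsgLib.Push
open scoped commutatorElement

variable {G : Type*} [Group G] [Finite G] {p : ℕ} [Fact p.Prime] {P S M A S' M' B Y U H : Subgroup G}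
  {h : G}

theorem comm_inv_right (a x : G) : ⁅a, x⁻¹⁆ = x⁻¹ * ⁅a, x⁆⁻¹ * x⁻¹⁻¹ := by
  simp only [commutatorElement_def]; group

theorem comm_comm_eq {u g x : G} (hg : ⁅g, u⁆ = 1) :
    ⁅u, ⁅g, x⁆⁆ = ⁅g, ⁅u, x⁆⁆ * ⁅⁅u, x⁆, ⁅g, x⁆⁆ := by
  have e : g * u = u * g := commutatorElement_eq_one_iff_mul_comm.1 hg
  have h1 : ⁅u, ⁅g, x⁆⁆ = u * g * x * (u * g)⁻¹ * x⁻¹ * ⁅u, x⁆⁻¹ * ⁅g, x⁆⁻¹ := by
    simp only [commutatorElement_def]; group
  have h2 : ⁅g, ⁅u, x⁆⁆ = g * u * x * (g * u)⁻¹ * x⁻¹ * ⁅g, x⁆⁻¹ * ⁅u, x⁆⁻¹ := by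
    simp only [commutatorElement_def]; group
  rw [h1, h2, e, commutatorElement_def ⁅u, x⁆]; group

theorem exists_mz (h : PU p S P M) (hJ : mzJ p S = S) : ∃ A, MZIn p S A ∧ ¬ A ≤ pCoreOf p P := by
  by_contra hc
  push Not at hc
  exact h.nn (hJ.ge.trans (iSup₂_le hc))

theorem nz_of (h : PU p S P M) (hb : Base p S) (hJ : mzJ p S = S)
    (hz : ¬ P ≤ normalizer (cen S S : Set G)) : Nz p S P M :=
  ⟨h, hb, hz, (exists_mz h hJ).imp fun _ h => ⟨h.1.1, h.2⟩⟩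

theorem Nz.mz_st (n : Nz p S P M) (hA : MZIn p S A) (hAT : ¬ A ≤ pCoreOf p P) : MZIn p S (st p P A) := by
  have := (mz_star n.toPU n.nz hA hAT).1
  rwa [n.omegaZ_eq] at this

theorem Nz.exists_ord (n : Nz p S P M) (hA : MZIn p S A) (hAT : ¬ A ≤ pCoreOf p P) :
    ∃ a ∈ A, a ∉ pCoreOf p P ∧ a ^ p = 1 := by
  by_contra hc
  push Not at hc
  refine n.nn ((mz_star n.toPU n.nz hA hAT).2.ge.trans (sup_le (fun a ha => ?_) le_rfl))
  by_contra hT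
  exact hc a (omegaZ_le A ha) hT (mem_omegaZ.1 ha).2.2

theorem Pr.mzB (r : Pr p P S M A S' M' B Y U H h) (hA : MZIn p S A) : MZIn p S (st p P B) :=
  r.stB_eq ▸ (r.n.mz_st hA r.aT).conj_of_le st_le_T r.n.QS (le_normalizer_pCoreOf P r.hP)

theorem Nz.exists_pr' (n : Nz p S P M) (a : MCLIn S A) (aT : ¬ A ≤ pCoreOf p P) :
    ∃ h S' M' B Y U H, Pr p P S M A S' M' B Y U H h := by
  obtain ⟨h, hL, hM⟩ := n.exists_opp
  exact ⟨h, n.exists_pr a aT hL hM⟩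

theorem mzJ_cases' (h : PU p S P M) (hb : Base p S) :
    P ≤ normalizer ((⁅cen (mzJ p S) (mzJ p S), S⁆ ⊓ cen S S : Subgroup G) : Set G) ∨
      P ≤ normalizer (mzJ p S : Set G) := by
  have hle : ∀ Q, MZIn p S Q → Q ≤ mzJ p S := fun Q hQ =>
    le_iSup₂_of_le (f := fun (Q : Subgroup G) (_ : MZIn p S Q) => Q) _ hQ le_rfl
  by_cases hz : P ≤ normalizer (cen S S : Set G)
  · exact .inl (le_normalizer_of_le_centralizer
      ((le_centralizer_of_norm_cen h hz).trans (centralizer_anti inf_le_right)))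
  by_cases ha : ∀ Q, MZIn p S Q → Q ≤ pCoreOf p P
  · refine .inr fun g hg => mem_normalizer_of_conjS_le ?_
    conv_lhs => simp only [mzJ, conjS_iSup]
    exact iSup₂_le fun Q hQ => hle _ (hQ.conj_of_le (ha Q hQ) h.QS (le_normalizer_pCoreOf P hg))
  push Not at ha
  obtain ⟨A, hA, hAT⟩ := ha
  have n : Nz p S P M := ⟨h, hb, hz, A, hA.1, hAT⟩
  obtain ⟨g, S', M', B, Y, U, H, r⟩ := n.exists_pr' hA.1 hAT
  have hJ : mzJ p S ≤ S := iSup₂_le fun Q hQ => hQ.1.1.1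
  have hc : ∀ Q, MZIn p S Q → cen (mzJ p S) (mzJ p S) ≤ Q := fun Q hQ =>
    (inf_le_inf hJ (centralizer_anti (hle Q hQ))).trans (hb.cen_eq hQ.1).le
  refine .inl (le_normalizer_of_le_centralizer (le_centralizer_iff.1 (le_trans ?_ n.zs_inf_ct)))
  refine le_inf inf_le_right (inf_le_left.trans (commutator_le.2 fun x hx s hs => ?_))
  obtain ⟨u, hu, z, hz, rfl⟩ := r.mem_inf_st (hc _ (n.mz_st hA hAT) hx) (hc _ (r.mzB hA) hx)
  obtain ⟨a, ha, haT⟩ := SetLike.not_le_iff_exists.1 hAT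
  have h1 : z ∈ cen S S := n.mem_zs (r.AS ha) haT hz (by
    rw [comm_eq_one (r.ab ((mul_mem_cancel_left (r.UA hu)).1 (hc A hA hx))) ha]; exact one_mem _)
  rw [comm_mul_left, comm_eq_one' h1.2 hs, mul_one, mul_inv_cancel, one_mul]
  exact comm_swap (comm_ct (n.SP hs) (r.U_le_ct hu))

theorem ct_le_T : ct p P ≤ pCoreOf p P := inf_le_left

theorem TP : pCoreOf p P ≤ P := pCoreOf_le P

theorem comm_ht {l t : G} (hl : l ∈ pResOf p P) (ht' : t ∈ pCoreOf p P) : ⁅l, t⁆ ∈ ht p P :=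
  comm_swap (commutator_mem_commutator ht' hl)

theorem der_T_le (h : ⁅ht p P, pCoreOf p P⁆ ≤ ct p P) : ⁅pCoreOf p P, pCoreOf p P⁆ ≤ ct p P :=
  fun _ ht' => mem_ct (commutator_le_left_of_le_normalizer le_normalizer ht') fun _ hl =>
    comm_swap (Core.three_subgroups_of_le_normalizer (TP.trans norm_ct) (TP.trans norm_ct)
      ((pResOf_le P).trans norm_ct) h (by rwa [commutator_comm (pResOf p P)])
      (commutator_mem_commutator ht' hl))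

theorem pow_T_mem (h : ⁅pCoreOf p P, pCoreOf p P⁆ ≤ ct p P) (h' : ∀ w ∈ ht p P, w ^ p ∈ ct p P) {t : G}
    (ht' : t ∈ pCoreOf p P) : t ^ p ∈ ct p P := by
  obtain ⟨V, _, ⟨D⟩⟩ := exists_secRep (E := P) ct_le_T h (le_normalizer_pCoreOf P) norm_ct
  refine mem_ct (pow_mem ht' p) fun l hl => ?_
  have h1 := ht_le_T (comm_ht hl ht')
  rw [← D.ρ_π_eq_iff (pResOf_le P hl) (pow_mem ht' p), ← D.N_eq_zero_iff, D.π_pow ht', map_nsmul,
    D.N_π (pResOf_le P hl) ht', ← D.π_pow h1]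
  exact D.π_of_mem (h' _ (comm_ht hl ht'))

theorem phi_T_le (h : ⁅pCoreOf p P, pCoreOf p P⁆ ≤ ct p P) (h' : ∀ w ∈ ht p P, w ^ p ∈ ct p P) :
    phi (pCoreOf p P) ≤ ct p P :=
  (Core.map_frattini_le_iff_of_isPGroup (isPGroup_pCoreOf P)).2 ⟨h, fun _ ht' => pow_T_mem h h' ht'⟩

theorem phi_le_of {W T X : Subgroup G} (hS : IsPGroup p S) (hW : W ≤ S) (hT : T ≤ S) (hX : X ≤ S)
    (hn : S ≤ normalizer (X : Set G)) (e : ∀ s ∈ S, ∃ w ∈ W, ∃ t ∈ T, s = w * t)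
    (ab : W ≤ centralizer (W : Set G)) (hc : ∀ s ∈ S, ∀ t ∈ T, ⁅s, t⁆ ∈ X) (h1 : ∀ w ∈ W, w ^ p ∈ X)
    (h2 : ∀ t ∈ T, t ^ p ∈ X) : phi S ≤ X := by
  have hd : ⁅S, S⁆ ≤ X := commutator_le.2 fun s hs s' hs' => by
    obtain ⟨w, hw, t, ht', rfl⟩ := e s' hs'
    rw [comm_mul_right]
    refine mul_mem ?_ (conj_mem_of_mem_normalizer (hn (hW hw)) (hc s hs t ht'))
    obtain ⟨w', hw', t', ht'', rfl⟩ := e s hs
    rw [comm_mul_left, comm_eq_one (ab hw) hw', mul_one]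
    exact conj_mem_of_mem_normalizer (hn (hW hw')) (comm_swap (hc w (hW hw) t' ht''))
  refine (Core.map_frattini_le_iff_of_isPGroup hS).2 ⟨hd, fun s hs => ?_⟩
  obtain ⟨V, _, ⟨D⟩⟩ := exists_secRep (E := S) hX hd le_normalizer hn
  rw [← D.π_eq_zero _ (pow_mem hs p), D.π_pow hs]
  obtain ⟨w, hw, t, ht', rfl⟩ := e s hs
  rw [D.π_mul _ (hW hw) _ (hT ht'), nsmul_add, ← D.π_pow (hW hw), ← D.π_pow (hT ht'),
    D.π_of_mem (h1 w hw), D.π_of_mem (h2 t ht'), add_zero]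

theorem sZero_le {C X T : Subgroup G} (h1 : phi S ≤ X) (h2 : X ≤ T) (hT : IsPGroup p T) (h3 : phi T ≤ C)
    (h4 : p = 3 → ⁅⁅X, S⁆, S⁆ ≤ C) (h5 : p ≠ 3 → ⁅X, S⁆ ≤ C) (h6 : p ≠ 2 → p ≠ 3 → ∀ s ∈ S, s ^ p ∈ C) :
    sZero p S ≤ C := by
  have h7 : phi (phi S) ≤ C := (Core.map_frattini_mono_of_isPGroup hT (h1.trans h2)).trans h3
  unfold sZero
  split_ifs with a b
  · exact sup_le ((commutator_mono h1 le_rfl).trans (h5 (by omega))) h7
  · exact sup_le ((commutator_mono (commutator_mono h1 le_rfl) le_rfl).trans (h4 b)) h7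
  · refine sup_le ((commutator_mono h1 le_rfl).trans (h5 b)) ((closure_le _).2 ?_)
    rintro _ ⟨s, hs, rfl⟩
    rw [pow_one]; exact h6 a b s hs

/-- The subgroup `[T, L] C`. -/
abbrev nt (p : ℕ) (P : Subgroup G) : Subgroup G := ht p P ⊔ ct p P

theorem norm_nt : P ≤ normalizer (nt p P : Set G) := le_normalizer_sup norm_ht norm_ct

theorem nt_le_T : nt p P ≤ pCoreOf p P := sup_le ht_le_T ct_le_T

theorem mem_sup_ct {X : Subgroup G} (hX : X ≤ P) {x : G} (hx : x ∈ X ⊔ ct p P) :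
    ∃ w ∈ X, ∃ c ∈ ct p P, x = w * c :=
  (mem_sup_iff_of_left_le_normalizer (hX.trans norm_ct)).1 hx

theorem comm_mul_ct {g w c : G} (hg : g ∈ P) (hw : w ∈ P) (hc : c ∈ ct p P) :
    ⁅g, w * c⁆ ∈ ct p P ↔ ⁅g, w⁆ ∈ ct p P := by
  rw [comm_mul_right, mul_mem_cancel_right (conj_ct hw (comm_ct hg hc))]

theorem comm_ct_mul {g w c : G} (hg : g ∈ P) (hw : w ∈ P) (hc : c ∈ ct p P) :
    ⁅g, c * w⁆ ∈ ct p P ↔ ⁅g, w⁆ ∈ ct p P := by
  rw [show c * w = w * (w⁻¹ * c * w⁻¹⁻¹) by group, comm_mul_ct hg hw (conj_ct (inv_mem hw) hc)]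

theorem comm_inv_ct {g w : G} (hw : w ∈ P) (h : ⁅g, w⁆ ∈ ct p P) : ⁅g, w⁻¹⁆ ∈ ct p P := by
  rw [comm_inv_right]; exact conj_ct (inv_mem hw) (inv_mem h)

theorem Pr.Y_le_nt (r : Pr p P S M A S' M' B Y U H h) : Y ≤ nt p P := fun _ hy => by
  obtain ⟨t, ht', u, hu, rfl⟩ := r.mem_Y'' hy
  exact mul_mem (mem_sup_left ht') (mem_sup_right (r.U_le_ct hu))

theorem Pr.comm_nt (r : Pr p P S M A S' M' B Y U H h) {x y : G} (hx : x ∈ nt p P) (hy : y ∈ nt p P) :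
    ⁅x, y⁆ ∈ ct p P := by
  have hP : ht p P ≤ P := ht_le_T.trans TP
  obtain ⟨w, hw, c, hc, rfl⟩ := mem_sup_ct hP hy
  rw [comm_mul_ct (TP (nt_le_T hx)) (hP hw) hc]
  obtain ⟨w', hw', c', hc', rfl⟩ := mem_sup_ct hP hx
  exact comm_swap ((comm_mul_ct (hP hw) (hP hw') hc').2 (r.U_le_ct (r.comm_U (r.ht_le hw) (r.ht_le hw'))))

/-- The case that `O^p(P)` has elements of `S` outside `T`. -/
theorem Pr.beta (r : Pr p P S M A S' M' B Y U H h) {l y t y' : G} (hS : l ∈ S) (hl : l ∈ pResOf p P)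
    (hlT : l ∉ pCoreOf p P) (hy : y ∈ A ⊓ pCoreOf p P) (ht' : t ∈ pCoreOf p P) (hy' : y' ∈ A) :
    ⁅y', ⁅t, y⁆⁆ ∈ ct p P := by
  obtain ⟨d, hd, u, hu, rfl⟩ := r.n.exists_mul r.a r.aT hS
  have hdT : d ∉ pCoreOf p P := fun hc => hlT (mul_mem hc hu)
  have huN := r.Y_le_nt (r.H_inf_T ((mul_mem_cancel_left (r.AH hd)).1 (r.LH hl)) hu)
  have cN : ∀ x ∈ nt p P, ⁅x, t⁆ ∈ nt p P := fun x hx =>
    comm_swap (commutator_mem_of_normalizer (norm_nt (p := p) (TP ht')) hx)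
  have h1 : ⁅d, t⁆ ∈ nt p P := by
    have : ⁅d * u, t⁆ ∈ nt p P := mem_sup_left (comm_ht hl ht')
    rwa [comm_mul_left, mul_mem_cancel_left
      (conj_mem_of_mem_normalizer (norm_nt (r.AP hd)) (cN u huN))] at this
  have hyN := r.Y_le_nt (r.A1Y hy)
  have h2 : ⁅d, ⁅y, t⁆⁆ ∈ ct p P := by
    rw [comm_comm_eq (comm_eq_one (r.ab hd) hy.1)]
    exact mul_mem (r.comm_nt hyN h1) (r.comm_nt h1 (cN y hyN))
  obtain ⟨w, hw, c, hc, e⟩ := mem_sup_ct (ht_le_T.trans TP) (cN y hyN)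
  have hwP := TP (ht_le_T hw)
  rw [e, comm_mul_ct (r.AP hd) hwP hc] at h2
  rw [← commutatorElement_inv y t]
  refine comm_inv_ct (TP (nt_le_T (cN y hyN))) ?_
  rw [e, comm_mul_ct (r.AP hy') hwP hc, comm_eq_one (r.ab (r.fix1 hd hdT (r.ht_le hw) h2)) hy']
  exact one_mem _

/-- The case that `O^p(P)` acts coprimely on `Z(T)`. -/
theorem Nz.alpha (n : Nz p S P M) (hS : S ⊓ pResOf p P ≤ pCoreOf p P) {v : G} (hv : v ∈ ⁅S, zt p P⁆)
    (hc : v ∈ ct p P) : v = 1 := by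
  obtain ⟨V, _, ⟨D⟩⟩ := exists_secRep (E := P) (U := zt p P) (U₀ := ⊥) bot_le
    (commutator_le.2 fun _ hx _ hy => comm_eq_one hy.2 hx.1) norm_zt le_norm_bot
  have : ((pResOf p P).subgroupOf P).Normal := normal_subgroupOf_of_le (le_normalizer_pResOf P)
  obtain ⟨e, k, c1, c2, c3, c4⟩ := exists_avg (secHom D) ((pResOf p P).subgroupOf P)
  have hk : ¬ p ∣ k := fun h => by
    have h7 := c4 ((pCoreOf p P).subgroupOf P) fun x hx => LinearMap.ext fun m => by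
      obtain ⟨w, hw, rfl⟩ := D.π_surj m
      exact (D.ρ_π_eq_iff x.2 hw).2 (comm_eq_one hw.2 hx)
    rw [relIndex_subgroupOf (pResOf_le P)] at h7
    exact (n.syl.inf_of_normal (pResOf_le P) (le_normalizer_pResOf P)).not_dvd_relIndex
      (h.trans (h7.trans (relIndex_dvd_of_le_left _ hS)))
  have h1 : ⁅S, zt p P⁆ ≤ D.pre (LinearMap.ker e).toAddSubgroup := commutator_le.2 fun s hs z hz => by
    refine D.mem_pre.2 ⟨n.zs_le (n.comm_mem hs hz), ?_⟩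
    obtain ⟨w, hw, e'⟩ := D.π_surj (e (D.π z))
    have h2 : w ∈ ct p P := ⟨hw.1, mem_cent fun l hl => (D.ρ_π_eq_iff (pResOf_le P hl) hw).1 (by
      rw [e']; exact congrArg (fun f : Module.End ℤ V => f (D.π z)) (c2 ⟨l, pResOf_le P hl⟩ hl))⟩
    have h3 : D.ρ s (e (D.π z)) = e (D.ρ s (D.π z)) :=
      congrArg (fun f : Module.End ℤ V => f (D.π z)) (c1 ⟨s, n.SP hs⟩)
    change e _ = 0
    rw [D.π_commutator (n.SP hs) hz, map_sub, ← h3, ← e', sub_eq_zero, D.ρ_π_eq_iff (n.SP hs) hw]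
    exact comm_eq_one (n.zt_inf_ct hw h2) (n.SP hs)
  obtain ⟨hz, h2⟩ := D.mem_pre.1 (h1 hv)
  refine (D.π_eq_zero v hz).1 (eq_zero_of_nsmul hk (by rw [← D.π_pow hz, n.pow_zt hz, D.π_one]) ?_)
  rw [← c3 _ fun x hx => (D.ρ_π_eq_iff x.2 hz).2 (comm_eq_one hc.2 hx)]
  exact h2

/-- An involution of `A`. -/
theorem Pr.invol (r : Pr p P S M A S' M' B Y U H h) {a y : G} (ha : a ∈ A) (ha2 : a ^ 2 = 1) (hy : y ∈ Y)
    (hy2 : y ^ 2 ∈ zt p P) : ⁅y, ⁅a, y⁆⁆ = 1 := by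
  have hx := r.comm_mem_Y (r.AH ha) hy
  have hc := r.comm_U hy hx
  obtain ⟨a', ha', z, hz, e⟩ := mem_st (r.comm_A ha hy)
  have h0 := r.n.comm_mem (r.AS ha) hz
  have h1 : ⁅a, ⁅a, y⁆⁆ = ⁅a, z⁆ := by
    rw [e, comm_mul_right, comm_eq_one (r.ab ha'.1) ha, one_mul, conj_eq_self h0.2 (r.AS ha'.1)]
  have h2 : ⁅a, y ^ 2⁆ * ⁅a, ⁅a, y⁆⁆ = ⁅a, y⁆ * ⁅y, ⁅a, y⁆⁆ * ⁅a, y⁆⁻¹ := by
    have : a * a = 1 := by rw [← pow_two, ha2]
    have h3 : ⁅a, y⁆ * (a * ⁅a, y⁆ * a⁻¹) = 1 :=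
      calc _ = a * y * a⁻¹ * y⁻¹ * (a * a) * y * a⁻¹ * y⁻¹ * a⁻¹ := by
            simp only [commutatorElement_def]; group
        _ = a * y * (a * a)⁻¹ * y⁻¹ * a⁻¹ := by nth_rewrite 1 [this]; group
        _ = 1 := by rw [this]; group
    calc _ = ⁅a, y⁆ * ⁅y, ⁅a, y⁆⁆ * (⁅a, y⁆ * (a * ⁅a, y⁆ * a⁻¹)) * ⁅a, y⁆⁻¹ := by
          simp only [commutatorElement_def, pow_two]; group
      _ = _ := by rw [h3, mul_one]
  rw [conj_eq_self (le_centralizer_iff.1 r.H_cen_U hc) (r.YH hx), h1,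
    ← conj_eq_self h0.2 (r.n.QS hy2.1), ← comm_mul_right] at h2
  have h3 := mul_mem hy2 hz
  rw [← h2] at hc ⊢
  exact r.n.comm_eq_one_of (r.AS ha) h3 (r.n.zt_inf_ct (r.n.zs_le (r.n.comm_mem (r.AS ha) h3)) (r.U_le_ct hc))

theorem Nz.cubic' (n : Nz p S P M) (hA : MCLIn S A) (hAT : ¬ A ≤ pCoreOf p P) (hp : 5 ≤ p) {a y : G}
    (hy : y ∈ A) (ha : a ∈ nt p P) : ⁅y, ⁅a, y⁆⁆ ∈ ct p P := by
  have hyP := n.SP (hA.1.1 hy)
  obtain ⟨w, hw, c, hc, rfl⟩ := mem_sup_ct (ht_le_T.trans TP) ha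
  have hwP := TP (ht_le_T hw)
  have h1 : ⁅y, w⁆ ∈ P := Core.commutator_le_of_le le_rfl le_rfl (commutator_mem_commutator hyP hwP)
  rw [comm_mul_left, comm_ct_mul hyP (comm_swap h1) (conj_ct hwP (comm_swap (comm_ct hyP hc))),
    ← commutatorElement_inv y w]
  exact comm_inv_ct h1 (n.cubic hA hAT hp hy hw)

theorem mem_zc {x : G} (hx : x ∈ zt p P ⊔ ct p P) : ∃ z ∈ zt p P, ∃ c ∈ ct p P, x = z * c :=
  mem_sup_ct (inf_le_left.trans TP) hx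

theorem Nz.der_of_le (hle : ht p P ≤ zt p P ⊔ ct p P) : ⁅pCoreOf p P, pCoreOf p P⁆ ≤ ct p P :=
  der_T_le (commutator_le.2 fun w hw t ht' => by
    obtain ⟨z, hz, c, hc, rfl⟩ := mem_zc (hle hw)
    refine comm_swap ((comm_mul_ct (TP ht') (TP hz.1) hc).2 ?_)
    rw [comm_eq_one hz.2 ht']; exact one_mem _)

theorem Nz.pow_of_le (n : Nz p S P M) (hle : ht p P ≤ zt p P ⊔ ct p P) :
    ∀ w ∈ ht p P, w ^ p ∈ ct p P := fun w hw => by
  obtain ⟨z, hz, c, hc, rfl⟩ := mem_zc (hle hw)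
  rw [Commute.mul_pow (hz.2 c hc.1).symm, n.pow_zt hz, one_mul]
  exact pow_mem hc p

/-- For odd `p` an element inverting the natural module splits `T / C`. -/
theorem Nz.split (n : Nz p S P M) (hp : p ≠ 2) (hle : ht p P ≤ zt p P ⊔ ct p P) :
    pCoreOf p P ≤ zt p P ⊔ ct p P := fun t ht' => by
  obtain ⟨F, _, _, N, -, h3, -, -⟩ := n.exists_nat
  have hd := Nz.der_of_le hle
  obtain ⟨V, _, ⟨D⟩⟩ := exists_secRep (E := P) ct_le_T hd (le_normalizer_pCoreOf P) norm_ct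
  have hodd := (Fact.out : p.Prime).odd_of_ne_two hp
  have hz : ∀ l ∈ pResOf p P, ∀ m, ∃ z ∈ zt p P, D.N l m = D.π z := fun l hl m => by
    obtain ⟨w, hw, rfl⟩ := D.π_surj m
    obtain ⟨z, hz, c, hc, e⟩ := mem_zc (hle (comm_ht hl hw))
    exact ⟨z, hz, by rw [D.N_π (pResOf_le P hl) hw, e, D.π_mul _ hz.1 _ hc.1, D.π_of_mem hc, add_zero]⟩
  have hk : ∀ k ∈ pResOf p P, N.φ k = 1 → ∀ m, D.ρ k m = m := fun k hk e m => by
    have hP := pResOf_le P hk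
    have hK : k ∈ cen P (zt p P) := h3.le (N.mem_ker.2 ⟨hP, e⟩)
    obtain ⟨z, hz, e'⟩ := hz k hk m
    have h1 : ∀ j : ℕ, D.ρ (k ^ j) m = m + j • D.π z := fun j => by
      induction j with
      | zero => simp [D.ρ_one]
      | succ j ih =>
        rw [pow_succ', D.ρ_mul hP (pow_mem hP j), Module.End.mul_apply, ih, map_add, map_nsmul,
          (D.ρ_π_eq_iff hP hz.1).2 (by rw [comm_eq_one' hK.2 hz]; exact one_mem _), D.ρ_eq,
          LinearMap.add_apply, e', succ_nsmul, Module.End.one_apply]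
        abel
    have : ((pCoreOf p P).subgroupOf (cen P (zt p P))).Normal :=
      normal_subgroupOf_of_le (inf_le_left.trans (le_normalizer_pCoreOf P))
    have h2 : k ^ (pCoreOf p P).relIndex (cen P (zt p P)) ∈ pCoreOf p P :=
      mem_subgroupOf.1 (pow_index_mem ((pCoreOf p P).subgroupOf (cen P (zt p P))) ⟨k, hK⟩)
    obtain ⟨w, hw, rfl⟩ := D.π_surj m
    have h4 := h1 ((pCoreOf p P).relIndex (cen P (zt p P)))
    rw [(D.ρ_π_eq_iff (TP h2) hw).2 (hd (commutator_mem_commutator h2 hw)), left_eq_add] at h4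
    rw [← D.N_eq_zero_iff, e']
    exact eq_zero_of_nsmul n.not_dvd_ker (by rw [← D.π_pow hz.1, n.pow_zt hz, D.π_one]) h4
  obtain ⟨i, hi, e⟩ : ∃ i ∈ pResOf p P, N.φ i = -1 := by
    obtain ⟨g, hg, -, e⟩ := N.mem_img.1 (N.img_self.ge (mem_top (-1)))
    obtain ⟨k, hk⟩ := exists_pow_mem_pResOf (p := p) hg
    exact ⟨_, hk, by rw [N.φ_pow hg, e, (hodd.pow).neg_one_pow]⟩
  have hP := pResOf_le P hi
  have h1 : ∀ z ∈ zt p P, D.π z + D.ρ i (D.π z) = 0 := fun z hz => by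
    have h2 := conj_mem_of_mem_normalizer (norm_zt hP) hz
    rw [D.ρ_π i hP z hz.1, ← D.π_mul _ hz.1 _ h2.1]
    refine D.π_of_mem (n.cen_P_le_ct ⟨(mul_mem hz h2).1, ((N.π_eq_zero _ (mul_mem hz h2)).1 ?_).2⟩)
    rw [N.π_mul _ hz _ h2, N.π_conj i hP z hz, e]
    refine vec2_ext ?_ ?_ <;> simp [act_apply, neg_ap]
  have h2 : ∀ l ∈ pResOf p P, ∀ m, D.ρ l (D.ρ i m) = D.ρ i (D.ρ l m) := fun l hl m => by
    have hl' := pResOf_le P hl
    have h4 : ⁅l, i⁆ ∈ pResOf p P := Core.commutator_le_of_le le_rfl le_rfl (commutator_mem_commutator hl hi)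
    rw [← Module.End.mul_apply, ← D.ρ_mul hl' hP, show l * i = ⁅l, i⁆ * (i * l) by
      rw [commutatorElement_def]; group, D.ρ_mul (pResOf_le P h4) (mul_mem hP hl'), Module.End.mul_apply,
      hk _ h4 (by
        rw [commutatorElement_def, N.φ_mul (mul_mem (mul_mem hl' hP) (inv_mem hl')) (inv_mem hP),
          N.φ_conj hl' hP, N.φ_inv hP, e]; simp), D.ρ_mul hP hl', Module.End.mul_apply]
  have h4 := conj_mem_of_mem_normalizer (le_normalizer_pCoreOf P hP) ht'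
  have h5 : t * (i * t * i⁻¹) ∈ ct p P := mem_ct (mul_mem ht' h4) fun l hl => by
    obtain ⟨z, hz, e'⟩ := hz l hl (D.π t)
    rw [← D.ρ_π_eq_iff (pResOf_le P hl) (mul_mem ht' h4), D.π_mul _ ht' _ h4, ← D.ρ_π i hP t ht', map_add,
      h2 l hl, D.ρ_eq l, LinearMap.add_apply, e', Module.End.one_apply, map_add]
    linear_combination (norm := module) h1 z hz
  have h6 : t ^ 2 ∈ zt p P ⊔ ct p P := by
    have : t ^ 2 = t * ⁅i, t⁆⁻¹ * t⁻¹ * (t * (i * t * i⁻¹)) := by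
      rw [commutatorElement_def, pow_two]; group
    rw [this]
    exact mul_mem (conj_mem_of_mem_normalizer (le_normalizer_sup norm_zt norm_ct (TP ht'))
      (inv_mem (hle (comm_ht hi ht')))) (mem_sup_right h5)
  obtain ⟨j, hj⟩ := hodd
  have h7 := mem_sup_right (S := zt p P) (pow_T_mem hd (n.pow_of_le hle) ht')
  rwa [show t ^ p = (t ^ 2) ^ j * t by rw [hj, pow_succ, pow_mul], mul_mem_cancel_left (pow_mem h6 j)] at h7

end CfsgLib.GN
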