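import Mathlib
import Cfsg.Agent.Lib.GN.Two1

/-!
Comparison of two pushing up groups with the same Sylow subgroup.
-/

set_option autoImplicit false
set_option linter.unusedSectionVars false

namespace CfsgLib.GN

open Subgroup Cfsg CfsgLib.LAE CfsgLib.PLocal CfsgLib.Push
open scoped commutatorElement

variable {G : Type*} [Group G] [Finite G] {p : ℕ} [Fact p.Prime]
  {S P₁ M₁ P₂ M₂ A S' M' B Y U H S₂ M₃ E Y₂ U₂ H₂ : Subgroup G} {h k a y z : G}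

theorem Nz.not_le_symm (n₁ : Nz p S P₁ M₁) (n₂ : Nz p S P₂ M₂) (h : ¬ zt p P₂ ≤ pCoreOf p P₁) :
    ¬ zt p P₁ ≤ pCoreOf p P₂ := fun hc => h ((le_inf (inf_le_left.trans n₂.QS)
      (inf_le_right.trans (centralizer_anti hc))).trans n₁.cen_S_zt.le)

theorem Nz.idx_eq (n₁ : Nz p S P₁ M₁) (n₂ : Nz p S P₂ M₂) (h : ¬ zt p P₂ ≤ pCoreOf p P₁) :
    (pCoreOf p P₁).relIndex (zt p P₂) = (pCoreOf p P₂).relIndex S := by
  obtain ⟨z, hz, hzT⟩ := SetLike.not_le_iff_exists.1 (n₁.not_le_symm n₂ h)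
  rw [← n₂.idx, ← inf_relIndex_right]
  congr 1
  refine le_antisymm (fun x hx => n₂.mem_zs (n₁.QS hz.1) hzT hx.2 ?_)
    (le_inf (n₁.zs_le.trans inf_le_left) n₂.zs_le)
  rw [comm_eq_one' hz.2 hx.1]; exact one_mem _

theorem comm_zs_ct (n₁ : Nz p S P₁ M₁) : ⁅cen S S ⊔ ct p P₁, S⁆ ≤ ct p P₁ :=
  commutator_le.2 fun x hx s hs => by
    obtain ⟨z, hz, c, hc, rfl⟩ := mem_sup_ct (inf_le_left.trans n₁.SP) hx
    refine comm_swap ((comm_mul_ct (n₁.SP hs) (n₁.SP hz.1) hc).2 ?_)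
    rw [comm_eq_one hz.2 hs]; exact one_mem _

theorem Nz.case_i (n₁ : Nz p S P₁ M₁) (n₂ : Nz p S P₂ M₂) (h : ¬ zt p P₂ ≤ pCoreOf p P₁) :
    sZero p S ≤ ct p P₁ := by
  have hZ : zt p P₂ ≤ S := inf_le_left.trans n₂.QS
  have e : zt p P₂ ⊔ pCoreOf p P₁ = S := sup_eq_of_relIndex n₁.QS (n₁.SP.trans (le_normalizer_pCoreOf _)) hZ
    (by rw [n₁.idx_eq n₂ h, ← n₂.idx_eq n₁ (n₁.not_le_symm n₂ h)]
        exact relIndex_le_of_le (inf_le_left.trans n₁.QS))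
  have e' : ∀ s ∈ S, ∃ z ∈ zt p P₂, ∃ t ∈ pCoreOf p P₁, s = z * t := fun s hs =>
    (mem_sup_iff_of_left_le_normalizer (hZ.trans (n₁.SP.trans (le_normalizer_pCoreOf _)))).1 (e.ge hs)
  have h1 : pResOf p P₁ ≤ cmod P₁ (zt p P₁) (pCoreOf p P₁) := (n₁.pResOf_le_nclIn hZ h).trans (nclIn_le
    (fun z hz => (mem_cmod norm_zt).2 ⟨n₁.SP (hZ hz), fun t ht' => n₁.zs_le (n₂.comm_mem (n₁.QS ht') hz)⟩)
    (le_normalizer_cmod le_normalizer norm_zt (le_normalizer_pCoreOf _)))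
  have hle : ht p P₁ ≤ zt p P₁ ⊔ ct p P₁ := commutator_le.2 fun t ht' l hl =>
    mem_sup_left (((mem_cmod norm_zt).1 (h1 hl)).2 t ht')
  have hd := Nz.der_of_le hle
  have hp := fun t (ht' : t ∈ pCoreOf p P₁) => pow_T_mem hd (n₁.pow_of_le hle) ht'
  have hX : cen S S ⊔ ct p P₁ ≤ pCoreOf p P₁ := sup_le (n₁.zs_le.trans inf_le_left) ct_le_T
  have hn : S ≤ normalizer ((cen S S ⊔ ct p P₁ : Subgroup G) : Set G) :=
    le_normalizer_sup (le_normalizer_cen le_normalizer le_normalizer) (n₁.SP.trans norm_ct)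
  refine sZero_le (phi_le_of n₁.pS hZ n₁.QS (hX.trans n₁.QS) hn e'
    (inf_le_right.trans (centralizer_anti inf_le_left)) (fun s hs t ht' => ?_)
    (fun z hz => by rw [n₂.pow_zt hz]; exact one_mem _) fun t ht' => mem_sup_right (hp t ht')) hX
    (isPGroup_pCoreOf _) (phi_T_le hd (n₁.pow_of_le hle))
    (fun _ => (commutator_mono ((comm_zs_ct n₁).trans le_sup_right) le_rfl).trans (comm_zs_ct n₁))
    (fun _ => comm_zs_ct n₁) fun h2 _ s hs => ?_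
  · obtain ⟨z, hz, t', ht'', rfl⟩ := e' s hs
    rw [comm_mul_left]
    exact mul_mem (mem_sup_right (conj_ct (n₁.SP (hZ hz)) (hd (commutator_mem_commutator ht'' ht'))))
      (mem_sup_left (comm_swap (n₂.comm_mem (n₁.QS ht') hz)))
  · obtain ⟨z, hz, t, ht', rfl⟩ := e' s hs
    have h3 := n₂.comm_mem (n₁.QS ht') hz
    obtain ⟨j, hj⟩ := (Fact.out : p.Prime).dvd_choose_self two_ne_zero
      (lt_of_le_of_ne (Fact.out : p.Prime).two_le h2.symm)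
    rw [Core.mul_pow_of_commute_commutatorElement (h3.2 z (hZ hz)) (h3.2 t (n₁.QS ht')), hj, pow_mul,
      n₂.pow_zt (n₂.zs_le h3), n₂.pow_zt hz, one_pow, one_mul, one_mul]
    exact hp t ht'

/-- The situation to be excluded. -/
structure Tw (p : ℕ) (S P₁ M₁ P₂ M₂ : Subgroup G) : Prop where
  n₁ : Nz p S P₁ M₁
  n₂ : Nz p S P₂ M₂
  z : zt p P₂ ≤ pCoreOf p P₁
  t : ¬ ht p P₁ ≤ pCoreOf p P₂

/-- The elements of `T₁` whose commutators with `T₁` lie in `[S, Z₂]`. -/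
abbrev wt (p : ℕ) (S P₁ P₂ : Subgroup G) : Subgroup G := cmod (pCoreOf p P₁) ⁅S, zt p P₂⁆ (pCoreOf p P₁)

/-- `⁅a, y⁆` acts like `z` on `[T, L]`. -/
def Rel (p : ℕ) (P : Subgroup G) (a y z : G) : Prop := ∀ y' ∈ ht p P, ⁅y', ⁅a, y⁆⁆ = ⁅y', z⁆

namespace Tw

variable (w : Tw p S P₁ M₁ P₂ M₂)
include w

theorem comm_ht (r : Pr p P₁ S M₁ A S' M' B Y U H h) (hz : z ∈ zt p P₂) {t : G} (ht' : t ∈ ht p P₁) :
    ⁅t, z⁆ ∈ centralizer (P₁ : Set G) := by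
  have c : ∀ t ∈ ht p P₁, ⁅t, z⁆ ∈ cen S S := fun t ht' => w.n₂.comm_mem (r.n.QS (ht_le_T ht')) hz
  refine r.zs_inf (c t ht') ?_
  have h1 := conj_mem_of_mem_normalizer (norm_ht (inv_mem r.hP)) ht'
  have h2 := r.symm.comm_h (w.z hz)
  have h3 := r.U_le_ct (r.comm_U (r.ht_le h1) (r.ht_le h2))
  have e : h⁻¹ * ⁅t, z⁆ * h⁻¹⁻¹ = ⁅h⁻¹ * t * h⁻¹⁻¹, ⁅h⁻¹, z⁆⁆ * ⁅h⁻¹ * t * h⁻¹⁻¹, z⁆ := by
    rw [conj_commutatorElement, conj_eq_comm_mul h⁻¹ z, comm_mul_right,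
      conj_eq_self (c _ h1).2 (r.n.QS (ht_le_T h2))]
  have h4 := conj_mem_of_mem_normalizer (norm_zt (inv_mem r.hP)) (r.n.zs_le (c t ht'))
  rw [e, mul_mem_cancel_right (r.n.zs_le (c _ h1))] at h4
  rw [r.eS, ← conjS_cen', mem_conjS, ← inv_inv h, inv_inv h⁻¹, e]
  exact mul_mem ⟨r.n.QS h4.1, centralizer_anti r.n.SP (r.n.zt_inf_ct h4 h3)⟩ (c _ h1)

theorem comm_Y (r : Pr p P₁ S M₁ A S' M' B Y U H h) (hz : z ∈ zt p P₂) (hy : y ∈ Y) :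
    ⁅y, z⁆ ∈ centralizer (P₁ : Set G) := by
  obtain ⟨t, ht', u, hu, rfl⟩ := r.mem_Y'' hy
  have h1 := r.n.zs_inf_ct ⟨w.n₂.comm_mem (r.AS (r.UA hu)) hz,
    comm_swap (comm_ct (TP (w.z hz)) (r.U_le_ct hu))⟩
  rw [comm_mul_left, conj_eq_self h1 (TP (ht_le_T ht'))]
  exact mul_mem h1 (w.comm_ht r hz ht')

theorem comm_S {s : G} (hs : s ∈ S) (hz : z ∈ zt p P₂) : ⁅s, z⁆ ∈ centralizer (P₁ : Set G) := by
  obtain ⟨A, hA, hAT⟩ := w.n₁.ex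
  obtain ⟨h, S', M', B, Y, U, H, r⟩ := w.n₁.exists_pr' hA hAT
  obtain ⟨D, hD, hDT, hDY⟩ : ∃ D, MCLIn S D ∧ ¬ D ≤ pCoreOf p P₂ ∧ D ≤ Y := by
    by_cases h1 : st p P₁ A ≤ pCoreOf p P₂
    · exact ⟨_, r.stB, fun h2 => w.t (r.ht_le.trans (r.eY.le.trans (sup_le h1 h2))), r.symm.st_le⟩
    · exact ⟨_, r.stA, h1, r.st_le⟩
  obtain ⟨d, hd, t, ht', rfl⟩ := w.n₂.exists_mul hD hDT hs
  rw [comm_mul_left, comm_eq_one hz.2 ht', mul_one, mul_inv_cancel, one_mul]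
  exact w.comm_Y r hz (hDY hd)

theorem xi_le : ⁅S, zt p P₂⁆ ≤ cen S S := commutator_le.2 fun _ hs _ hz => w.n₂.comm_mem hs hz

theorem norm_xi : P₁ ≤ normalizer ((⁅S, zt p P₂⁆ : Subgroup G) : Set G) :=
  le_normalizer_of_le_centralizer (le_centralizer_iff.1 (commutator_le.2 fun _ hs _ hz => w.comm_S hs hz))

theorem mem_wt : y ∈ wt p S P₁ P₂ ↔ y ∈ pCoreOf p P₁ ∧ ∀ t ∈ pCoreOf p P₁, ⁅t, y⁆ ∈ ⁅S, zt p P₂⁆ :=
  mem_cmod (TP.trans w.norm_xi)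

theorem norm_wt : P₁ ≤ normalizer (wt p S P₁ P₂ : Set G) :=
  le_normalizer_cmod (le_normalizer_pCoreOf _) w.norm_xi (le_normalizer_pCoreOf _)

theorem pow_wt (hy : y ∈ wt p S P₁ P₂) : y ^ p ∈ zt p P₁ := by
  obtain ⟨h1, h2⟩ := w.mem_wt.1 hy
  refine ⟨pow_mem h1 p, mem_cent fun t ht' => ?_⟩
  have h3 := w.xi_le (h2 t ht')
  rw [Core.commutatorElement_pow_right_of_commute (h3.2 y (w.n₁.QS h1)), w.n₁.pow_zt (w.n₁.zs_le h3)]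

theorem fix (r : Pr p P₁ S M₁ A S' M' B Y U H h) (hz : z ∈ zt p P₂) :
    ∃ a ∈ A ⊓ pCoreOf p P₁, ∃ c ∈ ct p P₁, z = a * c :=
  r.fix (w.z hz) fun _ ha => r.n.cen_P_le_ct
    ⟨(r.n.zs_le (w.n₂.comm_mem (r.AS ha) hz)).1, w.comm_S (r.AS ha) hz⟩

theorem exists_D (r : Pr p P₁ S M₁ A S' M' B Y U H h) :
    ∃ y ∈ ht p P₁, y ∈ st p P₁ B ∧ y ∉ pCoreOf p P₂ := by
  by_contra hc
  push Not at hc
  refine w.t (r.ht_le_sup.trans (sup_le (commutator_le.2 fun a ha y hy => ?_)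
    (commutator_le.2 fun b hb y hy => hc _ (r.comm_Y (r.symm.AH hb) hy) (r.symm.comm_A hb hy))))
  have h1 := r.comm_Y (r.AH ha) hy
  refine w.n₂.cen_S_zt.le ⟨r.n.QS (ht_le_T h1), mem_cent fun z hz => ?_⟩
  obtain ⟨a', ha', c, hc, rfl⟩ := w.fix r hz
  rw [← commutatorElement_inv, comm_mul_right, comm_ht_ct h1 hc, mul_one, mul_inv_cancel, mul_one,
    comm_eq_one' (r.n.base.ab _ r.stA (r.comm_A ha hy)) (mem_sup_left ha'), inv_one]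

theorem stB_not_le (r : Pr p P₁ S M₁ A S' M' B Y U H h) : ¬ st p P₁ B ≤ pCoreOf p P₂ := fun hc => by
  obtain ⟨y, -, h1, h2⟩ := w.exists_D r
  exact h2 (hc h1)

theorem exists_y (r : Pr p P₁ S M₁ A S' M' B Y U H h) (ha : a ∈ A) (haT : a ∉ pCoreOf p P₁)
    (hz : z ∈ zt p P₂) : ∃ y ∈ wt p S P₁ P₂ ⊓ ht p P₁ ⊓ st p P₁ B, Rel p P₁ a y z := by
  obtain ⟨a₁, ha₁, c, hc, e⟩ := w.fix r hz
  have hK : wt p S P₁ P₂ ⊓ ht p P₁ ≤ Y := inf_le_right.trans r.ht_le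
  have nE : H ≤ normalizer ((wt p S P₁ P₂ ⊓ ht p P₁ ⊔ cen Y Y : Subgroup G) : Set G) :=
    le_normalizer_sup (r.HP.trans (le_normalizer_inf w.norm_wt norm_ht)) r.H_zY
  have hE : wt p S P₁ P₂ ⊓ ht p P₁ ⊔ cen Y Y ≤ Y := sup_le hK inf_le_left
  have hzW : z ∈ wt p S P₁ P₂ := w.mem_wt.2 ⟨w.z hz, fun t ht' => commutator_mem_commutator (r.n.QS ht') hz⟩
  have h1 : a₁ ∈ cmod Y (wt p S P₁ P₂ ⊓ ht p P₁ ⊔ cen Y Y) H := (mem_cmod (r.YH.trans nE)).2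
    ⟨r.A1Y ha₁, fun g hg => ((r.eq_LA.le.trans (sup_le (le_stb (r.LH.trans nE) fun l hl => by
      have h2 : ⁅l, z⁆ = ⁅l, a₁⁆ := by
        rw [e, comm_mul_right, comm_eq_one hc.2 hl, mul_one, mul_inv_cancel, mul_one]
      rw [← h2]
      exact mem_sup_left ⟨commutator_mem_of_normalizer (w.norm_wt (pResOf_le _ hl)) hzW,
        GN.comm_ht hl (w.z hz)⟩) (le_stb (r.AH.trans nE) fun a' ha' => by
      rw [comm_eq_one (r.ab ha₁.1) ha']; exact one_mem _))) hg).2⟩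
  obtain ⟨y₀, hy₀, -, h2⟩ := r.surj ha haT (le_normalizer_cmod r.HY nE le_normalizer)
    (fun x hx => (mem_cmod (r.YH.trans nE)).2 ⟨hx.1, fun g hg =>
      mem_sup_right (commutator_mem_of_normalizer (r.H_zY hg) hx)⟩) cmod_le h1 (mem_sup_left ha₁)
  have h3 : a₁ ∈ wt p S P₁ P₂ ⊓ ht p P₁ ⊔ cen Y Y :=
    (mul_mem_cancel_left (inv_mem (((mem_cmod (r.YH.trans nE)).1 hy₀).2 a (r.AH ha)))).1 (mem_sup_right h2)
  obtain ⟨y₁, hy₁, hB, h4⟩ := r.surj ha haT nE le_sup_right hE h3 (mem_sup_left ha₁)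
  obtain ⟨y, hy, v, hv, rfl⟩ := (mem_sup_iff_of_left_le_normalizer (hK.trans (r.YH.trans r.H_zY))).1 hy₁
  refine ⟨y, ⟨hy, (mul_mem_cancel_right (r.symm.zY_le hv)).1 hB⟩, fun y' hy' => ?_⟩
  have h5 := commutator_mem_of_normalizer (r.H_zY (r.AH ha)) hv
  have hx := r.comm_mem_Y (r.AH ha) (hK hy)
  have hy'' := r.ht_le hy'
  rw [comm_mul_right, conj_eq_self h5.2 (hK hy)] at h4
  have h6 := mul_mem h5 h4
  rw [e, comm_mul_right, comm_ht_ct hy' hc, mul_one, mul_inv_cancel, mul_one,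
    show a₁ = ⁅a, y⁆ * (⁅a, v⁆ * ((⁅a, y⁆ * ⁅a, v⁆)⁻¹ * a₁)) by group, r.bil_right hy'' hx h6.1,
    comm_eq_one h6.2 hy'', mul_one]

theorem rel_div (r : Pr p P₁ S M₁ A S' M' B Y U H h) (ha : a ∈ A) {y' z' : G} (hy : y ∈ Y) (hy' : y' ∈ Y)
    (hz : z ∈ zt p P₂) (hz' : z' ∈ zt p P₂) (h1 : Rel p P₁ a y z) (h2 : Rel p P₁ a y' z') :
    Rel p P₁ a (y⁻¹ * y') (z⁻¹ * z') := fun t ht' => by
  have hv := mul_mem (inv_mem hy) hy'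
  have hx := r.comm_mem_Y (r.AH ha) hv
  have hY := r.ht_le ht'
  have e1 : ⁅t, ⁅a, y'⁆⁆ = ⁅t, z⁆ * ⁅t, ⁅a, y⁻¹ * y'⁆⁆ := by
    conv_lhs => rw [← mul_inv_cancel_left y y', comm_mul_right, conj_eq_comm_mul y]
    rw [r.bil_right hY (r.comm_mem_Y (r.AH ha) hy) (mul_mem (r.class2 hy hx).1 hx), h1 t ht',
      r.bil_right hY (r.class2 hy hx).1 hx, comm_eq_one (r.class2 hy hx).2 hY, one_mul]
  have e2 : ⁅t, z'⁆ = ⁅t, z⁆ * ⁅t, z⁻¹ * z'⁆ := by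
    conv_lhs => rw [← mul_inv_cancel_left z z', comm_mul_right]
    rw [conj_eq_self (w.n₂.comm_mem (r.n.QS (ht_le_T ht')) (mul_mem (inv_mem hz) hz')).2 (w.n₂.QS hz.1)]
  exact mul_left_cancel (e1.symm.trans ((h2 t ht').trans e2))

theorem mem_zs (hz : z ∈ zt p P₂) (h1 : Rel p P₁ a y z) {y' : G} (hy' : y' ∈ ht p P₁)
    (hT : y' ∉ pCoreOf p P₂) (hc : ⁅y', ⁅a, y⁆⁆ ∈ ct p P₂) : z ∈ cen S S := by
  have h2 := w.n₁.QS (ht_le_T hy')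
  exact w.n₂.mem_zs h2 hT hz (w.n₂.zs_inf_ct ⟨w.n₂.comm_mem h2 hz, h1 y' hy' ▸ hc⟩)

/-- The elements `y` cover `S / T₂`. -/
theorem cover (r : Pr p P₁ S M₁ A S' M' B Y U H h) (ha : a ∈ A) (haT : a ∉ pCoreOf p P₁)
    (hx : ∀ y ∈ wt p S P₁ P₂ ⊓ ht p P₁ ⊓ st p P₁ B, y ∈ pCoreOf p P₂ → ∀ y' ∈ st p P₁ B,
      ⁅y', ⁅a, y⁆⁆ ∈ ct p P₂) : wt p S P₁ P₂ ⊓ ht p P₁ ⊓ st p P₁ B ⊔ pCoreOf p P₂ = S := by
  refine sup_eq_of_relIndex w.n₂.QS (w.n₂.SP.trans (le_normalizer_pCoreOf _))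
    (inf_le_right.trans r.stB.1.1) ?_
  choose f hf hf' using fun z : zt p P₂ => w.exists_y r ha haT z.2
  obtain ⟨y', h1, h2, h3⟩ := w.exists_D r
  rw [← w.n₂.idx]
  refine Nat.card_le_card_of_injective (fun q : zt p P₂ ⧸ (cen S S).subgroupOf (zt p P₂) =>
    (QuotientGroup.mk ⟨f q.out, hf _⟩ : ↥(wt p S P₁ P₂ ⊓ ht p P₁ ⊓ st p P₁ B) ⧸ (pCoreOf p P₂).subgroupOf _))
    fun q q' e => ?_
  rw [← q.out_eq', ← q'.out_eq']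
  have h4 := mul_mem (inv_mem (hf q.out)) (hf q'.out)
  exact QuotientGroup.eq.2 (w.mem_zs (mul_mem (inv_mem q.out.2) q'.out.2)
    (w.rel_div r ha (r.ht_le (hf _).1.2) (r.ht_le (hf _).1.2) q.out.2 q'.out.2 (hf' _) (hf' _)) h1 h3
    (hx _ h4 (mem_subgroupOf.1 (QuotientGroup.eq.1 e)) y' h2))

theorem core (r : Pr p P₁ S M₁ A S' M' B Y U H h) (ha : a ∈ A) (haT : a ∉ pCoreOf p P₁) (hap : a ^ p = 1)
    (hx : ∀ y ∈ wt p S P₁ P₂ ⊓ ht p P₁ ⊓ st p P₁ B, y ∈ pCoreOf p P₂ → ∀ y' ∈ st p P₁ B,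
      ⁅y', ⁅a, y⁆⁆ ∈ ct p P₂) : p ≠ 2 ∧ ∃ y ∈ wt p S P₁ P₂ ⊓ ht p P₁ ⊓ st p P₁ B, y ∉ pCoreOf p P₂ ∧
        ⁅y, ⁅a, y⁆⁆ ∉ ct p P₂ := by
  obtain ⟨z, hz, hzS⟩ := SetLike.not_le_iff_exists.1 fun hc : zt p P₂ ≤ cen S S =>
    w.n₂.one_lt_idx.ne' (w.n₂.idx.symm.trans (relIndex_eq_one.2 hc))
  obtain ⟨y, hy, h1⟩ := w.exists_y r ha haT hz
  obtain ⟨y', h2, h3, h4⟩ := w.exists_D r
  have h5 : y ∉ pCoreOf p P₂ := fun hc => hzS (w.mem_zs hz h1 h2 h4 (hx y hy hc y' h3))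
  have h6 : ⁅y, ⁅a, y⁆⁆ ∉ ct p P₂ := fun hc => hzS (w.mem_zs hz h1 hy.1.2 h5 hc)
  refine ⟨fun e => h6 ?_, y, hy, h5, h6⟩
  have h7 := w.pow_wt hy.1.1
  rw [r.invol ha (e ▸ hap) (r.ht_le hy.1.2) (by rwa [show y ^ p = y ^ 2 by rw [e]] at h7)]
  exact one_mem _

theorem exists_t (r : Pr p P₁ S M₁ A S' M' B Y U H h) (ha : a ∈ S) :
    ∃ t ∈ pCoreOf p P₂, ∀ y ∈ st p P₁ B, ⁅a, y⁆ = ⁅t, y⁆ := by
  obtain ⟨d, hd, t, ht', e⟩ := w.n₂.exists_mul r.stB (w.stB_not_le r) ha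
  refine ⟨_, conj_mem_of_mem_normalizer (le_normalizer_pCoreOf _ (w.n₂.SP (r.stB.1.1 hd))) ht', fun y hy => ?_⟩
  rw [show a = d * t * d⁻¹ * d by rw [e]; group, comm_mul_left, comm_eq_one (r.n.base.ab _ r.stB hy) hd,
    mul_one, mul_inv_cancel, one_mul]

theorem le_st (r₂ : Pr p P₂ S M₂ A S₂ M₃ E Y₂ U₂ H₂ k) (hy : y ∈ A) (hW : y ∈ wt p S P₁ P₂)
    (hT : y ∉ pCoreOf p P₂) : pCoreOf p P₁ ⊓ Y₂ ≤ st p P₂ A := fun _ ht' =>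
  r₂.cen1 hy hT ht'.2 (r₂.Z_le_zY (w.n₂.zs_le (w.xi_le (comm_swap ((w.mem_wt.1 hW).2 _ ht'.1)))))

/-- The asymmetric case. -/
theorem asym (hJ : mzJ p S = S) (h2 : ht p P₂ ≤ pCoreOf p P₁) : False := by
  obtain ⟨A, hA, hAT⟩ := exists_mz w.n₁.toPU hJ
  obtain ⟨h, S', M', B, Y, U, H, r⟩ := w.n₁.exists_pr' hA.1 hAT
  obtain ⟨a, ha, haT, hap⟩ := w.n₁.exists_ord hA hAT
  obtain ⟨k, S₂, M₃, E, Y₂, U₂, H₂, r₂⟩ := w.n₂.exists_pr' r.stB (w.stB_not_le r)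
  obtain ⟨t, ht', e⟩ := w.exists_t r (r.AS ha)
  obtain ⟨hp, y, hy, hT, hc⟩ := w.core r ha haT hap fun y hy hT y' hy' => by
    rw [e y hy.2]
    by_cases hS : S ⊓ pResOf p P₂ ≤ pCoreOf p P₂
    · have hY := r₂.A1Y ⟨hy.2, hT⟩
      obtain ⟨u, hu, z, hz, rfl⟩ := r₂.mem_zY (r₂.cen_ht ⟨hY, mem_cent fun v hv =>
        w.n₂.alpha hS ((w.mem_wt.1 hy.1.1).2 v (h2 hv)) (r₂.U_le_ct (r₂.comm_U (r₂.ht_le hv) hY))⟩)
      refine comm_ct (r₂.AP hy') ((comm_ct_mul (TP ht') (TP hz.1) (r₂.U_le_ct hu)).2 ?_)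
      rw [comm_eq_one hz.2 ht']; exact one_mem _
    · obtain ⟨l, hl, hlT⟩ := SetLike.not_le_iff_exists.1 hS
      exact r₂.beta hl.1 hl.2 hlT ⟨hy.2, hT⟩ ht' hy'
  have h3 : ht p P₂ ≤ st p P₂ (st p P₁ B) := (le_inf h2 r₂.ht_le).trans (w.le_st r₂ hy.2 hy.1.1 hT)
  have h4 : Y₂ ≤ st p P₂ (st p P₁ B) := fun _ hv => by
    obtain ⟨v, hv', u, hu, rfl⟩ := r₂.mem_Y'' hv
    exact mul_mem (h3 hv') (r₂.U_le_st hu)
  have h5 : ht p P₂ ≤ zt p P₂ ⊔ ct p P₂ := fun v hv => by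
    obtain ⟨u, hu, z, hz, e'⟩ := r₂.mem_zY ⟨r₂.ht_le hv, centralizer_anti h4 (r.n.base.ab _ r₂.stA (h3 hv))⟩
    exact e' ▸ mul_mem (mem_sup_right (r₂.U_le_ct hu)) (mem_sup_left hz)
  obtain ⟨z, hz, c, hc', rfl⟩ := mem_zc (w.n₂.split hp h5 ht')
  have hS := r₂.AS hy.2
  have h6 := comm_swap (w.n₂.comm_mem hS hz)
  refine hc ?_
  rw [e y hy.2, comm_mul_left, comm_ct_mul (w.n₂.SP hS) (w.n₂.SP h6.1)
    (conj_ct (TP hz.1) (comm_swap (comm_ct (w.n₂.SP hS) hc'))), comm_eq_one h6.2 hS]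
  exact one_mem _

/-- The symmetric case. -/
theorem sym (hJ : mzJ p S = S) (w' : Tw p S P₂ M₂ P₁ M₁) : sZero p S ≤ ct p P₂ := by
  obtain ⟨A, hA, hAT, hAN⟩ : ∃ A, MZIn p S A ∧ ¬ A ≤ pCoreOf p P₁ ∧ A ≤ nt p P₂ := by
    obtain ⟨A, hA, hAT⟩ := exists_mz w.n₂.toPU hJ
    obtain ⟨h, S', M', B, Y, U, H, r⟩ := w.n₂.exists_pr' hA.1 hAT
    exact ⟨_, r.mzB hA, w'.stB_not_le r, r.symm.st_le.trans r.Y_le_nt⟩
  obtain ⟨h, S', M', B, Y, U, H, r⟩ := w.n₁.exists_pr' hA.1 hAT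
  obtain ⟨a, ha, haT, hap⟩ := w.n₁.exists_ord hA hAT
  obtain ⟨k, S₂, M₃, E, Y₂, U₂, H₂, r₂⟩ := w.n₂.exists_pr' r.stB (w.stB_not_le r)
  have hx : ∀ y ∈ wt p S P₁ P₂ ⊓ ht p P₁ ⊓ st p P₁ B, y ∈ pCoreOf p P₂ → ∀ y' ∈ st p P₁ B,
      ⁅y', ⁅a, y⁆⁆ ∈ ct p P₂ := fun y hy hT y' hy' =>
    comm_ct (r₂.AP hy') (r₂.comm_nt (hAN ha) (r₂.Y_le_nt (r₂.A1Y ⟨hy.2, hT⟩)))
  obtain ⟨hp, y, hy, hT, hc⟩ := w.core r ha haT hap hx
  have hp3 : p = 3 := by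
    by_contra h3
    exact hc (w.n₂.cubic' r.stB r₂.aT ((Fact.out : p.Prime).five_le_of_ne_two_of_ne_three hp h3) hy.2 (hAN ha))
  have n₂ := w.n₂
  have hZ : ∀ x ∈ zt p P₁ ⊔ zt p P₂, ∃ z ∈ zt p P₁, ∃ z' ∈ zt p P₂, x = z * z' := fun x hx =>
    (mem_sup_iff_of_left_le_normalizer (w'.z.trans (TP.trans norm_zt))).1 hx
  have hZT : zt p P₁ ⊔ zt p P₂ ≤ pCoreOf p P₂ := sup_le w'.z inf_le_left
  have h1 : st p P₂ (st p P₁ B) ≤ zt p P₁ ⊔ zt p P₂ ⊔ ct p P₂ := by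
    refine (le_inf r₂.stA.1.1 ((r.n.base.ab _ r₂.stA).trans (centralizer_anti (w.le_st r₂ hy.2 hy.1.1 hT)))).trans
      ((r.n.clT.cen_inf r₂.clY).le.trans (sup_le (le_sup_left.trans le_sup_left) fun v hv => ?_))
    obtain ⟨u, hu, z, hz, rfl⟩ := r₂.mem_zY hv
    exact mul_mem (mem_sup_right (r₂.U_le_ct hu)) (mem_sup_left (mem_sup_right hz))
  have h2 : ∀ x ∈ zt p P₁ ⊔ zt p P₂ ⊔ ct p P₂, (∀ t ∈ pCoreOf p P₂, ⁅t, x⁆ ∈ ct p P₂) ∧ x ^ p ∈ ct p P₂ ∧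
      ∀ s ∈ S, ⁅x, s⁆ ∈ cen S S ⊔ ct p P₂ := fun x hx => by
    obtain ⟨v, hv, c, hc, rfl⟩ := mem_sup_ct (hZT.trans TP) hx
    obtain ⟨z, hz, z', hz', rfl⟩ := hZ v hv
    refine ⟨fun t ht' => (comm_mul_ct (TP ht') (TP (hZT hv)) hc).2 ?_, ?_, fun s hs => comm_swap ?_⟩
    · rw [comm_mul_right, comm_eq_one hz'.2 ht', mul_one, mul_inv_cancel, mul_one]
      exact n₂.cen_P_le_ct ⟨(n₂.zs_le (w.n₁.comm_mem (n₂.QS ht') hz)).1, w'.comm_S (n₂.QS ht') hz⟩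
    · refine pow_mem_of_sup (fun x hx => ?_) (hZT.trans (TP.trans norm_ct)) hx
      obtain ⟨z, hz, z', hz', rfl⟩ := hZ x hx
      rw [Commute.mul_pow (hz'.2 z (w'.z hz)), w.n₁.pow_zt hz, n₂.pow_zt hz', one_mul]
    · rw [comm_mul_right, comm_mul_right, conj_eq_self (n₂.comm_mem hs hz').2 (w.n₁.QS hz.1)]
      exact mul_mem (mem_sup_left (mul_mem (w.n₁.comm_mem hs hz) (n₂.comm_mem hs hz')))
        (mem_sup_right (conj_ct (TP (hZT hv)) (comm_ct (n₂.SP hs) hc)))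
  have h3 : Y₂ ≤ cmod (pCoreOf p P₂) (ct p P₂) (pCoreOf p P₂) := by
    have : st p P₂ (st p P₁ B) ≤ cmod (pCoreOf p P₂) (ct p P₂) (pCoreOf p P₂) := fun x hx =>
      (mem_cmod (TP.trans norm_ct)).2 ⟨st_le_T hx, (h2 x (h1 hx)).1⟩
    refine r₂.eY.le.trans (sup_le this ?_)
    rw [r₂.stB_eq]
    exact (conjS_mono this).trans (mem_normalizer_iff_conjS.1 (le_normalizer_cmod (le_normalizer_pCoreOf _)
      norm_ct (le_normalizer_pCoreOf _) r₂.hP)).le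
  have hd := der_T_le ((commutator_mono (r₂.ht_le.trans h3) le_rfl).trans commutator_cmod_le)
  have h4 : ∀ v ∈ ht p P₂, v ^ p ∈ ct p P₂ := fun v hv => by
    obtain ⟨V, _, ⟨D⟩⟩ := exists_secRep (E := P₂) ct_le_T hd (le_normalizer_pCoreOf _) norm_ct
    obtain ⟨d, hd, b, hb, rfl⟩ := r₂.mem_Y (r₂.ht_le hv)
    have h5 : b ^ p ∈ ct p P₂ := by
      have := conj_ct r₂.hP (h2 _ (h1 (mem_conjS.1 (r₂.stB_eq.le (mem_sup_left hb))))).2.1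
      rwa [← conj_pow, show k * (k⁻¹ * b * k) * k⁻¹ = b by group] at this
    rw [← D.π_eq_zero _ (pow_mem (ht_le_T hv) p), D.π_pow (ht_le_T hv), D.π_mul _ hd.2 _ hb.2, nsmul_add,
      ← D.π_pow hd.2, ← D.π_pow hb.2, D.π_of_mem h5, D.π_of_mem (h2 _ (h1 (mem_sup_left hd))).2.1, add_zero]
  have hX : zt p P₁ ⊔ zt p P₂ ⊔ ct p P₂ ≤ pCoreOf p P₂ := sup_le hZT ct_le_T
  have hn : S ≤ normalizer ((zt p P₁ ⊔ zt p P₂ ⊔ ct p P₂ : Subgroup G) : Set G) :=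
    le_normalizer_sup (le_normalizer_sup (w.n₁.SP.trans norm_zt) (n₂.SP.trans norm_zt)) (n₂.SP.trans norm_ct)
  have hW : wt p S P₁ P₂ ⊓ ht p P₁ ⊓ st p P₁ B ≤ S := inf_le_right.trans r₂.AS
  have e' : ∀ s ∈ S, ∃ v ∈ wt p S P₁ P₂ ⊓ ht p P₁ ⊓ st p P₁ B, ∃ t ∈ pCoreOf p P₂, s = v * t := fun s hs =>
    (mem_sup_iff_of_left_le_normalizer (hW.trans (n₂.SP.trans (le_normalizer_pCoreOf _)))).1
      ((w.cover r ha haT hx).ge hs)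
  refine sZero_le (phi_le_of n₂.pS hW n₂.QS (hX.trans n₂.QS) hn e'
    (inf_le_right.trans (r₂.ab.trans (centralizer_anti inf_le_right))) (fun s hs t ht' => ?_)
    (fun v hv => mem_sup_left (mem_sup_left (w.pow_wt hv.1.1))) fun t ht' => mem_sup_right (pow_T_mem hd h4 ht'))
    hX (isPGroup_pCoreOf _) (phi_T_le hd h4)
    (fun _ => (commutator_mono (commutator_le.2 fun x hx s hs => (h2 x hx).2.2 s hs) le_rfl).trans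
      (comm_zs_ct n₂)) (fun h => absurd hp3 h) fun _ h => absurd hp3 h
  obtain ⟨v, hv, t', ht'', rfl⟩ := e' s hs
  rw [comm_mul_left]
  refine mul_mem (mem_sup_right (conj_ct (n₂.SP (hW hv)) (hd (commutator_mem_commutator ht'' ht')))) ?_
  obtain ⟨a', ha', t₁, ht₁, rfl⟩ := w.n₁.exists_mul hA.1 hAT (n₂.QS ht')
  obtain ⟨u, hu, c, hc, rfl⟩ := mem_sup_ct (ht_le_T.trans TP) (hAN ha')
  rw [comm_mul_right, comm_mul_right]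
  refine mul_mem (mul_mem (h1 (r₂.comm_A hv.2 (r₂.ht_le hu)))
    (mem_sup_right (conj_ct (TP (ht_le_T hu)) (comm_ct (n₂.SP (hW hv)) hc))))
    (conj_mem_of_mem_normalizer (hn (r.AS ha')) (mem_sup_left (mem_sup_right (n₂.zs_le ?_))))
  exact w.xi_le (comm_swap ((w.mem_wt.1 hv.1.1).2 _ ht₁))

end Tw

end CfsgLib.GN
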