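import Mathlib
import Cfsg.Agent.Lib.GN.Two2

/-!
Two pushing up groups with the same Sylow subgroup.
-/

set_option autoImplicit false
set_option linter.unusedSectionVars false

namespace CfsgLib.GN

open Subgroup Cfsg CfsgLib.LAE CfsgLib.PLocal CfsgLib.Push
open scoped commutatorElement

variable {G : Type*} [Group G] [Finite G] {p : ℕ} [Fact p.Prime] {S P M P₁ M₁ P₂ M₂ : Subgroup G}

/-- `O_p(P)` is centrally large in `S`. -/
theorem clIn_core (h : PU p S P M) (hb : Base p S) (hJ : mzJ p S = S)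
    (hz : ¬ P ≤ normalizer (cen S S : Set G)) :
    CLIn S (pCoreOf p P) :=
  (nz_of h hb hJ hz).clT

/-- Case B3a. -/
theorem mzJ_cases (h : PU p S P M) (hb : Base p S) :
    P ≤ normalizer ((⁅cen (mzJ p S) (mzJ p S), S⁆ ⊓ cen S S : Subgroup G) : Set G) ∨
      P ≤ normalizer (mzJ p S : Set G) :=
  mzJ_cases' h hb

theorem nz_and (h : PU p S P M) (hb : Base p S) (hJ : mzJ p S = S)
    (n : ¬ P ≤ normalizer ((cen S S ⊓ sZero p S : Subgroup G) : Set G)) :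
    Nz p S P M ∧ ¬ sZero p S ≤ ct p P := by
  have n' := nz_of h hb hJ fun hc => n (le_normalizer_of_le_centralizer
    ((le_centralizer_of_norm_cen h hc).trans (centralizer_anti inf_le_left)))
  exact ⟨n', fun hc => n (le_normalizer_of_le_centralizer
    (le_centralizer_iff.1 ((inf_le_inf_left _ hc).trans n'.zs_inf_ct)))⟩

/-- Case B3b: the two group lemma. -/
theorem two_groups (h₁ : PU p S P₁ M₁) (h₂ : PU p S P₂ M₂) (hb : Base p S) (hJ : mzJ p S = S)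
    (n₁ : ¬ P₁ ≤ normalizer ((cen S S ⊓ sZero p S : Subgroup G) : Set G))
    (n₂ : ¬ P₂ ≤ normalizer ((cen S S ⊓ sZero p S : Subgroup G) : Set G)) :
    ⁅pCoreOf p P₁, pResOf p P₁⁆ ≤ pCoreOf p P₂ ∧
      cen (pCoreOf p P₁) (pCoreOf p P₁) ≤ pCoreOf p P₂ := by
  obtain ⟨a₁, b₁⟩ := nz_and h₁ hb hJ n₁
  obtain ⟨a₂, b₂⟩ := nz_and h₂ hb hJ n₂
  have z₁ : zt p P₁ ≤ pCoreOf p P₂ := by_contra fun hc => b₂ (a₂.case_i a₁ hc)
  have z₂ : zt p P₂ ≤ pCoreOf p P₁ := by_contra fun hc => b₁ (a₁.case_i a₂ hc)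
  refine ⟨by_contra fun hc => ?_, z₁⟩
  have w : Tw p S P₁ M₁ P₂ M₂ := ⟨a₁, a₂, z₂, hc⟩
  exact b₂ (w.sym hJ ⟨a₂, a₁, z₁, w.asym hJ⟩)

end CfsgLib.GN
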