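import Mathlib
import Cfsg.Agent.Lib.GN.Two
import Cfsg.Agent.Lib.GN.Func
import Cfsg.Agent.Lib.GN.Embed

/-!
Existence of Glauberman-Niles pairs.
-/

set_option autoImplicit false
set_option linter.unusedSectionVars false

namespace CfsgLib.GN

open Subgroup Cfsg CfsgLib.LAE CfsgLib.PLocal CfsgLib.Push CfsgLib.ZJ
open scoped commutatorElement Pointwise

universe u

variable {p : ℕ} [Fact p.Prime] {S : Type u} [Group S] [Finite S]

theorem pair_B3a [Nontrivial S] (hS : IsPGroup p S) (hJ : jt S = ⊤) (hb : Base p (⊤ : Subgroup S))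
    (h : mzJ p (⊤ : Subgroup S) ≠ ⊤) :
    ∃ S₁ S₂ : Subgroup S, IsPair p S₁ S₂ ∧ maxCentralProduct S₂ = maxCentralProduct (jt S) := by
  have cl : CLIn ⊤ (mzJ p (⊤ : Subgroup S)) := clIn_biSup (exists_mzIn p ⊤) fun _ h => h.1.1
  have ch : (⁅cen (mzJ p (⊤ : Subgroup S)) (mzJ p ⊤), (⊤ : Subgroup S)⁆).Characteristic :=
    char_of_map fun f hf h => by rw [map_commutator, map_cen hf, map_mzJ hf, h]
  haveI := char_cen (S := S)
  refine pair_cl hS hJ (inf_center_ne_bot hS ch fun h0 => h ?_) inferInstance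
    (char_of_map fun f hf h => by rw [map_mzJ hf, h]) inf_le_right cl fun G _ _ τ M hτ H => ?_
  · exact eq_top_iff.2 ((le_inf le_rfl (le_centralizer_iff.1
      (commutator_eq_bot_iff_le_centralizer.1 h0))).trans cl.cen_cen.le)
  · rw [map_inf_eq _ _ _ hτ, map_commutator, map_cen hτ, map_cen hτ, map_mzJ hτ]
    exact mzJ_cases H (hb.map hτ)

/-- `τ` is a pushing up embedding in which `S₁` is not normal. -/
structure Bad (p : ℕ) {S G : Type u} [Group S] [Group G] (τ : S →* G) : Prop where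
  inj : Function.Injective τ
  pu : ∃ M, PU p ((⊤ : Subgroup S).map τ) ⊤ M
  nn : ¬ ⊤ ≤ normalizer (((cen ⊤ ⊤ ⊓ sZero p ⊤ : Subgroup S).map τ : Subgroup G) : Set G)

/-- The preimages of the groups `O_p(G)`. -/
def fam (p : ℕ) (S : Type u) [Group S] : Set (Subgroup S) :=
  {T | ∃ (G : Type u) (_ : Group G) (_ : Finite G) (τ : S →* G), Bad p τ ∧
    T = (pCoreOf p ⊤).comap τ}

theorem Bad.map_comap {G : Type u} [Group G] {τ : S →* G} (h : Bad p τ) :
    ((pCoreOf p ⊤).comap τ).map τ = pCoreOf p ⊤ :=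
  map_comap_eq_self (h.pu.choose_spec.QS.trans (map_le_range _ _))

theorem fam_cl (hb : Base p (⊤ : Subgroup S)) (hJ : mzJ p (⊤ : Subgroup S) = ⊤) {T : Subgroup S}
    (hT : T ∈ fam p S) : IsCentrallyLarge T := by
  obtain ⟨G, _, _, τ, h, rfl⟩ := hT
  obtain ⟨M, H⟩ := h.pu
  rw [← clIn_top_iff, ← clIn_map_inj h.inj, h.map_comap]
  refine clIn_core H (hb.map h.inj) (by rw [← map_mzJ h.inj, hJ]) fun hz => h.nn ?_
  refine le_normalizer_of_le_centralizer ((le_centralizer_of_norm_cen H hz).trans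
    (centralizer_anti ?_))
  rw [← map_cen h.inj]
  exact map_mono inf_le_left

theorem fam_two (hb : Base p (⊤ : Subgroup S)) (hJ : mzJ p (⊤ : Subgroup S) = ⊤)
    {G : Type u} [Group G] [Finite G] {τ : S →* G} (h : Bad p τ) {T : Subgroup S}
    (hT : T ∈ fam p S) : ⁅pCoreOf p (⊤ : Subgroup G), pResOf p (⊤ : Subgroup G)⁆ ≤ T.map τ ∧
      cen ((pCoreOf p ⊤).comap τ) ((pCoreOf p ⊤).comap τ) ≤ T := by
  obtain ⟨G', _, _, τ', h', rfl⟩ := hT
  obtain ⟨X, _, _, f, f', hf, hf', e⟩ := exists_amalgam_embed h.inj h'.inj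
  have hσ : Function.Injective (f.comp τ) := hf.comp h.inj
  obtain ⟨M, H⟩ := h.pu
  obtain ⟨M', H'⟩ := h'.pu
  have H1 := H.map hf
  have H2 := H'.map hf'
  rw [map_map] at H1 H2
  rw [← e] at H2
  have e1 : cen ((⊤ : Subgroup S).map (f.comp τ)) ((⊤ : Subgroup S).map (f.comp τ)) ⊓
      sZero p ((⊤ : Subgroup S).map (f.comp τ)) =
      (cen ⊤ ⊤ ⊓ sZero p ⊤ : Subgroup S).map (f.comp τ) := by
    rw [map_inf_eq _ _ _ hσ, map_cen hσ, map_sZero hσ]
  obtain ⟨h1, h2⟩ := two_groups H1 H2 (hb.map hσ) (by rw [← map_mzJ hσ, hJ])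
    (by rw [e1, ← map_map, map_le_normalizer_map_iff hf]; exact h.nn)
    (by rw [e1, e, ← map_map, map_le_normalizer_map_iff hf']; exact h'.nn)
  rw [← map_pCoreOf hf', ← h'.map_comap, map_map, ← e, ← map_pCoreOf hf] at h1 h2
  rw [← map_pResOf_of_injective hf, ← map_commutator, ← map_map,
    map_le_map_iff_of_injective hf] at h1
  rw [← h.map_comap, map_map, ← map_cen hσ, map_le_map_iff_of_injective hσ] at h2
  exact ⟨h1, h2⟩

theorem cl_sInf {F : Set (Subgroup S)} (top : IsCentrallyLarge (⊤ : Subgroup S))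
    (cl : ∀ T ∈ F, IsCentrallyLarge T) (h : ∀ T ∈ F, ∀ T' ∈ F, cen T T ≤ T') :
    IsCentrallyLarge (sInf F) := by
  have key : ∀ U : Set (Subgroup S), U.Finite → U ⊆ F → IsCentralizerLarge (sInf U) ∧
      ∀ T ∈ F, centralizer ((sInf U : Subgroup S) : Set S) ≤ T := by
    intro U hU
    induction U, hU using Set.Finite.induction_on with
    | empty =>
      rw [sInf_empty]
      exact fun _ => ⟨CL.IsCL.cd top, fun T hT =>
        (centralizer_anti le_top).trans (CL.IsCL.centralizer_le (cl T hT))⟩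
    | insert _ _ ih =>
      intro hs
      obtain ⟨h0, hs⟩ := Set.insert_subset_iff.1 hs
      obtain ⟨h1, h2⟩ := ih hs
      rw [sInf_insert, CL.cd_centralizer_inf (CL.IsCL.cd (cl _ h0)) h1]
      exact ⟨CL.cd_inf (CL.IsCL.cd (cl _ h0)) h1, fun T hT => sup_le
        ((CL.IsCL.inf_centralizer (cl _ h0)).ge.trans (h _ h0 T hT)) (h2 T hT)⟩
  obtain ⟨h1, h2⟩ := key F (Set.toFinite F) le_rfl
  exact CL.isCentrallyLarge_iff.2 ⟨h1, le_sInf h2⟩

theorem pair_B3b [Nontrivial S] (hS : IsPGroup p S) (hJ : jt S = ⊤) (hb : Base p (⊤ : Subgroup S))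
    (h : mzJ p (⊤ : Subgroup S) = ⊤) (h0 : sZero p (⊤ : Subgroup S) ≠ ⊥) :
    ∃ S₁ S₂ : Subgroup S, IsPair p S₁ S₂ ∧ maxCentralProduct S₂ = maxCentralProduct (jt S) := by
  haveI ch : (sZero p (⊤ : Subgroup S)).Characteristic :=
    char_of_map fun f hf h => by rw [map_sZero hf, h]
  haveI := char_cen (S := S)
  have ch₁ : (cen ⊤ ⊤ ⊓ sZero p ⊤ : Subgroup S).Characteristic := inferInstance
  haveI ch₂ : (sInf (fam p S)).Characteristic := by
    refine characteristic_iff_le_comap.2 fun φ x hx => mem_comap.2 (mem_sInf.2 ?_)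
    rintro _ ⟨G, _, _, τ, b, rfl⟩
    have e : (⊤ : Subgroup S).map (τ.comp φ.toMonoidHom) = (⊤ : Subgroup S).map τ := by
      rw [← map_map, map_top_of_surjective _ φ.surjective]
    refine mem_sInf.1 hx _ ⟨G, _, inferInstance, τ.comp φ.toMonoidHom,
      ⟨b.inj.comp φ.injective, e ▸ b.pu, ?_⟩, rfl⟩
    rw [← map_map, characteristic_iff_map_eq.1 ch₁ φ]
    exact b.nn
  refine pair_cl (S₁ := cen ⊤ ⊤ ⊓ sZero p ⊤) hS hJ
    (by rw [inf_comm]; exact inf_center_ne_bot hS ch h0) ch₁ ch₂ inf_le_left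
    (clIn_top_iff.2 (cl_sInf (clIn_top_iff.1 hb.cl) (fun _ => fam_cl hb h) ?_))
    fun G _ _ τ M hτ H => (em _).imp id fun hn => ?_
  · rintro _ ⟨G, _, _, τ, b, rfl⟩ T hT
    exact (fam_two hb h b hT).2
  · have b : Bad p τ := ⟨hτ, ⟨M, H⟩, hn⟩
    have m : (pCoreOf p ⊤).comap τ ∈ fam p S := ⟨G, _, inferInstance, τ, b, rfl⟩
    refine H.le_of_pResOf_le (le_normalizer_iff_commutator_le_left.2 fun x hx => ?_)
      (map_le_normalizer_map τ le_normalizer_of_normal)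
    have hx := commutator_mono ((map_mono (sInf_le m)).trans b.map_comap.le) le_rfl hx
    obtain ⟨s, -, rfl⟩ := (fam_two hb h b m).1 hx
    exact mem_map_of_mem τ (mem_sInf.2 fun T hT =>
      (mem_map_iff_mem hτ).1 ((fam_two hb h b hT).1 hx))

/-- The exceptional class. -/
def Exc (p : ℕ) (S : Type*) [Group S] : Prop :=
  ¬ IsMulCommutative S ∧ thompsonSubgroupA S = ⊤ ∧ IsElementaryAbelian p (center S) ∧ ExcD p S ∧
    ExcF S

theorem exists_pair [Nontrivial S] (hS : IsPGroup p S) (h : ¬ Exc p S) :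
    ∃ S₁ S₂ : Subgroup S, IsPair p S₁ S₂ ∧ maxCentralProduct S₂ = maxCentralProduct (jt S) := by
  by_cases hJ : jt S = ⊤
  swap
  · exact (pair_A hS hJ).imp fun _ h => ⟨_, h, rfl⟩
  by_cases hc : IsMulCommutative S
  · exact (pair_B0 hS hc).imp fun _ h => ⟨_, h, rfl⟩
  by_cases el : IsElementaryAbelian p (center S)
  swap
  · exact (pair_B1 hS el).imp fun _ h => ⟨_, h, rfl⟩
  by_cases hQ : ∀ Q : Subgroup S, MCLIn ⊤ Q → ⁅Q, Q⁆ = ⊥
  swap
  · obtain ⟨Q, hQ⟩ := not_forall.1 hQ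
    exact pair_B2 hS hJ (Classical.not_imp.1 hQ).1 (Classical.not_imp.1 hQ).2
  obtain ⟨hT, hb, hF⟩ := base_of_comm hJ hQ el
  by_cases hm : mzJ p (⊤ : Subgroup S) = ⊤
  · exact pair_B3b hS hJ hb hm fun h0 => h ⟨hc, hT, el, (sZero_eq_bot_iff hS).1 h0, hF⟩
  · exact pair_B3a hS hJ hb hm

theorem Good.normal {S₁ S₂ : Subgroup S} (h : Good p S₁ S₂) (G : Type u) [Group G] [Finite G]
    (P : Subgroup G) (e : S ≃* P) (H : IsPushingUpSituation p P) :
    (S₁.map (P.subtype.comp e.toMonoidHom)).Normal ∨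
      (S₂.map (P.subtype.comp e.toMonoidHom)).Normal := by
  obtain ⟨M, H⟩ := exists_PU H
  refine (h G _ M (P.subtype_injective.comp e.injective) ?_).imp normal_of_top_le normal_of_top_le
  rwa [← map_map, map_top_of_surjective _ e.surjective, map_top_subtype]

end CfsgLib.GN
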